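import Mathlib

set_option autoImplicit false

namespace Cfsg.Agent.Helper14.SymmChar2

open Module

universe u

variable {F : Type*} [Field F]

/-- extend a basis of a submodule by two vectors -/
theorem cons2 {V : Type*} [AddCommGroup V] [Module F V] (W : Submodule F V) {n : ℕ}
    (b' : Basis (Fin n) F W) (e f : V)
    (h1 : ∀ a c : F, a • e + c • f ∈ W → a = 0 ∧ c = 0)
    (h2 : ∀ v : V, ∃ a c : F, v - a • e - c • f ∈ W) :
    ∃ b : Basis (Fin (n + 2)) F V, b 0 = e ∧ b 1 = f ∧ ∀ i : Fin n, b i.succ.succ = (b' i : V) := by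
  set g0 : Fin n → V := fun i => (b' i : V) with hg0
  have hLI0 : LinearIndependent F g0 :=
    b'.linearIndependent.map' W.subtype (Submodule.ker_subtype W)
  have hsp0 : Submodule.span F (Set.range g0) = W := by
    rw [show g0 = W.subtype ∘ b' from rfl, Set.range_comp, ← Submodule.map_span, b'.span_eq,
      Submodule.map_top, Submodule.range_subtype]
  have hfW : f ∉ W := by
    intro hf
    have := h1 0 1 (by simpa using hf)
    exact one_ne_zero this.2
  have hLI1 : LinearIndependent F (Fin.cons f g0 : Fin (n + 1) → V) := by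
    rw [linearIndependent_finCons]
    exact ⟨hLI0, by rw [hsp0]; exact hfW⟩
  have hsp1 : Submodule.span F (Set.range (Fin.cons f g0 : Fin (n + 1) → V))
      = Submodule.span F {f} ⊔ W := by
    rw [Fin.range_cons, Submodule.span_insert, hsp0]
  have hLI2 : LinearIndependent F (Fin.cons e (Fin.cons f g0 : Fin (n + 1) → V) : Fin (n + 2) → V) := by
    rw [linearIndependent_finCons]
    refine ⟨hLI1, ?_⟩
    rw [hsp1]
    intro he
    obtain ⟨y, hy, w, hw, hyw⟩ := Submodule.mem_sup.mp he
    obtain ⟨c, rfl⟩ := Submodule.mem_span_singleton.mp hy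
    have : (1 : F) • e + (-c) • f ∈ W := by
      have : (1 : F) • e + (-c) • f = w := by rw [← hyw]; simp
      rw [this]; exact hw
    exact one_ne_zero (h1 1 (-c) this).1
  have hsp2 : ⊤ ≤ Submodule.span F (Set.range
      (Fin.cons e (Fin.cons f g0 : Fin (n + 1) → V) : Fin (n + 2) → V)) := by
    rw [Fin.range_cons, Submodule.span_insert, hsp1]
    intro v _
    obtain ⟨a, c, hv⟩ := h2 v
    have : v = a • e + (c • f + (v - a • e - c • f)) := by abel
    rw [this]
    exact Submodule.add_mem_sup (Submodule.smul_mem _ _ (Submodule.mem_span_singleton_self _))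
      (Submodule.add_mem_sup (Submodule.smul_mem _ _ (Submodule.mem_span_singleton_self _)) hv)
  refine ⟨Basis.mk hLI2 hsp2, ?_, ?_, ?_⟩
  · rw [Basis.mk_apply]; rfl
  · rw [Basis.mk_apply]; rfl
  · intro i
    rw [Basis.mk_apply]; rfl

/-- extend a basis of a submodule by one vector -/
theorem cons1 {V : Type*} [AddCommGroup V] [Module F V] (W : Submodule F V) {n : ℕ}
    (b' : Basis (Fin n) F W) (e : V)
    (h1 : ∀ a : F, a • e ∈ W → a = 0)
    (h2 : ∀ v : V, ∃ a : F, v - a • e ∈ W) :
    ∃ b : Basis (Fin (n + 1)) F V, b 0 = e ∧ ∀ i : Fin n, b i.succ = (b' i : V) := by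
  set g0 : Fin n → V := fun i => (b' i : V) with hg0
  have hLI0 : LinearIndependent F g0 :=
    b'.linearIndependent.map' W.subtype (Submodule.ker_subtype W)
  have hsp0 : Submodule.span F (Set.range g0) = W := by
    rw [show g0 = W.subtype ∘ b' from rfl, Set.range_comp, ← Submodule.map_span, b'.span_eq,
      Submodule.map_top, Submodule.range_subtype]
  have heW : e ∉ W := by
    intro hf
    have := h1 1 (by simpa using hf)
    exact one_ne_zero this
  have hLI1 : LinearIndependent F (Fin.cons e g0 : Fin (n + 1) → V) := by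
    rw [linearIndependent_finCons]
    exact ⟨hLI0, by rw [hsp0]; exact heW⟩
  have hsp1 : ⊤ ≤ Submodule.span F (Set.range (Fin.cons e g0 : Fin (n + 1) → V)) := by
    rw [Fin.range_cons, Submodule.span_insert, hsp0]
    intro v _
    obtain ⟨a, hv⟩ := h2 v
    have : v = a • e + (v - a • e) := by abel
    rw [this]
    exact Submodule.add_mem_sup (Submodule.smul_mem _ _ (Submodule.mem_span_singleton_self _)) hv
  refine ⟨Basis.mk hLI1 hsp1, ?_, ?_⟩
  · rw [Basis.mk_apply]; rfl
  · intro i
    rw [Basis.mk_apply]; rfl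

theorem exists_good_vec {V : Type*} [AddCommGroup V] [Module F V]
    (hsq : ∀ a : F, ∃ c, c * c = a) (B : LinearMap.BilinForm F V)
    (hB : ∀ u v, B u v = B v u) (v0 : V) (hv0 : B v0 v0 ≠ 0) :
    ∃ x, B x x = 1 ∧ ((∃ w, B x w = 0 ∧ B w w ≠ 0) ∨
      ∀ w w', B x w = 0 → B x w' = 0 → B w w' = 0) := by
  obtain ⟨x, hx, hgood⟩ : ∃ x, B x x ≠ 0 ∧ ((∃ w, B x w = 0 ∧ B w w ≠ 0) ∨
      ∀ w w', B x w = 0 → B x w' = 0 → B w w' = 0) := by
    by_cases h1 : ∃ w, B v0 w = 0 ∧ B w w ≠ 0
    · exact ⟨v0, hv0, Or.inl h1⟩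
    by_cases h2 : ∀ w w', B v0 w = 0 → B v0 w' = 0 → B w w' = 0
    · exact ⟨v0, hv0, Or.inr h2⟩
    push Not at h1 h2
    obtain ⟨e, f, he, hf, hef⟩ := h2
    have hee := h1 e he
    have hff := h1 f hf
    have he' : B e v0 = 0 := by rw [hB]; exact he
    have hf' : B f v0 = 0 := by rw [hB]; exact hf
    refine ⟨v0 + e, ?_, Or.inl ⟨f - (B e f / B v0 v0) • v0, ?_, ?_⟩⟩
    · simp only [map_add, LinearMap.add_apply, hee, he, he', add_zero]
      exact hv0
    · simp only [map_add, map_sub, map_smul, LinearMap.add_apply, hf, he', zero_sub, smul_eq_mul,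
        mul_zero, sub_zero]
      field_simp
      ring
    · simp only [map_sub, map_smul, LinearMap.sub_apply, LinearMap.smul_apply, hff, hf, hf',
        smul_eq_mul, mul_zero, zero_sub, sub_zero, sub_neg_eq_add, zero_add, neg_neg]
      have : B e f / B v0 v0 * (B e f / B v0 v0 * B v0 v0) = B e f * B e f / B v0 v0 := by
        field_simp
      intro h0
      rw [mul_neg, neg_neg, this] at h0
      rcases div_eq_zero_iff.mp h0 with h | h
      · exact hef (mul_self_eq_zero.mp h)
      · exact hv0 h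
  obtain ⟨c, hc⟩ := hsq (B x x)⁻¹
  have hc0 : c ≠ 0 := by
    rintro rfl
    rw [mul_zero] at hc
    exact hx (inv_eq_zero.mp hc.symm)
  refine ⟨c • x, ?_, ?_⟩
  · simp only [map_smul, LinearMap.smul_apply, smul_eq_mul]
    rw [← mul_assoc, hc, inv_mul_cancel₀ hx]
  · have key : ∀ w, B (c • x) w = 0 ↔ B x w = 0 := by
      intro w
      simp only [map_smul, LinearMap.smul_apply, smul_eq_mul, mul_eq_zero, hc0, false_or]
    rcases hgood with ⟨w, hw1, hw2⟩ | h
    · exact Or.inl ⟨w, (key w).mpr hw1, hw2⟩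
    · exact Or.inr fun w w' hw hw' => h w w' ((key w).mp hw) ((key w').mp hw')

theorem nonalt_basis (hsq : ∀ a : F, ∃ c, c * c = a) :
    ∀ (n : ℕ) (V : Type u) [AddCommGroup V] [Module F V] [Module.Finite F V]
      (B : LinearMap.BilinForm F V), (∀ u v, B u v = B v u) → Module.finrank F V = n →
      (B = 0 ∨ ∃ v, B v v ≠ 0) →
      ∃ s, s ≤ n ∧ ∃ b : Basis (Fin n) F V, ∀ i j, B (b i) (b j) = if i = j ∧ i.val < s then 1 else 0 := by
  intro n
  induction n with
  | zero =>
    intro V _ _ _ B hB hd _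
    exact ⟨0, le_rfl, basisOfFinrankZero hd, fun i => i.elim0⟩
  | succ d ih =>
    intro V _ _ _ B hB hd hgood
    rcases hgood with rfl | ⟨v0, hv0⟩
    · exact ⟨0, Nat.zero_le _, (Module.finBasis F V).reindex (finCongr hd), by simp⟩
    obtain ⟨x, hx1, hxgood⟩ := exists_good_vec hsq B hB v0 hv0
    set W : Submodule F V := LinearMap.ker (B x) with hW
    have h1 : ∀ a : F, a • x ∈ W → a = 0 := by
      intro a ha
      rw [hW, LinearMap.mem_ker, map_smul, hx1, smul_eq_mul, mul_one] at ha
      exact ha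
    have h2 : ∀ v : V, ∃ a : F, v - a • x ∈ W := by
      intro v
      refine ⟨B x v, ?_⟩
      rw [hW, LinearMap.mem_ker, map_sub, map_smul, hx1, smul_eq_mul, mul_one, sub_self]
    have hdW : Module.finrank F W = d := by
      obtain ⟨b0, -⟩ := cons1 W (Module.finBasis F W) x h1 h2
      have := Module.finrank_eq_card_basis b0
      rw [Fintype.card_fin, hd] at this
      omega
    have hgood' : (B.domRestrict₁₂ W W = 0 ∨ ∃ v : W, B.domRestrict₁₂ W W v v ≠ 0) := by
      rcases hxgood with ⟨w, hw1, hw2⟩ | h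
      · exact Or.inr ⟨⟨w, hw1⟩, hw2⟩
      · left
        ext ⟨w, hw⟩ ⟨w', hw'⟩
        exact h w w' hw hw'
    obtain ⟨s, hs, b', hb'⟩ := ih W (B.domRestrict₁₂ W W) (fun u v => hB u v) hdW hgood'
    obtain ⟨b, hb0, hbs⟩ := cons1 W b' x h1 h2
    refine ⟨s + 1, by omega, b, ?_⟩
    intro i j
    refine Fin.cases ?_ (fun i => ?_) i <;> refine Fin.cases ?_ (fun j => ?_) j
    · rw [hb0, hx1]; simp
    · rw [hb0, hbs]
      have : B x (b' j : V) = 0 := (b' j).2
      rw [this]; simp [Fin.ext_iff]
    · rw [hb0, hbs, hB]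
      have : B x (b' i : V) = 0 := (b' i).2
      rw [this]; simp [Fin.ext_iff]
    · rw [hbs, hbs]
      have := hb' i j
      simp only [LinearMap.domRestrict₁₂_apply] at this
      rw [this]
      simp [Fin.ext_iff]

/-- the fixed-point-free involution `2i ↔ 2i+1` on `ℕ` -/
def sg (i : ℕ) : ℕ := if i % 2 = 0 then i + 1 else i - 1

theorem sg_sg (i : ℕ) : sg (sg i) = i := by
  unfold sg; split_ifs <;> omega

theorem sg_lt (i k : ℕ) (h : i < 2 * k) : sg i < 2 * k := by
  unfold sg; split_ifs <;> omega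

theorem sg_ne (i : ℕ) : sg i ≠ i := by
  unfold sg; split_ifs <;> omega

theorem alt_basis [CharP F 2] :
    ∀ (n : ℕ) (V : Type u) [AddCommGroup V] [Module F V] [Module.Finite F V]
      (B : LinearMap.BilinForm F V), (∀ v, B v v = 0) → Module.finrank F V = n →
      ∃ k, 2 * k ≤ n ∧ ∃ b : Basis (Fin n) F V,
        ∀ i j, B (b i) (b j) = if i.val < 2 * k ∧ j.val = sg i.val then 1 else 0 := by
  intro n
  induction n using Nat.strong_induction_on with
  | _ n ih =>
    intro V _ _ _ B hB hd
    have hsymm : ∀ u v, B u v = B v u := by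
      intro u v
      have h := hB (u + v)
      simp only [map_add, LinearMap.add_apply, hB, zero_add, add_zero] at h
      have : B u v = - B v u := by linear_combination h
      rw [this, CharTwo.neg_eq]
    by_cases hB0 : B = 0
    · subst hB0
      exact ⟨0, Nat.zero_le _, (Module.finBasis F V).reindex (finCongr hd), by simp⟩
    obtain ⟨e, f0, hef0⟩ : ∃ e f0, B e f0 ≠ 0 := by
      by_contra hcon
      push Not at hcon
      exact hB0 (by ext u v; exact hcon u v)
    set f := (B e f0)⁻¹ • f0 with hf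
    have hef : B e f = 1 := by rw [hf, map_smul, smul_eq_mul, inv_mul_cancel₀ hef0]
    have hfe : B f e = 1 := by rw [hsymm, hef]
    set W : Submodule F V := LinearMap.ker (B e) ⊓ LinearMap.ker (B f) with hW
    have hmemW : ∀ v, v ∈ W ↔ B e v = 0 ∧ B f v = 0 := by
      intro v; rw [hW]; simp [Submodule.mem_inf]
    have h1 : ∀ a c : F, a • e + c • f ∈ W → a = 0 ∧ c = 0 := by
      intro a c h
      rw [hmemW] at h
      simp only [map_add, map_smul, hB, hef, hfe, smul_eq_mul, mul_zero, mul_one, zero_add,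
        add_zero] at h
      exact ⟨h.2, h.1⟩
    have h2 : ∀ v : V, ∃ a c : F, v - a • e - c • f ∈ W := by
      intro v
      refine ⟨B f v, B e v, ?_⟩
      rw [hmemW]
      simp only [map_sub, map_smul, hB, hef, hfe, smul_eq_mul, mul_zero, mul_one, sub_zero,
        sub_self, and_self]
    obtain ⟨b0, -⟩ := cons2 W (Module.finBasis F W) e f h1 h2
    have hn : n = Module.finrank F W + 2 := by
      have := Module.finrank_eq_card_basis b0
      rw [Fintype.card_fin, hd] at this
      exact this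
    subst hn
    obtain ⟨k, hk, b', hb'⟩ := ih (Module.finrank F W) (by omega) W (B.domRestrict₁₂ W W)
      (fun v => hB v) rfl
    obtain ⟨b, hb0, hb1, hbs⟩ := cons2 W b' e f h1 h2
    have hb1' : b (Fin.succ 0) = f := hb1
    refine ⟨k + 1, by omega, b, ?_⟩
    have hW1 : ∀ i, B e (b' i : V) = 0 := fun i => ((hmemW _).mp (b' i).2).1
    have hW2 : ∀ i, B f (b' i : V) = 0 := fun i => ((hmemW _).mp (b' i).2).2
    intro i j
    refine Fin.cases ?_ (fun i => Fin.cases ?_ (fun i => ?_) i) i <;>
      refine Fin.cases ?_ (fun j => Fin.cases ?_ (fun j => ?_) j) j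
    · rw [hb0, hB, if_neg]; simp [sg]
    · rw [hb0, hb1', hef, if_pos]; simp [sg]
    · rw [hb0, hbs, hW1, if_neg]; simp [sg]
    · rw [hb0, hb1', hfe, if_pos]; simp [sg]; omega
    · rw [hb1', hB, if_neg]; simp [sg]
    · rw [hb1', hbs, hW2, if_neg]; simp [sg]
    · rw [hb0, hbs, hsymm, hW1, if_neg]
      simp only [Fin.val_succ, Fin.val_zero]
      unfold sg; split_ifs
      all_goals (first | omega | simp)
    · rw [hb1', hbs, hsymm, hW2, if_neg]
      simp only [Fin.val_succ, Fin.val_zero]
      unfold sg; split_ifs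
      all_goals (first | omega | simp)
    · rw [hbs, hbs]
      have := hb' i j
      rw [LinearMap.domRestrict₁₂_apply] at this
      rw [this]
      refine if_congr ?_ rfl rfl
      simp only [Fin.val_succ]
      unfold sg; split_ifs <;> omega

end Cfsg.Agent.Helper14.SymmChar2
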