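import Mathlib
import Cfsg.Agent.Helper14.SymmChar2
import Cfsg.Agent.Helper6.SpFrames

set_option autoImplicit false

namespace Cfsg.Agent.Helper14.SpInv2

open Matrix Module Cfsg.Agent.Helper14.SymmChar2

variable {F : Type*} [Field F]

theorem exists_sqrt [Finite F] [CharP F 2] (a : F) : ∃ c : F, c * c = a := by
  obtain ⟨c, hc⟩ := surjective_frobenius F 2 a
  exact ⟨c, by rw [← hc, frobenius_def, pow_two]⟩

theorem gram_apply {m : ℕ} (A S : Matrix (Fin m) (Fin m) F) (i k : Fin m) :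
    (A * S * Aᵀ) i k = A i ⬝ᵥ S *ᵥ A k := by
  simp only [Matrix.mul_apply, dotProduct, Matrix.mulVec, Matrix.transpose_apply, Finset.sum_mul,
    Finset.mul_sum]
  rw [Finset.sum_comm]
  refine Finset.sum_congr rfl fun j _ => Finset.sum_congr rfl fun l _ => by ring

/-- non-alternating normal form -/
def Dn (F : Type*) [Field F] (m s : ℕ) : Matrix (Fin m) (Fin m) F :=
  Matrix.diagonal (fun i => if i.val < s then 1 else 0)

/-- alternating normal form -/
def Da (F : Type*) [Field F] (m k : ℕ) : Matrix (Fin m) (Fin m) F :=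
  Matrix.of (fun i j => if i.val < 2 * k ∧ j.val = sg i.val then 1 else 0)

theorem exists_cong_of_basis {m : ℕ} (S : Matrix (Fin m) (Fin m) F)
    (b : Basis (Fin m) F (Fin m → F)) :
    ∃ A : Matrix (Fin m) (Fin m) F, IsUnit A.det ∧
      ∀ i k, (A * S * Aᵀ) i k = Matrix.toBilin' S (b i) (b k) := by
  refine ⟨Matrix.of (fun i j => b i j), ?_, ?_⟩
  · rw [← Matrix.isUnit_iff_isUnit_det, ← Matrix.linearIndependent_rows_iff_isUnit]
    exact b.linearIndependent
  · intro i k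
    rw [gram_apply, Matrix.toBilin'_apply']
    rfl

theorem toBilin_symm {m : ℕ} (S : Matrix (Fin m) (Fin m) F) (hS : Sᵀ = S) (u v : Fin m → F) :
    Matrix.toBilin' S u v = Matrix.toBilin' S v u := by
  rw [Matrix.toBilin'_apply', Matrix.toBilin'_apply', Matrix.dotProduct_mulVec,
    ← Matrix.mulVec_transpose, hS, dotProduct_comm]

theorem nonalt_cong [Finite F] [CharP F 2] {m : ℕ} (S : Matrix (Fin m) (Fin m) F) (hS : Sᵀ = S)
    (hna : ∃ v : Fin m → F, v ⬝ᵥ S *ᵥ v ≠ 0) :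
    ∃ s, s ≤ m ∧ ∃ A : Matrix (Fin m) (Fin m) F, IsUnit A.det ∧ A * S * Aᵀ = Dn F m s := by
  obtain ⟨s, hs, b, hb⟩ := nonalt_basis exists_sqrt m (Fin m → F) (Matrix.toBilin' S)
    (toBilin_symm S hS) (by simp)
    (Or.inr (by obtain ⟨v, hv⟩ := hna; exact ⟨v, by rwa [Matrix.toBilin'_apply']⟩))
  obtain ⟨A, hA, hAS⟩ := exists_cong_of_basis S b
  refine ⟨s, hs, A, hA, ?_⟩
  ext i k
  rw [hAS, hb, Dn, Matrix.diagonal_apply]
  by_cases h1 : i = k
  · subst h1
    by_cases h2 : i.val < s <;> simp [h2]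
  · simp [h1]

theorem alt_cong [CharP F 2] {m : ℕ} (S : Matrix (Fin m) (Fin m) F)
    (ha : ∀ v : Fin m → F, v ⬝ᵥ S *ᵥ v = 0) :
    ∃ k, 2 * k ≤ m ∧ ∃ A : Matrix (Fin m) (Fin m) F, IsUnit A.det ∧ A * S * Aᵀ = Da F m k := by
  obtain ⟨k, hk, b, hb⟩ := alt_basis m (Fin m → F) (Matrix.toBilin' S)
    (fun v => by rw [Matrix.toBilin'_apply']; exact ha v) (by simp)
  obtain ⟨A, hA, hAS⟩ := exists_cong_of_basis S b
  refine ⟨k, hk, A, hA, ?_⟩
  ext i j
  rw [hAS, hb, Da, Matrix.of_apply]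

theorem rank_Dn {m s : ℕ} (hs : s ≤ m) : (Dn F m s).rank = s := by
  classical
  rw [Dn, Matrix.rank_diagonal]
  have e : {i : Fin m // (if i.val < s then (1 : F) else 0) ≠ 0} ≃ Fin s :=
    { toFun := fun i => ⟨i.1.1, by
        have := i.2
        by_contra hlt
        exact this (if_neg hlt)⟩
      invFun := fun j => ⟨⟨j.1, lt_of_lt_of_le j.2 hs⟩, by simp⟩
      left_inv := fun i => rfl
      right_inv := fun j => rfl }
  rw [Fintype.card_congr e, Fintype.card_fin]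

theorem Da_transpose (m k : ℕ) : (Da F m k)ᵀ = Da F m k := by
  ext i j
  simp only [Matrix.transpose_apply, Da, Matrix.of_apply]
  refine if_congr ?_ rfl rfl
  constructor
  · rintro ⟨h1, h2⟩
    exact ⟨by rw [h2]; exact sg_lt _ _ h1, by rw [h2, sg_sg]⟩
  · rintro ⟨h1, h2⟩
    exact ⟨by rw [h2]; exact sg_lt _ _ h1, by rw [h2, sg_sg]⟩

theorem Da_diag (m k : ℕ) (i : Fin m) : Da F m k i i = 0 := by
  simp only [Da, Matrix.of_apply]
  rw [if_neg]
  rintro ⟨-, h⟩
  exact sg_ne _ h.symm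

theorem Da_mul_Da {m k : ℕ} (hk : 2 * k ≤ m) : Da F m k * Da F m k = Dn F m (2 * k) := by
  ext i j
  rw [Matrix.mul_apply, Dn, Matrix.diagonal_apply]
  by_cases hi : i.val < 2 * k
  · have hl : sg i.val < m := lt_of_lt_of_le (sg_lt _ _ hi) hk
    rw [Finset.sum_eq_single (⟨sg i.val, hl⟩ : Fin m)]
    · have h1 : Da F m k i ⟨sg i.val, hl⟩ = 1 := by simp [Da, hi]
      have h2 : Da F m k ⟨sg i.val, hl⟩ j = if i = j then 1 else 0 := by
        simp only [Da, Matrix.of_apply, sg_sg]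
        refine if_congr ?_ rfl rfl
        constructor
        · rintro ⟨-, h⟩; exact Fin.ext h.symm
        · rintro rfl; exact ⟨sg_lt _ _ hi, rfl⟩
      rw [h1, h2, one_mul]
      by_cases hij : i = j
      · subst hij; simp [hi]
      · simp [hij]
    · intro l _ hl'
      simp only [Da, Matrix.of_apply]
      rw [if_neg, zero_mul]
      rintro ⟨-, h⟩
      exact hl' (Fin.ext h)
    · intro h; exact absurd (Finset.mem_univ _) h
  · rw [Finset.sum_eq_zero]
    · split_ifs <;> rfl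
    · intro l _
      simp only [Da, Matrix.of_apply]
      rw [if_neg (fun h => hi h.1), zero_mul]

theorem Dn_mul_Da (m k : ℕ) : Dn F m (2 * k) * Da F m k = Da F m k := by
  ext i j
  rw [Dn, Matrix.diagonal_mul]
  simp only [Da, Matrix.of_apply]
  by_cases hi : i.val < 2 * k
  · rw [if_pos hi, one_mul]
  · rw [if_neg hi, zero_mul, if_neg (fun h => hi h.1)]

theorem rank_Da {m k : ℕ} (hk : 2 * k ≤ m) : (Da F m k).rank = 2 * k := by
  apply le_antisymm
  · calc (Da F m k).rank = (Dn F m (2 * k) * Da F m k).rank := by rw [Dn_mul_Da]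
      _ ≤ (Dn F m (2 * k)).rank := Matrix.rank_mul_le_left _ _
      _ = 2 * k := rank_Dn hk
  · have := Matrix.rank_mul_le_left (Da F m k) (Da F m k)
    rw [Da_mul_Da hk, rank_Dn hk] at this
    exact this

theorem alt_of_diag [CharP F 2] {m : ℕ} (S : Matrix (Fin m) (Fin m) F) (hS : Sᵀ = S)
    (hd : ∀ i, S i i = 0) (b : Fin m → F) : b ⬝ᵥ S *ᵥ b = 0 := by
  have h1 : b ⬝ᵥ S *ᵥ b = ∑ x ∈ (Finset.univ : Finset (Fin m × Fin m)), b x.1 * S x.1 x.2 * b x.2 := by
    rw [Fintype.sum_prod_type' (f := fun i j => b i * S i j * b j)]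
    simp only [dotProduct, Matrix.mulVec, Finset.mul_sum, mul_assoc]
  rw [h1]
  refine Finset.sum_involution (fun x _ => x.swap) ?_ ?_ ?_ ?_
  · intro x _
    have : S x.2 x.1 = S x.1 x.2 := by
      conv_lhs => rw [← hS]
      rfl
    simp only [Prod.fst_swap, Prod.snd_swap, this]
    rw [show b x.2 * S x.1 x.2 * b x.1 = b x.1 * S x.1 x.2 * b x.2 by ring]
    exact CharTwo.add_self_eq_zero _
  · intro x _ hx hsw
    apply hx
    have : x.1 = x.2 := by
      have := congrArg Prod.fst hsw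
      simpa using this.symm
    rw [this, hd, mul_zero, zero_mul]
  · intro x _; exact Finset.mem_univ _
  · intro x _; exact Prod.swap_swap x

theorem TS_mem {m : ℕ} (S : Matrix (Fin m) (Fin m) F) (hS : Sᵀ = S) :
    (Matrix.fromBlocks 1 S 0 1 : Matrix (Fin m ⊕ Fin m) (Fin m ⊕ Fin m) F) ∈
      Matrix.symplecticGroup (Fin m) F := by
  rw [SymplecticGroup.mem_iff]
  simp [Matrix.J, Matrix.fromBlocks_transpose, Matrix.fromBlocks_multiply, hS]

/-- the block unitriangular symplectic matrix attached to a symmetric matrix -/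
noncomputable def TS {m : ℕ} (S : Matrix (Fin m) (Fin m) F) : Matrix.symplecticGroup (Fin m) F :=
  haveI := Classical.propDecidable (Sᵀ = S)
  if h : Sᵀ = S then ⟨Matrix.fromBlocks 1 S 0 1, TS_mem S h⟩ else 1

theorem coe_TS {m : ℕ} (S : Matrix (Fin m) (Fin m) F) (hS : Sᵀ = S) :
    ((TS S : Matrix.symplecticGroup (Fin m) F) : Matrix (Fin m ⊕ Fin m) (Fin m ⊕ Fin m) F)
      = Matrix.fromBlocks 1 S 0 1 := by
  rw [TS, dif_pos hS]

theorem TS_sq [CharP F 2] {m : ℕ} (S : Matrix (Fin m) (Fin m) F) (hS : Sᵀ = S) :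
    TS S * TS S = 1 := by
  apply Subtype.ext
  rw [Cfsg.Agent.Helper6.sp_coe_mul, Cfsg.Agent.Helper6.sp_coe_one, coe_TS S hS,
    Matrix.fromBlocks_multiply]
  have : S + S = 0 := by
    ext i j
    exact CharTwo.add_self_eq_zero _
  simp [this, Matrix.fromBlocks_one]

theorem TS_ne_one {m : ℕ} (S : Matrix (Fin m) (Fin m) F) (hS : Sᵀ = S) (h0 : S ≠ 0) :
    TS S ≠ 1 := by
  intro h
  have h' := congrArg (fun g : Matrix.symplecticGroup (Fin m) F =>
    (g : Matrix (Fin m ⊕ Fin m) (Fin m ⊕ Fin m) F)) h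
  simp only [coe_TS S hS, Cfsg.Agent.Helper6.sp_coe_one] at h'
  rw [← Matrix.fromBlocks_one, Matrix.fromBlocks_inj] at h'
  exact h0 h'.2.1

theorem TS_conj {m : ℕ} (S : Matrix (Fin m) (Fin m) F) (hS : Sᵀ = S)
    (A : Matrix (Fin m) (Fin m) F) (hA : IsUnit A.det) :
    IsConj (TS S) (TS (A * S * Aᵀ)) := by
  have hS' : (A * S * Aᵀ)ᵀ = A * S * Aᵀ := by
    rw [Matrix.transpose_mul, Matrix.transpose_mul, Matrix.transpose_transpose, hS, Matrix.mul_assoc]
  have h1 : A * A⁻¹ = 1 := Matrix.mul_nonsing_inv A hA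
  have h2 : A⁻¹ * A = 1 := Matrix.nonsing_inv_mul A hA
  have h3 : Aᵀ * (A⁻¹)ᵀ = 1 := by rw [← Matrix.transpose_mul, h2, Matrix.transpose_one]
  have h4 : (A⁻¹)ᵀ * Aᵀ = 1 := by rw [← Matrix.transpose_mul, h1, Matrix.transpose_one]
  have hL : (Matrix.fromBlocks A 0 0 (A⁻¹)ᵀ : Matrix (Fin m ⊕ Fin m) (Fin m ⊕ Fin m) F) ∈
      Matrix.symplecticGroup (Fin m) F := by
    rw [SymplecticGroup.mem_iff]
    simp [Matrix.J, Matrix.fromBlocks_transpose, Matrix.fromBlocks_multiply, h1, h4]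
  rw [isConj_iff]
  refine ⟨⟨_, hL⟩, ?_⟩
  rw [mul_inv_eq_iff_eq_mul]
  apply Subtype.ext
  rw [Cfsg.Agent.Helper6.sp_coe_mul, Cfsg.Agent.Helper6.sp_coe_mul, coe_TS S hS, coe_TS _ hS',
    Matrix.fromBlocks_multiply, Matrix.fromBlocks_multiply]
  simp only [Matrix.mul_one, Matrix.mul_zero, Matrix.zero_mul, Matrix.one_mul, add_zero, zero_add]
  rw [Matrix.mul_assoc (A * S), h3, Matrix.mul_one]

open Cfsg.Agent.Helper6 in
theorem inv_props [CharP F 2] {m : ℕ} (t : Matrix.symplecticGroup (Fin m) F) (ht : t * t = 1) :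
    (∀ x y, Cfsg.sympForm m F (((t : Matrix (Fin m ⊕ Fin m) (Fin m ⊕ Fin m) F) - 1) *ᵥ x)
        (((t : Matrix (Fin m ⊕ Fin m) (Fin m ⊕ Fin m) F) - 1) *ᵥ y) = 0) ∧
    (∀ x y, Cfsg.sympForm m F (((t : Matrix (Fin m ⊕ Fin m) (Fin m ⊕ Fin m) F) - 1) *ᵥ x) y
        = Cfsg.sympForm m F x (((t : Matrix (Fin m ⊕ Fin m) (Fin m ⊕ Fin m) F) - 1) *ᵥ y)) := by
  set M : Matrix (Fin m ⊕ Fin m) (Fin m ⊕ Fin m) F := (t : Matrix (Fin m ⊕ Fin m) (Fin m ⊕ Fin m) F) with hM
  have hMM : M * M = 1 := by rw [hM, ← sp_coe_mul, ht, sp_coe_one]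
  have h2 : ∀ X : Matrix (Fin m ⊕ Fin m) (Fin m ⊕ Fin m) F, X + X = 0 := by
    intro X; ext i j; exact CharTwo.add_self_eq_zero _
  have hNN : (M - 1) * (M - 1) = 0 := by
    have : (M - 1) * (M - 1) = M * M - (M + M) + 1 := by noncomm_ring
    rw [this, hMM, h2 M, sub_zero, h2]
  have hMx : ∀ x, M *ᵥ x = x + (M - 1) *ᵥ x := by
    intro x; rw [Matrix.sub_mulVec, Matrix.one_mulVec]; abel
  have hpres := sp_preserves t
  have hiso : ∀ x y, Cfsg.sympForm m F ((M - 1) *ᵥ x) ((M - 1) *ᵥ y) = 0 := by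
    intro x y
    have h := hpres x ((M - 1) *ᵥ y)
    rw [← hM, hMx x, hMx ((M - 1) *ᵥ y), Matrix.mulVec_mulVec, hNN, Matrix.zero_mulVec, add_zero,
      sf_add_left] at h
    linear_combination h
  refine ⟨hiso, ?_⟩
  intro x y
  have h := hpres x y
  rw [← hM, hMx x, hMx y, sf_add_left, sf_add_right, sf_add_right, hiso] at h
  have : Cfsg.sympForm m F ((M - 1) *ᵥ x) y = - Cfsg.sympForm m F x ((M - 1) *ᵥ y) := by
    linear_combination h
  rw [this, CharTwo.neg_eq]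

open Cfsg.Agent.Helper6 in
theorem inv_normal [CharP F 2] {m : ℕ} (t : Matrix.symplecticGroup (Fin m) F) (ht : t * t = 1) :
    ∃ S : Matrix (Fin m) (Fin m) F, Sᵀ = S ∧ IsConj t (TS S) := by
  classical
  set M : Matrix (Fin m ⊕ Fin m) (Fin m ⊕ Fin m) F := (t : Matrix (Fin m ⊕ Fin m) (Fin m ⊕ Fin m) F) with hM
  obtain ⟨hiso, hadj⟩ := inv_props t ht
  set R := LinearMap.range (Matrix.mulVecLin (M - 1)) with hR
  set s := Module.finrank F R with hs
  let bR : Basis (Fin s) F R := Module.finBasis F R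
  set w : Fin s → (Fin m ⊕ Fin m → F) := fun i => (bR i : Fin m ⊕ Fin m → F) with hw
  have hwLI : LinearIndependent F w :=
    bR.linearIndependent.map' R.subtype (Submodule.ker_subtype R)
  have hwR : ∀ i, ∃ x, (M - 1) *ᵥ x = w i := fun i => by
    have : (bR i : Fin m ⊕ Fin m → F) ∈ LinearMap.range (Matrix.mulVecLin (M - 1)) := (bR i).2
    obtain ⟨x, hx⟩ := LinearMap.mem_range.mp this
    exact ⟨x, hx⟩
  have hw0 : ∀ i j, Cfsg.sympForm m F (w i) (w j) = 0 := by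
    intro i j
    obtain ⟨x, hx⟩ := hwR i
    obtain ⟨y, hy⟩ := hwR j
    rw [← hx, ← hy]; exact hiso x y
  have hsm : s ≤ m := by
    have hle : R ≤ (sfB m F).orthogonal R := by
      intro x hx
      rw [LinearMap.BilinForm.mem_orthogonal_iff]
      intro y hy
      obtain ⟨x', rfl⟩ := LinearMap.mem_range.mp hx
      obtain ⟨y', rfl⟩ := LinearMap.mem_range.mp hy
      exact hiso y' x'
    have h1 := LinearMap.BilinForm.finrank_orthogonal (sfB_nondeg (F := F) m) R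
    have h2 := Submodule.finrank_mono hle
    have h3 : Module.finrank F (Fin m ⊕ Fin m → F) = m + m := by simp
    omega
  set e : Fin s → (Fin m ⊕ Fin m → F) :=
    fun i => Pi.single (Sum.inl ⟨i.val, lt_of_lt_of_le i.2 hsm⟩) 1 with he
  have heLI : LinearIndependent F e := by
    have := (Pi.basisFun F (Fin m ⊕ Fin m)).linearIndependent.comp
      (fun i : Fin s => (Sum.inl ⟨i.val, lt_of_lt_of_le i.2 hsm⟩ : Fin m ⊕ Fin m))
      (by intro i j h; simpa [Fin.ext_iff] using h)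
    convert this using 1
    ext i k
    simp [he]
  have he0 : ∀ i j, Cfsg.sympForm m F (e i) (e j) = 0 := by
    intro i j
    simp only [he]
    rw [sf_single_inl]; simp
  obtain ⟨A, hA⟩ := sp_frames_trans m w e hwLI heLI hw0 he0
  set t' := A * t * A⁻¹ with ht'
  have ht't' : t' * t' = 1 := by
    have : t' * t' = A * (t * t) * A⁻¹ := by rw [ht']; group
    rw [this, ht]; group
  obtain ⟨hiso', hadj'⟩ := inv_props t' ht't'
  set M' : Matrix (Fin m ⊕ Fin m) (Fin m ⊕ Fin m) F := (t' : Matrix (Fin m ⊕ Fin m) (Fin m ⊕ Fin m) F) with hM'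
  have hN' : ∀ x, (M' - 1) *ᵥ x = (A : Matrix (Fin m ⊕ Fin m) (Fin m ⊕ Fin m) F) *ᵥ
      ((M - 1) *ᵥ (((A⁻¹ : Matrix.symplecticGroup (Fin m) F) :
        Matrix (Fin m ⊕ Fin m) (Fin m ⊕ Fin m) F) *ᵥ x)) := by
    intro x
    rw [Matrix.sub_mulVec, Matrix.sub_mulVec, Matrix.mulVec_sub, Matrix.one_mulVec,
      Matrix.one_mulVec, sp_mulVec_inv, hM', ht', sp_coe_mul, sp_coe_mul, ← Matrix.mulVec_mulVec,
      ← Matrix.mulVec_mulVec]
  have hc1 : ∀ x (j : Fin m), ((M' - 1) *ᵥ x) (Sum.inr j) = 0 := by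
    intro x j
    rw [hN']
    set r := (M - 1) *ᵥ (((A⁻¹ : Matrix.symplecticGroup (Fin m) F) :
        Matrix (Fin m ⊕ Fin m) (Fin m ⊕ Fin m) F) *ᵥ x) with hr
    have hrR : r ∈ R := LinearMap.mem_range.mpr ⟨_, rfl⟩
    have hrep : r = ∑ i, (bR.repr ⟨r, hrR⟩ i) • w i := by
      have := congrArg Subtype.val (bR.sum_repr ⟨r, hrR⟩)
      simp only [Submodule.coe_sum, Submodule.coe_smul] at this
      exact this.symm
    rw [hrep, Matrix.mulVec_sum, Finset.sum_apply]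
    refine Finset.sum_eq_zero fun i _ => ?_
    rw [Matrix.mulVec_smul, hA, Pi.smul_apply, he]; simp
  have hL0 : ∀ y z : Fin m ⊕ Fin m → F, (∀ j, y (Sum.inr j) = 0) → (∀ j, z (Sum.inr j) = 0) →
      Cfsg.sympForm m F y z = 0 := by
    intro y z hy hz
    rw [Cfsg.sympForm, Cfsg.Agent.S0764.J_mulVec, dotProduct, Fintype.sum_sum_type]
    simp [hy, hz]
  have hc2 : ∀ y : Fin m ⊕ Fin m → F, (∀ j, y (Sum.inr j) = 0) → (M' - 1) *ᵥ y = 0 := by
    intro y hy
    by_contra hne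
    obtain ⟨z, hz⟩ := Cfsg.Agent.S0768.nondeg _ hne
    apply hz
    rw [hadj']
    exact hL0 y _ hy (fun j => hc1 z j)
  have hcol : ∀ (k : Fin m ⊕ Fin m) (i : Fin m),
      M' k (Sum.inl i) = (1 : Matrix (Fin m ⊕ Fin m) (Fin m ⊕ Fin m) F) k (Sum.inl i) := by
    intro k i
    have := congrFun (hc2 (Pi.single (Sum.inl i) 1) (by intro j; simp)) k
    rw [Matrix.mulVec_single_one] at this
    simpa [sub_eq_zero] using this
  have hrow : ∀ (j : Fin m) (k : Fin m ⊕ Fin m),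
      M' (Sum.inr j) k = (1 : Matrix (Fin m ⊕ Fin m) (Fin m ⊕ Fin m) F) (Sum.inr j) k := by
    intro j k
    have := hc1 (Pi.single k 1) j
    rw [Matrix.mulVec_single_one] at this
    simpa [sub_eq_zero] using this
  set S := M'.toBlocks₁₂ with hSdef
  have hblock : M' = Matrix.fromBlocks 1 S 0 1 := by
    ext (i | i) (j | j)
    · rw [hcol]; simp [Matrix.one_apply]
    · simp [hSdef, Matrix.toBlocks₁₂]
    · rw [hcol]; simp
    · rw [hrow]; simp [Matrix.one_apply]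
  have hSsymm : Sᵀ = S := by
    have hmem := t'.2
    rw [SymplecticGroup.mem_iff, ← hM', hblock] at hmem
    simp only [Matrix.J, Matrix.fromBlocks_transpose, Matrix.fromBlocks_multiply] at hmem
    rw [Matrix.fromBlocks_inj] at hmem
    have h1 := hmem.1
    simp at h1
    have : S - Sᵀ = 0 := by rw [← h1]; abel
    exact (sub_eq_zero.mp this).symm
  refine ⟨S, hSsymm, ?_⟩
  rw [isConj_iff]
  refine ⟨A, ?_⟩
  apply Subtype.ext
  rw [coe_TS S hSsymm, ← hblock]

theorem TS_form {m : ℕ} (S : Matrix (Fin m) (Fin m) F) (y : Fin m ⊕ Fin m → F) :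
    Cfsg.sympForm m F y
      ((Matrix.fromBlocks 1 S 0 1 : Matrix (Fin m ⊕ Fin m) (Fin m ⊕ Fin m) F) *ᵥ y)
      = (y ∘ Sum.inr) ⬝ᵥ S *ᵥ (y ∘ Sum.inr) := by
  rw [Cfsg.sympForm, Cfsg.Agent.S0764.J_mulVec, Matrix.fromBlocks_mulVec, dotProduct,
    Fintype.sum_sum_type]
  simp only [Sum.elim_inl, Sum.elim_inr, Pi.add_apply, Matrix.one_mulVec, Matrix.zero_mulVec,
    zero_add, Function.comp_apply, dotProduct, mul_add, mul_neg, Finset.sum_add_distrib,
    Finset.sum_neg_distrib]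
  rw [show ∑ i, y (Sum.inl i) * y (Sum.inr i) = ∑ i, y (Sum.inr i) * y (Sum.inl i) from
    Finset.sum_congr rfl fun i _ => mul_comm _ _]
  ring

open Cfsg.Agent.Helper6 in
theorem TS_mat_of_conj {m : ℕ} (S S' : Matrix (Fin m) (Fin m) F) (hS : Sᵀ = S) (hS' : S'ᵀ = S')
    (h : IsConj (TS S) (TS S')) :
    ∃ c : Matrix.symplecticGroup (Fin m) F,
      (c : Matrix (Fin m ⊕ Fin m) (Fin m ⊕ Fin m) F) * Matrix.fromBlocks 1 S 0 1
        = Matrix.fromBlocks 1 S' 0 1 * (c : Matrix (Fin m ⊕ Fin m) (Fin m ⊕ Fin m) F) := by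
  obtain ⟨c, hc⟩ := isConj_iff.mp h
  have hc' : c * TS S = TS S' * c := by rw [← hc]; group
  refine ⟨c, ?_⟩
  have := congrArg (fun g : Matrix.symplecticGroup (Fin m) F =>
    (g : Matrix (Fin m ⊕ Fin m) (Fin m ⊕ Fin m) F)) hc'
  simpa only [sp_coe_mul, coe_TS S hS, coe_TS S' hS'] using this

open Cfsg.Agent.Helper6 in
theorem TS_alt_of_conj {m : ℕ} (S S' : Matrix (Fin m) (Fin m) F) (hS : Sᵀ = S) (hS' : S'ᵀ = S')
    (h : IsConj (TS S) (TS S')) (ha : ∀ b : Fin m → F, b ⬝ᵥ S' *ᵥ b = 0) :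
    ∀ b : Fin m → F, b ⬝ᵥ S *ᵥ b = 0 := by
  obtain ⟨c, hmat⟩ := TS_mat_of_conj S S' hS hS' h
  intro b
  have h1 : b ⬝ᵥ S *ᵥ b = Cfsg.sympForm m F (Sum.elim 0 b)
      ((Matrix.fromBlocks 1 S 0 1 : Matrix (Fin m ⊕ Fin m) (Fin m ⊕ Fin m) F) *ᵥ Sum.elim 0 b) := by
    rw [TS_form]; simp
  rw [h1, ← sp_preserves c, Matrix.mulVec_mulVec, hmat, ← Matrix.mulVec_mulVec, TS_form]
  exact ha _

theorem rank_blk {m : ℕ} (S : Matrix (Fin m) (Fin m) F) :
    (Matrix.fromBlocks 0 S 0 0 : Matrix (Fin m ⊕ Fin m) (Fin m ⊕ Fin m) F).rank = S.rank := by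
  apply le_antisymm
  · have : (Matrix.fromBlocks 0 S 0 0 : Matrix (Fin m ⊕ Fin m) (Fin m ⊕ Fin m) F)
        = (Matrix.fromRows (1 : Matrix (Fin m) (Fin m) F) (0 : Matrix (Fin m) (Fin m) F) * S)
          * Matrix.fromCols (0 : Matrix (Fin m) (Fin m) F) (1 : Matrix (Fin m) (Fin m) F) := by
      rw [Matrix.fromRows_mul, Matrix.fromRows_mul_fromCols]
      simp
    rw [this]
    exact (Matrix.rank_mul_le_left _ _).trans (Matrix.rank_mul_le_right _ _)
  · have : S = (Matrix.fromBlocks 0 S 0 0 :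
        Matrix (Fin m ⊕ Fin m) (Fin m ⊕ Fin m) F).submatrix Sum.inl Sum.inr := by
      ext i j; simp
    conv_lhs => rw [this]
    exact Matrix.rank_submatrix_le _ _ _

theorem TS_rank_of_conj {m : ℕ} (S S' : Matrix (Fin m) (Fin m) F) (hS : Sᵀ = S) (hS' : S'ᵀ = S')
    (h : IsConj (TS S) (TS S')) : S.rank = S'.rank := by
  obtain ⟨c, hmat⟩ := TS_mat_of_conj S S' hS hS' h
  have e : ∀ X : Matrix (Fin m) (Fin m) F,
      (Matrix.fromBlocks 0 X 0 0 : Matrix (Fin m ⊕ Fin m) (Fin m ⊕ Fin m) F)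
        = Matrix.fromBlocks 1 X 0 1 - 1 := by
    intro X
    rw [eq_sub_iff_add_eq, ← Matrix.fromBlocks_one, Matrix.fromBlocks_add]; simp
  have hN : (c : Matrix (Fin m ⊕ Fin m) (Fin m ⊕ Fin m) F) * Matrix.fromBlocks 0 S 0 0
      = Matrix.fromBlocks 0 S' 0 0 * (c : Matrix (Fin m ⊕ Fin m) (Fin m ⊕ Fin m) F) := by
    rw [e, e, mul_sub, sub_mul, hmat, mul_one, one_mul]
  have hdet : IsUnit (c : Matrix (Fin m ⊕ Fin m) (Fin m ⊕ Fin m) F).det :=
    SymplecticGroup.symplectic_det c.2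
  rw [← rank_blk S, ← rank_blk S', ← Matrix.rank_mul_eq_right_of_isUnit_det _ _ hdet, hN,
    Matrix.rank_mul_eq_left_of_isUnit_det _ _ hdet]

theorem cong_eq_zero {m : ℕ} (S A : Matrix (Fin m) (Fin m) F) (hA : IsUnit A.det)
    (h : A * S * Aᵀ = 0) : S = 0 := by
  have hAu : IsUnit A := (Matrix.isUnit_iff_isUnit_det A).mpr hA
  have hAtu : IsUnit Aᵀ :=
    (Matrix.isUnit_iff_isUnit_det _).mpr (by rw [Matrix.det_transpose]; exact hA)
  rw [hAtu.mul_left_eq_zero, hAu.mul_right_eq_zero] at h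
  exact h

open Cfsg.Agent.Helper6 in
theorem card_classes [Finite F] [CharP F 2] {m : ℕ} (hm : 1 ≤ m) :
    Nat.card {C : ConjClasses ↥(Matrix.symplecticGroup (Fin m) F) //
      ∃ g : Matrix.symplecticGroup (Fin m) F, ConjClasses.mk g = C ∧ orderOf g = 2}
      = m + m / 2 := by
  classical
  let rep : Fin m ⊕ Fin (m / 2) → Matrix (Fin m) (Fin m) F :=
    Sum.elim (fun i => Dn F m (i.val + 1)) (fun j => Da F m (j.val + 1))
  have hrepT : ∀ a, (rep a)ᵀ = rep a := by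
    rintro (i | j)
    · exact Matrix.diagonal_transpose _
    · exact Da_transpose m _
  have hrep0 : ∀ a, rep a ≠ 0 := by
    rintro (i | j) h
    · have := rank_Dn (F := F) (m := m) (s := i.val + 1) (by omega)
      simp only [rep, Sum.elim_inl] at h
      rw [h, Matrix.rank_zero] at this; omega
    · have := rank_Da (F := F) (m := m) (k := j.val + 1) (by omega)
      simp only [rep, Sum.elim_inr] at h
      rw [h, Matrix.rank_zero] at this; omega
  have hord : ∀ S : Matrix (Fin m) (Fin m) F, Sᵀ = S → S ≠ 0 → orderOf (TS S) = 2 := by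
    intro S hS h0
    exact orderOf_eq_prime (by rw [pow_two]; exact TS_sq S hS) (TS_ne_one S hS h0)
  let Φ : Fin m ⊕ Fin (m / 2) → {C : ConjClasses ↥(Matrix.symplecticGroup (Fin m) F) //
      ∃ g : Matrix.symplecticGroup (Fin m) F, ConjClasses.mk g = C ∧ orderOf g = 2} :=
    fun a => ⟨ConjClasses.mk (TS (rep a)), TS (rep a), rfl, hord _ (hrepT a) (hrep0 a)⟩
  have hDa_alt : ∀ k, ∀ b : Fin m → F, b ⬝ᵥ Da F m k *ᵥ b = 0 := fun k =>
    alt_of_diag _ (Da_transpose m _) (Da_diag m _)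
  have hDn_nalt : ∀ s, 1 ≤ s → ¬ ∀ b : Fin m → F, b ⬝ᵥ Dn F m s *ᵥ b = 0 := by
    intro s hs h
    have := h (Pi.single ⟨0, by omega⟩ 1)
    simp [Dn, Matrix.col] at this
    omega
  have hinj : Function.Injective Φ := by
    intro a a' h
    have hconj : IsConj (TS (rep a)) (TS (rep a')) :=
      ConjClasses.mk_eq_mk_iff_isConj.mp (congrArg Subtype.val h)
    have hrank := TS_rank_of_conj _ _ (hrepT a) (hrepT a') hconj
    rcases a with i | j <;> rcases a' with i' | j'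
    · simp only [rep, Sum.elim_inl] at hrank
      rw [rank_Dn (by omega), rank_Dn (by omega)] at hrank
      congr 1; ext; omega
    · exfalso
      exact hDn_nalt (i.val + 1) (by omega)
        (TS_alt_of_conj _ _ (hrepT (Sum.inl i)) (hrepT (Sum.inr j')) hconj (hDa_alt _))
    · exfalso
      exact hDn_nalt (i'.val + 1) (by omega)
        (TS_alt_of_conj _ _ (hrepT (Sum.inl i')) (hrepT (Sum.inr j)) hconj.symm (hDa_alt _))
    · simp only [rep, Sum.elim_inr] at hrank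
      rw [rank_Da (by omega), rank_Da (by omega)] at hrank
      congr 1; ext; omega
  have hsurj : Function.Surjective Φ := by
    rintro ⟨C, g, rfl, hg⟩
    have hgg : g * g = 1 := by rw [← pow_two, ← hg]; exact pow_orderOf_eq_one g
    obtain ⟨S, hS, hconj⟩ := inv_normal g hgg
    have hS0 : S ≠ 0 := by
      rintro rfl
      have h1 : TS (0 : Matrix (Fin m) (Fin m) F) = 1 := by
        apply Subtype.ext; rw [coe_TS _ hS, sp_coe_one, Matrix.fromBlocks_one]
      rw [h1, isConj_one_left] at hconj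
      rw [hconj, orderOf_one] at hg; omega
    by_cases halt : ∀ v : Fin m → F, v ⬝ᵥ S *ᵥ v = 0
    · obtain ⟨k, hk, A, hA, hAS⟩ := alt_cong S halt
      have hk0 : k ≠ 0 := by
        rintro rfl
        have hD0 : Da F m 0 = 0 := by ext i j; simp [Da]
        rw [hD0] at hAS
        exact hS0 (cong_eq_zero S A hA hAS)
      refine ⟨Sum.inr ⟨k - 1, by omega⟩, ?_⟩
      apply Subtype.ext
      show ConjClasses.mk (TS (rep (Sum.inr ⟨k - 1, _⟩))) = ConjClasses.mk g
      rw [ConjClasses.mk_eq_mk_iff_isConj]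
      have : rep (Sum.inr ⟨k - 1, by omega⟩) = A * S * Aᵀ := by
        simp only [rep, Sum.elim_inr]; rw [hAS]; congr 1; omega
      rw [this]
      exact (hconj.trans (TS_conj S hS A hA)).symm
    · push Not at halt
      obtain ⟨s, hs, A, hA, hAS⟩ := nonalt_cong S hS halt
      have hs0 : s ≠ 0 := by
        rintro rfl
        have hD0 : Dn F m 0 = 0 := by ext i j; simp [Dn]
        rw [hD0] at hAS
        exact hS0 (cong_eq_zero S A hA hAS)
      refine ⟨Sum.inl ⟨s - 1, by omega⟩, ?_⟩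
      apply Subtype.ext
      show ConjClasses.mk (TS (rep (Sum.inl ⟨s - 1, _⟩))) = ConjClasses.mk g
      rw [ConjClasses.mk_eq_mk_iff_isConj]
      have : rep (Sum.inl ⟨s - 1, by omega⟩) = A * S * Aᵀ := by
        simp only [rep, Sum.elim_inl]; rw [hAS]; congr 1; omega
      rw [this]
      exact (hconj.trans (TS_conj S hS A hA)).symm
  rw [Nat.card_congr (Equiv.ofBijective Φ ⟨hinj, hsurj⟩).symm]
  simp [Nat.card_eq_fintype_card]

end Cfsg.Agent.Helper14.SpInv2
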