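import Mathlib
import Cfsg.Agent.Helper14.SpInv2
import Cfsg.Agent.S0765

set_option autoImplicit false

namespace Cfsg.Agent.Helper14.OInv

open Matrix Module Cfsg.Agent.Helper14.SymmChar2 Cfsg.Agent.Helper14.SpInv2 Cfsg.Agent.Helper6

variable {F : Type*} [Field F]

/-- representatives of the congruence classes of nonzero symmetric matrices -/
def repS (F : Type*) [Field F] (m : ℕ) : Fin m ⊕ Fin (m / 2) → Matrix (Fin m) (Fin m) F :=
  Sum.elim (fun i => Dn F m (i.val + 1)) (fun j => Da F m (j.val + 1))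

theorem repS_transpose {m : ℕ} (a : Fin m ⊕ Fin (m / 2)) : (repS F m a)ᵀ = repS F m a := by
  rcases a with i | j
  · exact Matrix.diagonal_transpose _
  · exact Da_transpose m _

theorem repS_ne_zero {m : ℕ} (a : Fin m ⊕ Fin (m / 2)) : repS F m a ≠ 0 := by
  rcases a with i | j <;> intro h
  · have := rank_Dn (F := F) (m := m) (s := i.val + 1) (by omega)
    simp only [repS, Sum.elim_inl] at h
    rw [h, Matrix.rank_zero] at this; omega
  · have := rank_Da (F := F) (m := m) (k := j.val + 1) (by omega)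
    simp only [repS, Sum.elim_inr] at h
    rw [h, Matrix.rank_zero] at this; omega

theorem Da_alt [CharP F 2] (m k : ℕ) (b : Fin m → F) : b ⬝ᵥ Da F m k *ᵥ b = 0 :=
  alt_of_diag _ (Da_transpose m _) (Da_diag m _) b

theorem Dn_nalt {m : ℕ} (hm : 1 ≤ m) (s : ℕ) (hs : 1 ≤ s) :
    ¬ ∀ b : Fin m → F, b ⬝ᵥ Dn F m s *ᵥ b = 0 := by
  classical
  intro h
  have := h (Pi.single ⟨0, by omega⟩ 1)
  simp [Dn, Matrix.col] at this
  omega

theorem repS_inj [CharP F 2] {m : ℕ} (hm : 1 ≤ m) (a a' : Fin m ⊕ Fin (m / 2))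
    (hconj : IsConj (TS (repS F m a)) (TS (repS F m a'))) : a = a' := by
  have hrank := TS_rank_of_conj _ _ (repS_transpose a) (repS_transpose a') hconj
  rcases a with i | j <;> rcases a' with i' | j'
  · simp only [repS, Sum.elim_inl] at hrank
    rw [rank_Dn (by omega), rank_Dn (by omega)] at hrank
    congr 1; ext; omega
  · exfalso
    exact Dn_nalt hm (i.val + 1) (by omega)
      (TS_alt_of_conj _ _ (repS_transpose (Sum.inl i)) (repS_transpose (Sum.inr j')) hconj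
        (Da_alt m _))
  · exfalso
    exact Dn_nalt hm (i'.val + 1) (by omega)
      (TS_alt_of_conj _ _ (repS_transpose (Sum.inl i')) (repS_transpose (Sum.inr j)) hconj.symm
        (Da_alt m _))
  · simp only [repS, Sum.elim_inr] at hrank
    rw [rank_Da (by omega), rank_Da (by omega)] at hrank
    congr 1; ext; omega

theorem exists_repS [Finite F] [CharP F 2] {m : ℕ} (g : Matrix.symplecticGroup (Fin m) F)
    (hgg : g * g = 1) (hg1 : g ≠ 1) : ∃ a : Fin m ⊕ Fin (m / 2), IsConj g (TS (repS F m a)) := by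
  obtain ⟨S, hS, hconj⟩ := inv_normal g hgg
  have hS0 : S ≠ 0 := by
    rintro rfl
    have h1 : TS (0 : Matrix (Fin m) (Fin m) F) = 1 := by
      apply Subtype.ext; rw [coe_TS _ hS, sp_coe_one, Matrix.fromBlocks_one]
    rw [h1, isConj_one_left] at hconj
    exact hg1 hconj
  by_cases halt : ∀ v : Fin m → F, v ⬝ᵥ S *ᵥ v = 0
  · obtain ⟨k, hk, A, hA, hAS⟩ := alt_cong S halt
    have hk0 : k ≠ 0 := by
      rintro rfl
      have hD0 : Da F m 0 = 0 := by ext i j; simp [Da]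
      rw [hD0] at hAS
      exact hS0 (cong_eq_zero S A hA hAS)
    refine ⟨Sum.inr ⟨k - 1, by omega⟩, ?_⟩
    have : repS F m (Sum.inr ⟨k - 1, by omega⟩) = A * S * Aᵀ := by
      simp only [repS, Sum.elim_inr]; rw [hAS]; congr 1; omega
    rw [this]
    exact hconj.trans (TS_conj S hS A hA)
  · push Not at halt
    obtain ⟨s, hs, A, hA, hAS⟩ := nonalt_cong S hS halt
    have hs0 : s ≠ 0 := by
      rintro rfl
      have hD0 : Dn F m 0 = 0 := by ext i j; simp [Dn]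
      rw [hD0] at hAS
      exact hS0 (cong_eq_zero S A hA hAS)
    refine ⟨Sum.inl ⟨s - 1, by omega⟩, ?_⟩
    have : repS F m (Sum.inl ⟨s - 1, by omega⟩) = A * S * Aᵀ := by
      simp only [repS, Sum.elim_inl]; rw [hAS]; congr 1; omega
    rw [this]
    exact hconj.trans (TS_conj S hS A hA)

/-- conjugating matrix identity -/
theorem mat_of_conj_TS {m : ℕ} (t : Matrix.symplecticGroup (Fin m) F)
    (S : Matrix (Fin m) (Fin m) F) (hS : Sᵀ = S) (h : IsConj t (TS S)) :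
    ∃ c : Matrix.symplecticGroup (Fin m) F,
      (c : Matrix (Fin m ⊕ Fin m) (Fin m ⊕ Fin m) F) * (t : Matrix (Fin m ⊕ Fin m) (Fin m ⊕ Fin m) F)
        = Matrix.fromBlocks 1 S 0 1 * (c : Matrix (Fin m ⊕ Fin m) (Fin m ⊕ Fin m) F) := by
  obtain ⟨c, hc⟩ := isConj_iff.mp h
  have hc' : c * t = TS S * c := by rw [← hc]; group
  refine ⟨c, ?_⟩
  have := congrArg (fun g : Matrix.symplecticGroup (Fin m) F =>
    (g : Matrix (Fin m ⊕ Fin m) (Fin m ⊕ Fin m) F)) hc'
  simpa only [sp_coe_mul, coe_TS S hS] using this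

theorem rank_of_conj_TS {m : ℕ} (t : Matrix.symplecticGroup (Fin m) F)
    (S : Matrix (Fin m) (Fin m) F) (hS : Sᵀ = S) (h : IsConj t (TS S)) :
    ((t : Matrix (Fin m ⊕ Fin m) (Fin m ⊕ Fin m) F) - 1).rank = S.rank := by
  obtain ⟨c, hmat⟩ := mat_of_conj_TS t S hS h
  have e : (Matrix.fromBlocks 0 S 0 0 : Matrix (Fin m ⊕ Fin m) (Fin m ⊕ Fin m) F)
        = Matrix.fromBlocks 1 S 0 1 - 1 := by
    rw [eq_sub_iff_add_eq, ← Matrix.fromBlocks_one, Matrix.fromBlocks_add]; simp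
  have hN : (c : Matrix (Fin m ⊕ Fin m) (Fin m ⊕ Fin m) F) *
      ((t : Matrix (Fin m ⊕ Fin m) (Fin m ⊕ Fin m) F) - 1)
      = Matrix.fromBlocks 0 S 0 0 * (c : Matrix (Fin m ⊕ Fin m) (Fin m ⊕ Fin m) F) := by
    rw [e, mul_sub, sub_mul, hmat, mul_one, one_mul]
  have hdet : IsUnit (c : Matrix (Fin m ⊕ Fin m) (Fin m ⊕ Fin m) F).det :=
    SymplecticGroup.symplectic_det c.2
  rw [← rank_blk S, ← Matrix.rank_mul_eq_right_of_isUnit_det _ _ hdet, hN,
    Matrix.rank_mul_eq_left_of_isUnit_det _ _ hdet]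

theorem alt_of_conj_TS {m : ℕ} (t : Matrix.symplecticGroup (Fin m) F)
    (S : Matrix (Fin m) (Fin m) F) (hS : Sᵀ = S) (h : IsConj t (TS S))
    (ha : ∀ b : Fin m → F, b ⬝ᵥ S *ᵥ b = 0) (x : Fin m ⊕ Fin m → F) :
    Cfsg.sympForm m F x ((t : Matrix (Fin m ⊕ Fin m) (Fin m ⊕ Fin m) F) *ᵥ x) = 0 := by
  obtain ⟨c, hmat⟩ := mat_of_conj_TS t S hS h
  rw [← sp_preserves c, Matrix.mulVec_mulVec, hmat, ← Matrix.mulVec_mulVec, TS_form]
  exact ha _

theorem Q_add [CharP F 2] {m : ℕ} (u v : Fin m ⊕ Fin m → F) :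
    Cfsg.quadFormPlus m F (u + v) = Cfsg.quadFormPlus m F u + Cfsg.quadFormPlus m F v
      + Cfsg.sympForm m F u v := by
  rw [Cfsg.sympForm, Cfsg.Agent.S0764.J_mulVec, dotProduct, Fintype.sum_sum_type]
  simp only [Cfsg.quadFormPlus, Pi.add_apply, Sum.elim_inl, Sum.elim_inr, CharTwo.neg_eq]
  rw [← Finset.sum_add_distrib, ← Finset.sum_add_distrib, ← Finset.sum_add_distrib]
  exact Finset.sum_congr rfl fun i _ => by ring

theorem Q_smul {m : ℕ} (c : F) (u : Fin m ⊕ Fin m → F) :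
    Cfsg.quadFormPlus m F (c • u) = c ^ 2 * Cfsg.quadFormPlus m F u := by
  simp only [Cfsg.quadFormPlus, Pi.smul_apply, smul_eq_mul, Finset.mul_sum]
  exact Finset.sum_congr rfl fun i _ => by ring

theorem sf_symm [CharP F 2] {m : ℕ} (u v : Fin m ⊕ Fin m → F) :
    Cfsg.sympForm m F u v = Cfsg.sympForm m F v u := by
  rw [sf_swap, CharTwo.neg_eq]

/-- the defect of a symplectic matrix with respect to the hyperbolic quadratic form -/
theorem sp_defect [Finite F] [CharP F 2] {m : ℕ} (h : Matrix.symplecticGroup (Fin m) F) :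
    ∃ a : Fin m ⊕ Fin m → F,
      (∀ x, Cfsg.quadFormPlus m F ((h : Matrix (Fin m ⊕ Fin m) (Fin m ⊕ Fin m) F) *ᵥ x)
        = Cfsg.quadFormPlus m F x + (Cfsg.sympForm m F x a) ^ 2) ∧
      ∃ ν : F, Cfsg.quadFormPlus m F a = ν ^ 2 + ν := by
  have hmem : h ∈ Subgroup.closure {A : Matrix.symplecticGroup (Fin m) F |
      ∃ (w : Fin m ⊕ Fin m → F) (c : F),
        (A : Matrix (Fin m ⊕ Fin m) (Fin m ⊕ Fin m) F) = Cfsg.sympTransvection m w c} := by
    rw [Cfsg.Agent.S0765.result]; exact Subgroup.mem_top h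
  induction hmem using Subgroup.closure_induction with
  | mem A hA =>
    obtain ⟨w, c, hA⟩ := hA
    obtain ⟨d, hd⟩ := exists_sqrt (c ^ 2 * Cfsg.quadFormPlus m F w + c)
    refine ⟨d • w, ?_, c * Cfsg.quadFormPlus m F w, ?_⟩
    · intro x
      rw [hA, tv_mulVec, Q_add, Q_smul, sf_smul_right, sf_smul_right]
      linear_combination (Cfsg.sympForm m F x w) ^ 2 * (-hd)
    · rw [Q_smul]
      linear_combination (Cfsg.quadFormPlus m F w) * hd
  | one =>
    refine ⟨0, ?_, 0, ?_⟩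
    · intro x
      rw [sp_coe_one, Matrix.one_mulVec, sf_symm, sf_zero_left]; ring
    · simp [Cfsg.quadFormPlus]
  | mul h k _ _ ihh ihk =>
    obtain ⟨a, ha, ν, hν⟩ := ihh
    obtain ⟨b, hb, μ, hμ⟩ := ihk
    obtain ⟨a', hka'⟩ : ∃ a', (k : Matrix (Fin m ⊕ Fin m) (Fin m ⊕ Fin m) F) *ᵥ a' = a :=
      ⟨_, sp_mulVec_inv k a⟩
    have hB : ∀ x, Cfsg.sympForm m F ((k : Matrix (Fin m ⊕ Fin m) (Fin m ⊕ Fin m) F) *ᵥ x) a
        = Cfsg.sympForm m F x a' := by
      intro x; rw [← hka', sp_preserves]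
    refine ⟨b + a', ?_, ν + μ + Cfsg.sympForm m F b a', ?_⟩
    · intro x
      rw [sp_coe_mul, ← Matrix.mulVec_mulVec, ha, hb, hB, sf_add_right, CharTwo.add_sq]
      ring
    · have h1 := hb a'
      rw [hka', hν, sf_symm a' b] at h1
      have h3 : Cfsg.quadFormPlus m F a' = ν ^ 2 + ν + (Cfsg.sympForm m F b a') ^ 2 := by
        have : Cfsg.quadFormPlus m F a' = ν ^ 2 + ν - (Cfsg.sympForm m F b a') ^ 2 := by
          linear_combination -h1
        rw [this, CharTwo.sub_eq_add]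
      rw [Q_add, hμ, h3, CharTwo.add_sq, CharTwo.add_sq]
      ring
  | inv h _ ih =>
    obtain ⟨a, ha, ν, hν⟩ := ih
    refine ⟨(h : Matrix (Fin m ⊕ Fin m) (Fin m ⊕ Fin m) F) *ᵥ a, ?_, ν, ?_⟩
    · intro x
      have h1 := ha (((h⁻¹ : Matrix.symplecticGroup (Fin m) F) :
        Matrix (Fin m ⊕ Fin m) (Fin m ⊕ Fin m) F) *ᵥ x)
      rw [sp_mulVec_inv] at h1
      have h2 : Cfsg.sympForm m F (((h⁻¹ : Matrix.symplecticGroup (Fin m) F) :
          Matrix (Fin m ⊕ Fin m) (Fin m ⊕ Fin m) F) *ᵥ x) a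
          = Cfsg.sympForm m F x ((h : Matrix (Fin m ⊕ Fin m) (Fin m ⊕ Fin m) F) *ᵥ a) := by
        rw [← sp_preserves h, sp_mulVec_inv]
      rw [h2] at h1
      have : Cfsg.quadFormPlus m F (((h⁻¹ : Matrix.symplecticGroup (Fin m) F) :
          Matrix (Fin m ⊕ Fin m) (Fin m ⊕ Fin m) F) *ᵥ x) = Cfsg.quadFormPlus m F x
          - (Cfsg.sympForm m F x ((h : Matrix (Fin m ⊕ Fin m) (Fin m ⊕ Fin m) F) *ᵥ a)) ^ 2 := by
        linear_combination -h1
      rw [this, CharTwo.sub_eq_add]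
    · rw [ha a, sf_self, hν]; ring

/-- two isometries of the hyperbolic quadratic form (char 2) conjugate in `Sp` are conjugate
by an isometry -/
theorem O_conj_of_Sp_conj [Finite F] [CharP F 2] {m : ℕ}
    (t t' h : Matrix.symplecticGroup (Fin m) F)
    (ht : ∀ x, Cfsg.quadFormPlus m F ((t : Matrix (Fin m ⊕ Fin m) (Fin m ⊕ Fin m) F) *ᵥ x)
      = Cfsg.quadFormPlus m F x)
    (ht' : ∀ x, Cfsg.quadFormPlus m F ((t' : Matrix (Fin m ⊕ Fin m) (Fin m ⊕ Fin m) F) *ᵥ x)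
      = Cfsg.quadFormPlus m F x)
    (hh : h * t = t' * h) :
    ∃ g : Matrix.symplecticGroup (Fin m) F,
      (∀ x, Cfsg.quadFormPlus m F ((g : Matrix (Fin m ⊕ Fin m) (Fin m ⊕ Fin m) F) *ᵥ x)
        = Cfsg.quadFormPlus m F x) ∧ g * t = t' * g := by
  obtain ⟨a, ha, ν, hν⟩ := sp_defect h
  have hmat : (h : Matrix (Fin m ⊕ Fin m) (Fin m ⊕ Fin m) F) * (t : Matrix _ _ F)
      = (t' : Matrix (Fin m ⊕ Fin m) (Fin m ⊕ Fin m) F) * (h : Matrix _ _ F) := by
    rw [← sp_coe_mul, hh, sp_coe_mul]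
  have hB : ∀ x, Cfsg.sympForm m F ((t : Matrix (Fin m ⊕ Fin m) (Fin m ⊕ Fin m) F) *ᵥ x) a
      = Cfsg.sympForm m F x a := by
    intro x
    have h1 := ha ((t : Matrix (Fin m ⊕ Fin m) (Fin m ⊕ Fin m) F) *ᵥ x)
    rw [Matrix.mulVec_mulVec, hmat, ← Matrix.mulVec_mulVec, ht', ha x, ht x] at h1
    have h2 : (Cfsg.sympForm m F ((t : Matrix (Fin m ⊕ Fin m) (Fin m ⊕ Fin m) F) *ᵥ x) a) ^ 2
        = (Cfsg.sympForm m F x a) ^ 2 := (add_left_cancel h1).symm
    have h3 : (Cfsg.sympForm m F ((t : Matrix (Fin m ⊕ Fin m) (Fin m ⊕ Fin m) F) *ᵥ x) a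
        + Cfsg.sympForm m F x a) ^ 2 = 0 := by
      rw [CharTwo.add_sq, h2, CharTwo.add_self_eq_zero]
    have h4 := pow_eq_zero_iff (two_ne_zero) |>.mp h3
    rw [← sub_eq_zero, CharTwo.sub_eq_add]; exact h4
  have hta : (t : Matrix (Fin m ⊕ Fin m) (Fin m ⊕ Fin m) F) *ᵥ a = a := by
    by_contra hne
    have hne' : (t : Matrix (Fin m ⊕ Fin m) (Fin m ⊕ Fin m) F) *ᵥ a - a ≠ 0 := sub_ne_zero.mpr hne
    obtain ⟨z, hz⟩ := Cfsg.Agent.S0768.nondeg _ hne'
    apply hz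
    obtain ⟨y, rfl⟩ : ∃ y, (t : Matrix (Fin m ⊕ Fin m) (Fin m ⊕ Fin m) F) *ᵥ y = z :=
      ⟨_, sp_mulVec_inv t z⟩
    rw [sf_sub_left, sp_preserves, sf_symm a ((t : Matrix (Fin m ⊕ Fin m) (Fin m ⊕ Fin m) F) *ᵥ y), hB,
      sf_symm a y, sub_self]
  obtain ⟨μ, hμ⟩ : ∃ μ : F, μ ^ 2 * Cfsg.quadFormPlus m F a + μ + 1 = 0 := by
    by_cases hQa : Cfsg.quadFormPlus m F a = 0
    · exact ⟨1, by rw [hQa]; simp [CharTwo.add_self_eq_zero]⟩
    · refine ⟨ν / Cfsg.quadFormPlus m F a, ?_⟩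
      have : (ν / Cfsg.quadFormPlus m F a) ^ 2 * Cfsg.quadFormPlus m F a
          + ν / Cfsg.quadFormPlus m F a = 1 := by
        field_simp
        rw [hν]
        ring
      rw [this]; exact CharTwo.add_self_eq_zero 1
  obtain ⟨k, hk⟩ : ∃ k : Matrix.symplecticGroup (Fin m) F,
      ∀ x, (k : Matrix (Fin m ⊕ Fin m) (Fin m ⊕ Fin m) F) *ᵥ x
        = x + (μ * Cfsg.sympForm m F x a) • a :=
    ⟨⟨Cfsg.sympTransvection m a μ, Cfsg.Agent.S0764.result m a μ⟩, fun x => tv_mulVec a μ x⟩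
  refine ⟨h * k, ?_, ?_⟩
  · intro x
    rw [sp_coe_mul, ← Matrix.mulVec_mulVec, ha, hk, Q_add, Q_smul, sf_add_left, sf_smul_left,
      sf_smul_right, sf_self]
    linear_combination (Cfsg.sympForm m F x a) ^ 2 * hμ
  · have hkt : k * t = t * k := by
      apply Subtype.ext
      rw [sp_coe_mul, sp_coe_mul]
      apply Matrix.mulVec_injective
      funext x
      rw [← Matrix.mulVec_mulVec, ← Matrix.mulVec_mulVec, hk, hk, hB, Matrix.mulVec_add,
        Matrix.mulVec_smul, hta]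
    rw [mul_assoc, hkt, ← mul_assoc, hh, mul_assoc]

theorem mem_isom_iff {m : ℕ} (g : GL (Fin m ⊕ Fin m) F) :
    g ∈ Cfsg.isometryGroup F (Cfsg.quadFormPlus m F) ↔
      ∀ u, Cfsg.quadFormPlus m F ((g : Matrix (Fin m ⊕ Fin m) (Fin m ⊕ Fin m) F) *ᵥ u)
        = Cfsg.quadFormPlus m F u := by
  constructor
  · intro h u; exact h u u
  · intro h u v; exact h u

theorem mem_sp_of_isom [CharP F 2] {m : ℕ} (A : Matrix (Fin m ⊕ Fin m) (Fin m ⊕ Fin m) F)
    (hA : ∀ u, Cfsg.quadFormPlus m F (A *ᵥ u) = Cfsg.quadFormPlus m F u) :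
    A ∈ Matrix.symplecticGroup (Fin m) F := by
  classical
  have hg : ∀ u v, Cfsg.sympForm m F (A *ᵥ u) (A *ᵥ v) = Cfsg.sympForm m F u v := by
    intro u v
    have h1 := Q_add (A *ᵥ u) (A *ᵥ v)
    rw [← Matrix.mulVec_add, hA, hA, hA, Q_add] at h1
    exact (add_left_cancel h1).symm
  rw [SymplecticGroup.mem_iff']
  ext i j
  have h := hg (Pi.single i 1) (Pi.single j 1)
  unfold Cfsg.sympForm at h
  rw [← Matrix.vecMul_transpose, ← Matrix.dotProduct_mulVec, Matrix.mulVec_mulVec,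
    Matrix.mulVec_mulVec] at h
  simpa [Matrix.mulVec_single_one, Matrix.mul_assoc] using h

/-- the isometry group of the hyperbolic form inside `Sp` (characteristic 2) -/
noncomputable def toSp [CharP F 2] (m : ℕ) :
    ↥(Cfsg.isometryGroup F (Cfsg.quadFormPlus m F)) →* Matrix.symplecticGroup (Fin m) F where
  toFun g := ⟨((g : GL (Fin m ⊕ Fin m) F) : Matrix (Fin m ⊕ Fin m) (Fin m ⊕ Fin m) F),
    mem_sp_of_isom _ ((mem_isom_iff _).mp g.2)⟩
  map_one' := Subtype.ext rfl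
  map_mul' _ _ := Subtype.ext rfl

theorem toSp_injective [CharP F 2] (m : ℕ) : Function.Injective (toSp (F := F) m) := by
  intro a b h
  apply Subtype.ext
  apply Units.ext
  exact congrArg Subtype.val h

/-- a symplectic matrix preserving the form, as an element of the isometry group -/
noncomputable def ofSp {m : ℕ} (A : Matrix.symplecticGroup (Fin m) F)
    (hA : ∀ u, Cfsg.quadFormPlus m F ((A : Matrix (Fin m ⊕ Fin m) (Fin m ⊕ Fin m) F) *ᵥ u)
      = Cfsg.quadFormPlus m F u) : ↥(Cfsg.isometryGroup F (Cfsg.quadFormPlus m F)) :=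
  ⟨⟨(A : Matrix (Fin m ⊕ Fin m) (Fin m ⊕ Fin m) F),
    ((A⁻¹ : Matrix.symplecticGroup (Fin m) F) : Matrix (Fin m ⊕ Fin m) (Fin m ⊕ Fin m) F),
    by rw [← sp_coe_mul, mul_inv_cancel, sp_coe_one],
    by rw [← sp_coe_mul, inv_mul_cancel, sp_coe_one]⟩, (mem_isom_iff _).mpr hA⟩

theorem toSp_ofSp [CharP F 2] {m : ℕ} (A : Matrix.symplecticGroup (Fin m) F)
    (hA : ∀ u, Cfsg.quadFormPlus m F ((A : Matrix (Fin m ⊕ Fin m) (Fin m ⊕ Fin m) F) *ᵥ u)
      = Cfsg.quadFormPlus m F u) : toSp m (ofSp A hA) = A :=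
  Subtype.ext rfl

theorem toSp_isom [CharP F 2] {m : ℕ} (g : ↥(Cfsg.isometryGroup F (Cfsg.quadFormPlus m F)))
    (u : Fin m ⊕ Fin m → F) :
    Cfsg.quadFormPlus m F ((toSp m g : Matrix (Fin m ⊕ Fin m) (Fin m ⊕ Fin m) F) *ᵥ u)
      = Cfsg.quadFormPlus m F u :=
  (mem_isom_iff _).mp g.2 u

theorem TS_isom {m : ℕ} (S : Matrix (Fin m) (Fin m) F) (hS : Sᵀ = S)
    (ha : ∀ b : Fin m → F, b ⬝ᵥ S *ᵥ b = 0) (u : Fin m ⊕ Fin m → F) :
    Cfsg.quadFormPlus m F ((TS S : Matrix (Fin m ⊕ Fin m) (Fin m ⊕ Fin m) F) *ᵥ u)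
      = Cfsg.quadFormPlus m F u := by
  rw [coe_TS S hS, Matrix.fromBlocks_mulVec]
  simp only [Cfsg.quadFormPlus, Sum.elim_inl, Sum.elim_inr, Pi.add_apply, Matrix.one_mulVec,
    Matrix.zero_mulVec, zero_add, Function.comp_apply, add_mul, Finset.sum_add_distrib]
  have := ha (u ∘ Sum.inr)
  rw [dotProduct_comm] at this
  simp only [dotProduct, Function.comp_apply] at this
  rw [this, add_zero]

/-- the matrix swapping the first `s` hyperbolic pairs -/
def Pm (F : Type*) [Field F] (m s : ℕ) : Matrix (Fin m ⊕ Fin m) (Fin m ⊕ Fin m) F :=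
  Matrix.fromBlocks (Matrix.diagonal fun i : Fin m => if i.val < s then 0 else 1)
    (Matrix.diagonal fun i : Fin m => if i.val < s then 1 else 0)
    (Matrix.diagonal fun i : Fin m => if i.val < s then 1 else 0)
    (Matrix.diagonal fun i : Fin m => if i.val < s then 0 else 1)

theorem Pm_mul_self (m s : ℕ) : Pm F m s * Pm F m s = 1 := by
  rw [Pm, Matrix.fromBlocks_multiply]
  simp only [Matrix.diagonal_mul_diagonal, Matrix.diagonal_add]
  have h1 : (fun i : Fin m => (if i.val < s then (0 : F) else 1) * (if i.val < s then 0 else 1)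
      + (if i.val < s then (1 : F) else 0) * (if i.val < s then 1 else 0)) = fun _ => 1 := by
    funext i; split_ifs <;> simp
  have h2 : (fun i : Fin m => (if i.val < s then (0 : F) else 1) * (if i.val < s then 1 else 0)
      + (if i.val < s then (1 : F) else 0) * (if i.val < s then 0 else 1)) = fun _ => 0 := by
    funext i; split_ifs <;> simp
  have h3 : (fun i : Fin m => (if i.val < s then (1 : F) else 0) * (if i.val < s then 0 else 1)
      + (if i.val < s then (0 : F) else 1) * (if i.val < s then 1 else 0)) = fun _ => 0 := by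
    funext i; split_ifs <;> simp
  have h4 : (fun i : Fin m => (if i.val < s then (1 : F) else 0) * (if i.val < s then 1 else 0)
      + (if i.val < s then (0 : F) else 1) * (if i.val < s then 0 else 1)) = fun _ => 1 := by
    funext i; split_ifs <;> simp
  rw [h1, h2, h3, h4]
  simp [Matrix.fromBlocks_one]

theorem Pm_isom (m s : ℕ) (u : Fin m ⊕ Fin m → F) :
    Cfsg.quadFormPlus m F (Pm F m s *ᵥ u) = Cfsg.quadFormPlus m F u := by
  rw [Pm, Matrix.fromBlocks_mulVec]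
  simp only [Cfsg.quadFormPlus, Sum.elim_inl, Sum.elim_inr, Pi.add_apply, Matrix.mulVec_diagonal,
    Function.comp_apply]
  refine Finset.sum_congr rfl fun i _ => ?_
  split_ifs <;> ring

theorem Pm_sub_one [CharP F 2] (m s : ℕ) :
    Pm F m s - 1 = Matrix.fromBlocks (Dn F m s) (Dn F m s) (Dn F m s) (Dn F m s) := by
  rw [sub_eq_iff_eq_add, ← Matrix.fromBlocks_one, Matrix.fromBlocks_add, Pm, Dn]
  have h1 : (Matrix.diagonal fun i : Fin m => if i.val < s then (0 : F) else 1)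
      = (Matrix.diagonal fun i : Fin m => if i.val < s then (1 : F) else 0) + 1 := by
    rw [← Matrix.diagonal_one, Matrix.diagonal_add]
    congr 1
    funext i
    split_ifs
    · exact (CharTwo.add_self_eq_zero 1).symm
    · simp
  rw [← h1]
  simp

theorem rank_Pm [CharP F 2] {m s : ℕ} (hs : s ≤ m) : (Pm F m s - 1).rank = s := by
  rw [Pm_sub_one]
  apply le_antisymm
  · have : (Matrix.fromBlocks (Dn F m s) (Dn F m s) (Dn F m s) (Dn F m s) :
        Matrix (Fin m ⊕ Fin m) (Fin m ⊕ Fin m) F)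
        = (Matrix.fromRows (1 : Matrix (Fin m) (Fin m) F) (1 : Matrix (Fin m) (Fin m) F) * Dn F m s)
          * Matrix.fromCols (1 : Matrix (Fin m) (Fin m) F) (1 : Matrix (Fin m) (Fin m) F) := by
      rw [Matrix.fromRows_mul, Matrix.fromRows_mul_fromCols]
      simp
    rw [this]
    exact ((Matrix.rank_mul_le_left _ _).trans (Matrix.rank_mul_le_right _ _)).trans
      (rank_Dn hs).le
  · have : Dn F m s = (Matrix.fromBlocks (Dn F m s) (Dn F m s) (Dn F m s) (Dn F m s) :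
        Matrix (Fin m ⊕ Fin m) (Fin m ⊕ Fin m) F).submatrix Sum.inl Sum.inl := by
      ext i j; simp
    have h2 := Matrix.rank_submatrix_le (Matrix.fromBlocks (Dn F m s) (Dn F m s) (Dn F m s) (Dn F m s) :
        Matrix (Fin m ⊕ Fin m) (Fin m ⊕ Fin m) F) (Sum.inl : Fin m → Fin m ⊕ Fin m)
        (Sum.inl : Fin m → Fin m ⊕ Fin m)
    rw [← this, rank_Dn hs] at h2
    exact h2

theorem Pm_nalt {m s : ℕ} (hm : 1 ≤ m) (hs : 1 ≤ s) :
    Cfsg.sympForm m F (Pi.single (Sum.inl ⟨0, by omega⟩) 1)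
      (Pm F m s *ᵥ Pi.single (Sum.inl ⟨0, by omega⟩) 1) ≠ 0 := by
  classical
  rw [Cfsg.sympForm, Cfsg.Agent.S0764.J_mulVec, single_dotProduct, Matrix.mulVec_single_one]
  simp [Pm, Matrix.col]
  omega

/-- the swap isometry -/
noncomputable def swapO (F : Type*) [Field F] (m s : ℕ) :
    ↥(Cfsg.isometryGroup F (Cfsg.quadFormPlus m F)) :=
  ⟨⟨Pm F m s, Pm F m s, Pm_mul_self m s, Pm_mul_self m s⟩, (mem_isom_iff _).mpr (Pm_isom m s)⟩

theorem swapO_type [Finite F] [CharP F 2] {m : ℕ} (hm : 1 ≤ m) (i : Fin m) :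
    IsConj (toSp m (swapO F m (i.val + 1))) (TS (repS F m (Sum.inl i))) := by
  have hcoe : ((toSp m (swapO F m (i.val + 1)) : Matrix.symplecticGroup (Fin m) F) :
      Matrix (Fin m ⊕ Fin m) (Fin m ⊕ Fin m) F) = Pm F m (i.val + 1) := rfl
  have hsq : toSp m (swapO F m (i.val + 1)) * toSp m (swapO F m (i.val + 1)) = 1 := by
    apply Subtype.ext
    rw [sp_coe_mul, hcoe, Pm_mul_self, sp_coe_one]
  have hnalt := Pm_nalt (F := F) (m := m) (s := i.val + 1) hm (by omega)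
  have hne : toSp m (swapO F m (i.val + 1)) ≠ 1 := by
    intro h1
    apply hnalt
    rw [← hcoe, h1, sp_coe_one, Matrix.one_mulVec, sf_self]
  obtain ⟨a, ha⟩ := exists_repS _ hsq hne
  rcases a with i' | j
  · have hr := rank_of_conj_TS _ _ (repS_transpose (Sum.inl i')) ha
    rw [hcoe, rank_Pm (by omega)] at hr
    simp only [repS, Sum.elim_inl] at hr
    rw [rank_Dn (by omega)] at hr
    have : i' = i := by ext; omega
    subst this; exact ha
  · exfalso
    apply hnalt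
    have := alt_of_conj_TS _ _ (repS_transpose (Sum.inr j)) ha (Da_alt m _)
      (Pi.single (Sum.inl ⟨0, by omega⟩) 1)
    rw [hcoe] at this
    exact this

theorem card_classes_Oplus [Finite F] [CharP F 2] {m : ℕ} (hm : 1 ≤ m) :
    Nat.card {C : ConjClasses ↥(Cfsg.isometryGroup F (Cfsg.quadFormPlus m F)) //
      ∃ g : ↥(Cfsg.isometryGroup F (Cfsg.quadFormPlus m F)),
        ConjClasses.mk g = C ∧ orderOf g = 2} = m + m / 2 := by
  classical
  have hρ : ∀ a : Fin m ⊕ Fin (m / 2), ∃ r : ↥(Cfsg.isometryGroup F (Cfsg.quadFormPlus m F)),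
      IsConj (toSp m r) (TS (repS F m a)) := by
    rintro (i | j)
    · exact ⟨swapO F m (i.val + 1), swapO_type hm i⟩
    · refine ⟨ofSp (TS (Da F m (j.val + 1)))
        (TS_isom _ (Da_transpose m _) (Da_alt m _)), ?_⟩
      rw [toSp_ofSp]
      exact IsConj.refl _
  choose ρ hρ using hρ
  have hordT : ∀ a : Fin m ⊕ Fin (m / 2), orderOf (TS (repS F m a)) = 2 := by
    intro a
    exact orderOf_eq_prime (by rw [pow_two]; exact TS_sq _ (repS_transpose a))
      (TS_ne_one _ (repS_transpose a) (repS_ne_zero a))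
  have hord : ∀ a, orderOf (ρ a) = 2 := by
    intro a
    rw [← orderOf_injective (toSp m) (toSp_injective m) (ρ a)]
    obtain ⟨c, hc⟩ := isConj_iff.mp (hρ a)
    have hsc : SemiconjBy c (toSp m (ρ a)) (TS (repS F m a)) := by
      rw [SemiconjBy, ← hc]; group
    rw [hsc.orderOf_eq, hordT]
  let Ψ : Fin m ⊕ Fin (m / 2) → {C : ConjClasses ↥(Cfsg.isometryGroup F (Cfsg.quadFormPlus m F)) //
      ∃ g : ↥(Cfsg.isometryGroup F (Cfsg.quadFormPlus m F)),
        ConjClasses.mk g = C ∧ orderOf g = 2} :=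
    fun a => ⟨ConjClasses.mk (ρ a), ρ a, rfl, hord a⟩
  have hinj : Function.Injective Ψ := by
    intro a a' h
    have hconj : IsConj (ρ a) (ρ a') :=
      ConjClasses.mk_eq_mk_iff_isConj.mp (congrArg Subtype.val h)
    have hconj' : IsConj (toSp m (ρ a)) (toSp m (ρ a')) := (toSp m).map_isConj hconj
    exact repS_inj hm a a' (((hρ a).symm.trans hconj').trans (hρ a'))
  have hsurj : Function.Surjective Ψ := by
    rintro ⟨C, g, rfl, hg⟩
    have hg' : orderOf (toSp m g) = 2 := by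
      rw [orderOf_injective (toSp m) (toSp_injective m) g, hg]
    have hgg : toSp m g * toSp m g = 1 := by rw [← pow_two, ← hg']; exact pow_orderOf_eq_one _
    have hg1 : toSp m g ≠ 1 := by
      intro h1
      rw [h1, orderOf_one] at hg'; omega
    obtain ⟨a, ha⟩ := exists_repS _ hgg hg1
    have hconj : IsConj (toSp m g) (toSp m (ρ a)) := ha.trans (hρ a).symm
    obtain ⟨c, hc⟩ := isConj_iff.mp hconj
    have hc' : c * toSp m g = toSp m (ρ a) * c := by rw [← hc]; group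
    obtain ⟨g₁, hg₁, hg₁c⟩ := O_conj_of_Sp_conj (toSp m g) (toSp m (ρ a)) c
      (toSp_isom g) (toSp_isom (ρ a)) hc'
    refine ⟨a, ?_⟩
    apply Subtype.ext
    show ConjClasses.mk (ρ a) = ConjClasses.mk g
    rw [ConjClasses.mk_eq_mk_iff_isConj]
    apply IsConj.symm
    rw [isConj_iff]
    refine ⟨ofSp g₁ hg₁, ?_⟩
    rw [mul_inv_eq_iff_eq_mul]
    apply toSp_injective m
    rw [map_mul, map_mul, toSp_ofSp]
    exact hg₁c
  rw [Nat.card_congr (Equiv.ofBijective Ψ ⟨hinj, hsurj⟩).symm]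
  simp [Nat.card_eq_fintype_card]

end Cfsg.Agent.Helper14.OInv
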