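import Mathlib

set_option autoImplicit false

namespace Cfsg.Agent.Helper14.AutAlt

open Equiv Equiv.Perm

variable {α : Type*} [DecidableEq α] [Fintype α]

theorem cube {X : Perm α} (hX : X.IsThreeCycle) (s : α) : X (X (X s)) = s := by
  have h : X ^ 3 = 1 := by rw [← hX.orderOf]; exact pow_orderOf_eq_one X
  have := congrArg (fun f : Perm α => f s) h
  simpa [pow_succ] using this

/-- two 3-cycles whose product is an involution agree on a moved point -/
theorem f1 {X Y : Perm α} (hX : X.IsThreeCycle) (hY : Y.IsThreeCycle)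
    (h2 : X * Y * (X * Y) = 1) (h1 : X * Y ≠ 1) : ∃ p, Y p = X p ∧ X p ≠ p := by
  by_cases hc1 : ∃ s, X s ≠ s ∧ Y s = s
  · obtain ⟨s, hs, hYs⟩ := hc1
    refine ⟨X s, ?_, ?_⟩
    · have h := congrArg (fun f : Perm α => f s) h2
      simp only [Perm.coe_mul, Function.comp_apply, hYs, Perm.coe_one, id_eq] at h
      exact X.injective (h.trans (cube hX s).symm)
    · intro h; exact hs (X.injective h)
  · by_cases hc2 : ∃ s, Y s ≠ s ∧ X s = s
    · obtain ⟨s, hs, hXs⟩ := hc2
      have h2' : Y * X * (Y * X) = 1 := by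
        have : Y * X * (Y * X) = X⁻¹ * (X * Y * (X * Y)) * X := by group
        rw [this, h2]; group
      refine ⟨Y s, ?_, ?_⟩
      · have h := congrArg (fun f : Perm α => f s) h2'
        simp only [Perm.coe_mul, Function.comp_apply, hXs, Perm.coe_one, id_eq] at h
        exact (Y.injective (h.trans (cube hY s).symm)).symm
      · intro h
        have h := congrArg (fun f : Perm α => f s) h2'
        simp only [Perm.coe_mul, Function.comp_apply, hXs, Perm.coe_one, id_eq] at h
        have h3 : X (Y s) = Y (Y s) := Y.injective (h.trans (cube hY s).symm)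
        rename_i h4
        rw [h4] at h3
        exact hs (Y.injective h3.symm)
    · push Not at hc1 hc2
      by_contra hcon
      push Not at hcon
      apply h1
      ext x
      simp only [Perm.coe_mul, Function.comp_apply, Perm.coe_one, id_eq]
      by_cases hx : X x = x
      · have : Y x = x := by
          by_contra h; exact hc2 x h hx
        rw [this, hx]
      · have hsupp := hX.support_eq_iff_mem_support.mpr (Perm.mem_support.mpr hx)
        have hYx : Y x ≠ x := hc1 x hx
        have hYY : Y (Y x) ≠ Y x := fun h => hYx (Y.injective h)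
        have hXY : X (Y x) ≠ Y x := hc2 _ hYY
        have hmem : Y x ∈ X.support := Perm.mem_support.mpr hXY
        rw [hsupp] at hmem
        simp only [Finset.mem_insert, Finset.mem_singleton] at hmem
        rcases hmem with h | h | h
        · exact absurd h hYx
        · exact absurd (hcon x h) hx
        · rw [h]; exact cube hX x

theorem eq_of_agree {X Y : Perm α} (hX : X.IsThreeCycle) (hY : Y.IsThreeCycle) {p : α}
    (hp : X p ≠ p) (h1 : Y p = X p) (h2 : Y (Y p) = X (X p)) : X = Y := by
  have hpY : Y p ≠ p := by rw [h1]; exact hp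
  rw [hX.eq_swap_mul_swap_iff_mem_support.mpr (Perm.mem_support.mpr hp),
    hY.eq_swap_mul_swap_iff_mem_support.mpr (Perm.mem_support.mpr hpY), h2, h1]

theorem triple {X Y Z : Perm α} (hX : X.IsThreeCycle) (hY : Y.IsThreeCycle)
    (hZ : Z.IsThreeCycle) (hXY : X ≠ Y) {p : α} (hp : Y p = X p) (hp' : X p ≠ p)
    (hXZ : ∃ s, Z s = X s ∧ X s ≠ s) (hYZ : ∃ t, Z t = Y t ∧ Y t ≠ t) : Z p = X p := by
  obtain ⟨s, hs, hs'⟩ := hXZ
  obtain ⟨t, ht, ht'⟩ := hYZ
  have hpY : Y p ≠ p := by rw [hp]; exact hp'
  have hsX := hX.support_eq_iff_mem_support.mpr (Perm.mem_support.mpr hp')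
  have hsY := hY.support_eq_iff_mem_support.mpr (Perm.mem_support.mpr hpY)
  have hnX := hX.nodup_iff_mem_support.mpr (Perm.mem_support.mpr hp')
  have hnY := hY.nodup_iff_mem_support.mpr (Perm.mem_support.mpr hpY)
  have hcd : X (X p) ≠ Y (Y p) := fun h => hXY (eq_of_agree hX hY hp' hp h.symm)
  have hsm : s ∈ X.support := Perm.mem_support.mpr hs'
  have htm : t ∈ Y.support := Perm.mem_support.mpr ht'
  rw [hsX] at hsm
  rw [hsY] at htm
  simp only [Finset.mem_insert, Finset.mem_singleton] at hsm htm
  have hcX := cube hX p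
  have hcY := cube hY p
  rw [hp] at hnY hcY htm hcd
  simp only [List.nodup_cons, List.mem_cons, List.not_mem_nil, or_false, not_or,
    List.nodup_nil, and_true, not_false_eq_true] at hnX hnY
  have hpq : p ≠ X p := hnX.1.1
  have hpc : p ≠ X (X p) := hnX.1.2
  have hqc : X p ≠ X (X p) := hnX.2
  have hpd : p ≠ Y (X p) := hnY.1.2
  have hqd : X p ≠ Y (X p) := hnY.2
  have hcard := hZ.card_support
  have four : ∀ a b c d : α, a ∈ Z.support → b ∈ Z.support → c ∈ Z.support → d ∈ Z.support →
      a ≠ b → a ≠ c → a ≠ d → b ≠ c → b ≠ d → c ≠ d → False := by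
    intro a b c d ha hb hc hd hab hac had hbc hbd hcd
    have hsub : ({a, b, c, d} : Finset α) ⊆ Z.support := by
      intro x hx
      simp only [Finset.mem_insert, Finset.mem_singleton] at hx
      rcases hx with rfl | rfl | rfl | rfl <;> assumption
    have h4 : ({a, b, c, d} : Finset α).card = 4 := by
      rw [Finset.card_insert_of_notMem, Finset.card_insert_of_notMem,
        Finset.card_insert_of_notMem, Finset.card_singleton]
      · simpa using hcd
      · simp [hbc, hbd]
      · simp [hab, hac, had]
    have := Finset.card_le_card hsub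
    omega
  rcases hsm with rfl | rfl | rfl
  · exact hs
  · rcases htm with rfl | rfl | rfl
    · rw [ht, hp]
    · exact absurd (hs.symm.trans ht) hcd
    · exfalso
      rw [hcY] at ht
      have m1 : X p ∈ Z.support := Perm.mem_support.mpr (by rw [hs]; exact hs')
      have m2 : X (X p) ∈ Z.support := by rw [← hs]; exact Perm.apply_mem_support.mpr m1
      have m3 : Y (X p) ∈ Z.support := Perm.mem_support.mpr (by rw [ht]; exact hpd)
      have m4 : p ∈ Z.support := by rw [← ht]; exact Perm.apply_mem_support.mpr m3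
      exact four _ _ _ _ m1 m2 m3 m4 hqc hqd hpq.symm hcd hpc.symm hpd.symm
  · rw [hcX] at hs
    rcases htm with rfl | rfl | rfl
    · rw [ht, hp]
    · exfalso
      have m1 : X (X p) ∈ Z.support := Perm.mem_support.mpr (by rw [hs]; exact hpc)
      have m2 : p ∈ Z.support := by rw [← hs]; exact Perm.apply_mem_support.mpr m1
      have m3 : X p ∈ Z.support := Perm.mem_support.mpr (by rw [ht]; exact ht')
      have m4 : Y (X p) ∈ Z.support := by rw [← ht]; exact Perm.apply_mem_support.mpr m3
      exact four _ _ _ _ m1 m2 m3 m4 hpc.symm hqc.symm hcd hpq hpd hqd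
    · exfalso
      rw [hcY] at ht
      exact hcd (Z.injective (hs.trans ht.symm))

/-- a subgroup of the alternating group containing all products of two "star" transpositions
is the whole alternating group -/
theorem gen (z o : α) (hzo : z ≠ o) (H : Subgroup (Perm α)) (hle : H ≤ alternatingGroup α)
    (hH : ∀ i j, i ≠ z → j ≠ z → swap z i * swap z j ∈ H) : H = alternatingGroup α := by
  have key : ∀ x y, x ≠ y → swap z o * swap x y ∈ H ∧ swap x y * swap z o ∈ H := by
    intro x y hxy
    by_cases hx : x = z
    · subst hx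
      exact ⟨hH o y hzo.symm hxy.symm, hH y o hxy.symm hzo.symm⟩
    by_cases hy : y = z
    · subst hy
      rw [swap_comm x y]
      exact ⟨hH o x hzo.symm hx, hH x o hx hzo.symm⟩
    have h := swap_mul_swap_mul_swap (x := x) (y := z) (z := y) hx hxy
    rw [swap_comm x z, swap_comm y x] at h
    rw [← h]
    constructor
    · have : swap z o * (swap z y * swap z x * swap z y) =
          (swap z o * swap z y) * (swap z x * swap z y) := by group
      rw [this]
      exact mul_mem (hH o y hzo.symm hy) (hH x y hx hy)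
    · have : swap z y * swap z x * swap z y * swap z o =
          (swap z y * swap z x) * (swap z y * swap z o) := by group
      rw [this]
      exact mul_mem (hH y x hy hx) (hH y o hy hzo.symm)
  have P : ∀ f : Perm α, f ∈ H ∨ swap z o * f ∈ H := by
    intro f
    induction f using swap_induction_on with
    | one => left; exact one_mem _
    | swap_mul f x y hxy ih =>
      rcases ih with h | h
      · right
        rw [← mul_assoc]
        exact mul_mem (key x y hxy).1 h
      · left
        have : swap x y * f = (swap x y * swap z o) * (swap z o * f) := by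
          rw [mul_assoc, ← mul_assoc (swap z o), swap_mul_self, one_mul]
        rw [this]
        exact mul_mem (key x y hxy).2 h
  apply le_antisymm hle
  intro g hg
  rcases P g with h | h
  · exact h
  · exfalso
    have h1 := hle h
    rw [mem_alternatingGroup] at h1 hg
    rw [map_mul, hg, mul_one, sign_swap hzo] at h1
    exact absurd h1 (by decide)

theorem swap_id {a b c : α} (_hab : a ≠ b) (hac : a ≠ c) (hbc : b ≠ c) :
    swap a c * swap a b = swap a b * swap b c := by
  have h := swap_mul_swap_mul_swap (x := c) (y := a) (z := b) hac.symm hbc.symm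
  rw [← h, swap_comm c a]
  rw [← mul_assoc, ← mul_assoc, swap_mul_self, one_mul]

open Nat in
theorem nt (j m : ℕ) : m ! * 3 ^ (j + 2) * (j + 2)! ≤ 3 * (m + 3 * j + 3)! ∧
    (1 ≤ j ∨ 1 ≤ m → m ! * 3 ^ (j + 2) * (j + 2)! < 3 * (m + 3 * j + 3)!) := by
  induction j with
  | zero =>
    have h3 : (m + 3)! = (m + 3) * (m + 2) * (m + 1) * m ! := by
      rw [Nat.factorial_succ, Nat.factorial_succ, Nat.factorial_succ]; ring
    have hpos : 0 < m ! := Nat.factorial_pos m
    simp only [Nat.mul_zero, Nat.add_zero, Nat.zero_add]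
    have h2 : (2 : ℕ)! = 2 := rfl
    rw [h3, h2]
    constructor
    · nlinarith [Nat.zero_le m, Nat.zero_le (m * m), Nat.zero_le (m * m * m)]
    · intro h
      rcases h with h | h
      · omega
      · nlinarith [Nat.zero_le (m * m), Nat.zero_le (m * m * m)]
  | succ j ih =>
    have h3 : (m + 3 * (j + 1) + 3)! =
        (m + 3 * j + 6) * (m + 3 * j + 5) * (m + 3 * j + 4) * (m + 3 * j + 3)! := by
      have : m + 3 * (j + 1) + 3 = (m + 3 * j + 3) + 1 + 1 + 1 := by ring
      rw [this, Nat.factorial_succ, Nat.factorial_succ, Nat.factorial_succ]; ring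
    have h4 : m ! * 3 ^ (j + 1 + 2) * (j + 1 + 2)! =
        3 * (j + 3) * (m ! * 3 ^ (j + 2) * (j + 2)!) := by
      have : j + 1 + 2 = (j + 2) + 1 := by ring
      rw [this, Nat.factorial_succ, pow_succ]; ring
    have hpos : 0 < (m + 3 * j + 3)! := Nat.factorial_pos _
    have key : m ! * 3 ^ (j + 1 + 2) * (j + 1 + 2)! < 3 * (m + 3 * (j + 1) + 3)! := by
      rw [h3, h4]
      have h5 : 3 * (j + 3) * (m ! * 3 ^ (j + 2) * (j + 2)!) ≤
          3 * (j + 3) * (3 * (m + 3 * j + 3)!) := Nat.mul_le_mul_left _ ih.1
      have h6 : 3 * (j + 3) < (m + 3 * j + 6) * (m + 3 * j + 5) * (m + 3 * j + 4) := by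
        have : (3 * j + 6) * 5 * 4 ≤ (m + 3 * j + 6) * (m + 3 * j + 5) * (m + 3 * j + 4) := by
          apply Nat.mul_le_mul (Nat.mul_le_mul (by omega) (by omega)) (by omega)
        omega
      calc 3 * (j + 3) * (m ! * 3 ^ (j + 2) * (j + 2)!)
          ≤ 3 * (j + 3) * (3 * (m + 3 * j + 3)!) := h5
        _ = 3 * ((3 * (j + 3)) * (m + 3 * j + 3)!) := by ring
        _ < 3 * (((m + 3 * j + 6) * (m + 3 * j + 5) * (m + 3 * j + 4)) * (m + 3 * j + 3)!) := by
            apply Nat.mul_lt_mul_of_pos_left _ (by norm_num)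
            exact Nat.mul_lt_mul_of_pos_right h6 hpos
        _ = _ := by ring
    exact ⟨key.le, fun _ => key⟩

/-- centralizer order in `Perm α` = relative index times centralizer order in `A_n` -/
theorem cent_card (x : alternatingGroup α) :
    Nat.card (Subgroup.centralizer {(x : Perm α)}) =
      (alternatingGroup α).relIndex (Subgroup.centralizer {(x : Perm α)}) *
        Nat.card {y : alternatingGroup α // y * x = x * y} := by
  rw [Subgroup.relIndex, mul_comm,
    ← Subgroup.card_mul_index ((alternatingGroup α).subgroupOf (Subgroup.centralizer {(x : Perm α)}))]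
  congr 1
  refine Nat.card_congr ⟨fun y => ⟨⟨y.1.1, Subgroup.mem_subgroupOf.mp y.2⟩, ?_⟩,
    fun y => ⟨⟨y.1.1, ?_⟩, ?_⟩, fun y => rfl, fun y => rfl⟩
  · have := Subgroup.mem_centralizer_singleton_iff.mp y.1.2
    exact Subtype.ext this
  · exact Subgroup.mem_centralizer_singleton_iff.mpr (congrArg Subtype.val y.2)
  · exact Subgroup.mem_subgroupOf.mpr y.1.2

theorem cent_aut (φ : alternatingGroup α ≃* alternatingGroup α) (x : alternatingGroup α) :
    Nat.card {y : alternatingGroup α // y * x = x * y} =
      Nat.card {y : alternatingGroup α // y * φ x = φ x * y} := by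
  refine Nat.card_congr (φ.toEquiv.subtypeEquiv fun y => ?_)
  constructor
  · intro h
    show φ y * φ x = φ x * φ y
    rw [← map_mul, ← map_mul, h]
  · intro h
    apply φ.injective
    rw [map_mul, map_mul]
    exact h

theorem relIndex_cases [Nontrivial α] (g : Perm α) :
    ((alternatingGroup α).relIndex (Subgroup.centralizer {g}) = 1 ∧
      Subgroup.centralizer {g} ≤ alternatingGroup α) ∨
    ((alternatingGroup α).relIndex (Subgroup.centralizer {g}) = 2 ∧
      ¬ Subgroup.centralizer {g} ≤ alternatingGroup α) := by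
  have h := Subgroup.relIndex_dvd_index_of_normal (alternatingGroup α) (Subgroup.centralizer {g})
  rw [alternatingGroup.index_eq_two] at h
  rcases (Nat.dvd_prime Nat.prime_two).mp h with h1 | h1
  · left; exact ⟨h1, Subgroup.relIndex_eq_one.mp h1⟩
  · right
    refine ⟨h1, fun hle => ?_⟩
    rw [Subgroup.relIndex_eq_one.mpr hle] at h1
    omega

/-- automorphisms of `A_n`, `n ≠ 6`, preserve 3-cycles -/
theorem pres (hα : Fintype.card α ≠ 6) (φ : alternatingGroup α ≃* alternatingGroup α)
    (g : alternatingGroup α) (hg : IsThreeCycle (g : Perm α)) :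
    IsThreeCycle ((φ g : alternatingGroup α) : Perm α) := by
  have ho : orderOf ((φ g : alternatingGroup α) : Perm α) = 3 := by
    rw [Subgroup.orderOf_coe, MulEquiv.orderOf_eq, ← Subgroup.orderOf_coe, hg.orderOf]
  obtain ⟨k, hk⟩ := cycleType_prime_order (σ := ((φ g : alternatingGroup α) : Perm α))
    (by rw [ho]; norm_num)
  rw [ho] at hk
  rcases Nat.eq_zero_or_pos k with rfl | hkpos
  · exact hk
  exfalso
  have hsum := sum_cycleType_le ((φ g : alternatingGroup α) : Perm α)
  rw [hk, Multiset.sum_replicate, smul_eq_mul] at hsum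
  have h3 : 3 ≤ Fintype.card α := by omega
  have : Nontrivial α := Fintype.one_lt_card_iff_nontrivial.mp (by omega)
  have c1 := cent_card g
  have c2 := cent_card (φ g)
  rw [nat_card_centralizer] at c1 c2
  rw [← cent_aut φ g] at c2
  -- relative indices
  have r1 : (alternatingGroup α).relIndex (Subgroup.centralizer {(g : Perm α)}) = 2 := by
    rcases relIndex_cases (g : Perm α) with h | h
    · exfalso
      have := (centralizer_le_alternating_iff).mp h.2
      rw [hg.cycleType] at this
      simp only [Multiset.sum_singleton] at this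
      omega
    · exact h.1
  have r2 : (alternatingGroup α).relIndex
      (Subgroup.centralizer {((φ g : alternatingGroup α) : Perm α)}) = 2 := by
    rcases relIndex_cases ((φ g : alternatingGroup α) : Perm α) with h | h
    · exfalso
      have := ((centralizer_le_alternating_iff).mp h.2).2.2 3
      rw [hk, Multiset.count_replicate_self] at this
      omega
    · exact h.1
  rw [r1, hg.cycleType] at c1
  rw [r2, hk] at c2
  simp only [Multiset.sum_singleton, Multiset.prod_singleton, Multiset.toFinset_singleton,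
    Finset.prod_singleton, Multiset.count_singleton_self, Nat.factorial_one, mul_one] at c1
  have htf : (Multiset.replicate (k + 1) 3).toFinset = {3} := by
    ext x
    rw [Multiset.mem_toFinset, Multiset.mem_replicate, Finset.mem_singleton]
    exact ⟨fun h => h.2, fun h => ⟨by omega, h⟩⟩
  rw [Multiset.sum_replicate, smul_eq_mul, Multiset.prod_replicate, htf, Finset.prod_singleton,
    Multiset.count_replicate_self] at c2
  -- now the arithmetic
  obtain ⟨j, rfl⟩ : ∃ j, k = j + 1 := ⟨k - 1, by omega⟩
  obtain ⟨m, hm⟩ : ∃ m, Fintype.card α = m + 3 * j + 6 := ⟨Fintype.card α - 3 * j - 6, by omega⟩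
  have e1 : Fintype.card α - 3 = m + 3 * j + 3 := by omega
  have e2 : Fintype.card α - (j + 1 + 1) * 3 = m := by omega
  rw [e1] at c1
  rw [e2] at c2
  have hnt := nt j m
  have heq : 3 * (m + 3 * j + 3).factorial = m.factorial * 3 ^ (j + 2) * (j + 2).factorial := by
    have : (m + 3 * j + 3).factorial * 3 = m.factorial * 3 ^ (j + 1 + 1) * (j + 1 + 1).factorial := by
      rw [c1, c2]
    rw [mul_comm]; exact this
  have : ¬ (1 ≤ j ∨ 1 ≤ m) := fun h => by
    have := hnt.2 h
    omega
  apply hα
  omega

section main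

variable (φ : alternatingGroup α ≃* alternatingGroup α)

open Classical in
/-- extension by 1 of an automorphism of `A_n` to a function on `Perm α` -/
noncomputable def ex (g : Perm α) : Perm α :=
  if h : g ∈ alternatingGroup α then ((φ ⟨g, h⟩ : alternatingGroup α) : Perm α) else 1

theorem ex_pos {g : Perm α} (h : g ∈ alternatingGroup α) :
    ex φ g = ((φ ⟨g, h⟩ : alternatingGroup α) : Perm α) := dif_pos h

theorem ex_mul {g h : Perm α} (hg : g ∈ alternatingGroup α) (hh : h ∈ alternatingGroup α) :
    ex φ (g * h) = ex φ g * ex φ h := by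
  rw [ex_pos φ hg, ex_pos φ hh, ex_pos φ (mul_mem hg hh), ← Subgroup.coe_mul, ← map_mul]
  rfl

theorem ex_one : ex φ 1 = 1 := by
  rw [ex_pos φ (one_mem _)]
  have : (⟨1, one_mem _⟩ : alternatingGroup α) = 1 := rfl
  rw [this, map_one]; rfl

theorem ex_inj {g h : Perm α} (hg : g ∈ alternatingGroup α) (hh : h ∈ alternatingGroup α)
    (e : ex φ g = ex φ h) : g = h := by
  rw [ex_pos φ hg, ex_pos φ hh] at e
  have := φ.injective (Subtype.ext e)
  exact congrArg Subtype.val this

/-- the 3-cycle `(z o k)` -/
def t (z o k : α) : Perm α := swap z k * swap z o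

theorem t_three {z o k : α} (hzo : z ≠ o) (hk : k ≠ z) (hk' : k ≠ o) : IsThreeCycle (t z o k) :=
  isThreeCycle_swap_mul_swap_same hk.symm hzo hk'

theorem t_apply_o (z o k : α) : t z o k o = k := by simp [t]

theorem t_apply_z {z o k : α} (hzo : z ≠ o) (hk' : k ≠ o) : t z o k z = o := by
  simp only [t, Perm.coe_mul, Function.comp_apply, swap_apply_left]
  exact swap_apply_of_ne_of_ne hzo.symm hk'.symm

theorem t_rel {z o k l : α} (hzo : z ≠ o) (hk : k ≠ z) (hk' : k ≠ o) (hl : l ≠ z) (hl' : l ≠ o)
    (hkl : k ≠ l) : t z o k * t z o l * (t z o k * t z o l) = 1 := by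
  have h := swap_mul_swap_mul_swap (x := l) (y := z) (z := o) hl hl'
  have e : t z o k * t z o l = swap z k * swap o l := by
    rw [← h, swap_comm l z]; simp only [t]; group
  rw [e]
  have hd : Disjoint (swap z k) (swap o l) :=
    disjoint_swap_swap (by simp [hzo, hk.symm, hl.symm, hk', hkl, hl'.symm])
  have hc := hd.commute.eq
  calc swap z k * swap o l * (swap z k * swap o l)
      = swap z k * (swap o l * swap z k) * swap o l := by group
    _ = swap z k * (swap z k * swap o l) * swap o l := by rw [hc]
    _ = (swap z k * swap z k) * (swap o l * swap o l) := by group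
    _ = 1 := by rw [swap_mul_self, swap_mul_self, one_mul]

/-- an automorphism of `A_n` preserving 3-cycles is conjugation by a permutation -/
theorem conj_of_pres (z o u v : α) (hzo : z ≠ o) (hzu : u ≠ z) (hou : u ≠ o) (hzv : v ≠ z)
    (hov : v ≠ o) (huv : u ≠ v)
    (hφ : ∀ g : alternatingGroup α, IsThreeCycle (g : Perm α) →
      IsThreeCycle ((φ g : alternatingGroup α) : Perm α)) :
    ∃ σ : Perm α, MulAut.conjNormal σ = φ := by
  classical
  set X : α → Perm α := fun k => ex φ (t z o k) with hXdef
  have tmem : ∀ k, k ≠ z → k ≠ o → t z o k ∈ alternatingGroup α :=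
    fun k hk hk' => (t_three hzo hk hk').mem_alternatingGroup
  have hX3 : ∀ k, k ≠ z → k ≠ o → IsThreeCycle (X k) := by
    intro k hk hk'
    simp only [hXdef]; rw [ex_pos φ (tmem k hk hk')]
    exact hφ _ (t_three hzo hk hk')
  have hXrel : ∀ k l, k ≠ z → k ≠ o → l ≠ z → l ≠ o → k ≠ l → X k * X l * (X k * X l) = 1 := by
    intro k l hk hk' hl hl' hkl
    simp only [hXdef]
    rw [← ex_mul φ (tmem k hk hk') (tmem l hl hl'),
      ← ex_mul φ (mul_mem (tmem k hk hk') (tmem l hl hl'))
        (mul_mem (tmem k hk hk') (tmem l hl hl')), t_rel hzo hk hk' hl hl' hkl, ex_one]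
  have hXne : ∀ k l, k ≠ z → k ≠ o → l ≠ z → l ≠ o → k ≠ l → X k * X l ≠ 1 := by
    intro k l hk hk' hl hl' hkl h
    simp only [hXdef] at h
    rw [← ex_mul φ (tmem k hk hk') (tmem l hl hl'), ← ex_one φ] at h
    have h' := ex_inj φ (mul_mem (tmem k hk hk') (tmem l hl hl')) (one_mem _) h
    have h'' := congrArg (fun f : Perm α => f z) h'
    simp only [Perm.coe_mul, Function.comp_apply, Perm.coe_one, id_eq] at h''
    rw [t_apply_z hzo hl', t_apply_o] at h''
    exact hk h''
  have hXinj : ∀ k l, k ≠ z → k ≠ o → l ≠ z → l ≠ o → X k = X l → k = l := by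
    intro k l hk hk' hl hl' h
    have h' := ex_inj φ (tmem k hk hk') (tmem l hl hl') h
    have h'' := congrArg (fun f : Perm α => f o) h'
    simpa [t_apply_o] using h''
  obtain ⟨a, ha, ha'⟩ := f1 (hX3 u hzu hou) (hX3 v hzv hov) (hXrel u v hzu hou hzv hov huv)
    (hXne u v hzu hou hzv hov huv)
  obtain ⟨b, hb⟩ : ∃ b, b = X u a := ⟨_, rfl⟩
  rw [← hb] at ha ha'
  have hab : ∀ k, k ≠ z → k ≠ o → X k a = b := by
    intro k hk hk'
    by_cases hku : k = u
    · rw [hku, hb]
    by_cases hkv : k = v
    · rw [hkv]; exact ha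
    rw [hb]
    rw [hb] at ha ha'
    exact triple (hX3 u hzu hou) (hX3 v hzv hov) (hX3 k hk hk')
      (fun h => huv (hXinj u v hzu hou hzv hov h)) ha ha'
      (f1 (hX3 u hzu hou) (hX3 k hk hk') (hXrel u k hzu hou hk hk' (Ne.symm hku))
        (hXne u k hzu hou hk hk' (Ne.symm hku)))
      (f1 (hX3 v hzv hov) (hX3 k hk hk') (hXrel v k hzv hov hk hk' (Ne.symm hkv))
        (hXne v k hzv hov hk hk' (Ne.symm hkv)))
  have hnd : ∀ k, k ≠ z → k ≠ o → a ≠ b ∧ a ≠ X k b ∧ b ≠ X k b := by
    intro k hk hk'
    have hmem : a ∈ (X k).support := Perm.mem_support.mpr (by rw [hab k hk hk']; exact ha')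
    have := (hX3 k hk hk').nodup_iff_mem_support.mpr hmem
    rw [hab k hk hk'] at this
    simp only [List.nodup_cons, List.mem_cons, List.not_mem_nil, or_false, not_or,
      List.nodup_nil, and_true, not_false_eq_true] at this
    exact ⟨this.1.1, this.1.2, this.2⟩
  let f : α → α := fun k => if k = z then a else if k = o then b else X k b
  have hf : Function.Injective f := by
    intro k l hkl
    simp only [f] at hkl
    by_cases hk : k = z
    · by_cases hl : l = z
      · rw [hk, hl]
      · exfalso
        rw [if_pos hk, if_neg hl] at hkl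
        by_cases hl' : l = o
        · rw [if_pos hl'] at hkl; exact ha' hkl.symm
        · rw [if_neg hl'] at hkl; exact (hnd l hl hl').2.1 hkl
    · by_cases hk' : k = o
      · rw [if_neg hk, if_pos hk'] at hkl
        by_cases hl : l = z
        · rw [if_pos hl] at hkl; exact absurd hkl ha'
        · by_cases hl' : l = o
          · rw [hk', hl']
          · rw [if_neg hl, if_neg hl'] at hkl; exact absurd hkl (hnd l hl hl').2.2
      · rw [if_neg hk, if_neg hk'] at hkl
        by_cases hl : l = z
        · rw [if_pos hl] at hkl; exact absurd hkl.symm (hnd k hk hk').2.1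
        · by_cases hl' : l = o
          · rw [if_neg hl, if_pos hl'] at hkl; exact absurd hkl.symm (hnd k hk hk').2.2
          · rw [if_neg hl, if_neg hl'] at hkl
            apply hXinj k l hk hk' hl hl'
            exact eq_of_agree (hX3 k hk hk') (hX3 l hl hl') (by rw [hab k hk hk']; exact ha')
              (by rw [hab l hl hl', hab k hk hk'])
              (by rw [hab l hl hl', hab k hk hk']; exact hkl.symm)
  let σ : Perm α := Equiv.ofBijective f (Finite.injective_iff_bijective.mp hf)
  have hσz : σ z = a := by simp [σ, f]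
  have hσo : σ o = b := by simp [σ, f, hzo.symm]
  have hσk : ∀ k, k ≠ z → k ≠ o → σ k = X k b := by
    intro k hk hk'; simp [σ, f, hk, hk']
  refine ⟨σ, ?_⟩
  have hconj : ∀ k, k ≠ z → k ≠ o → σ * t z o k * σ⁻¹ = X k := by
    intro k hk hk'
    have h1 : σ * t z o k * σ⁻¹ = (σ * swap z k * σ⁻¹) * (σ * swap z o * σ⁻¹) := by
      simp only [t]; group
    rw [h1, ← swap_apply_apply, ← swap_apply_apply, hσz, hσo, hσk k hk hk']
    obtain ⟨n1, n2, n3⟩ := hnd k hk hk'
    rw [swap_id n1 n2 n3]
    have hmem : a ∈ (X k).support := Perm.mem_support.mpr (by rw [hab k hk hk']; exact ha')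
    have := (hX3 k hk hk').eq_swap_mul_swap_iff_mem_support.mpr hmem
    rw [hab k hk hk'] at this
    exact this.symm
  let E : Subgroup (alternatingGroup α) :=
    MonoidHom.eqLocus (MulAut.conjNormal σ : alternatingGroup α ≃* alternatingGroup α).toMonoidHom
      φ.toMonoidHom
  have htE : ∀ k, k ≠ z → t z o k ∈ E.map (alternatingGroup α).subtype := by
    intro k hk
    by_cases hk' : k = o
    · rw [hk']
      have : t z o o = 1 := by simp [t]
      rw [this]; exact one_mem _
    · refine ⟨⟨t z o k, tmem k hk hk'⟩, ?_, rfl⟩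
      show (MulAut.conjNormal σ) ⟨t z o k, tmem k hk hk'⟩ = φ ⟨t z o k, tmem k hk hk'⟩
      apply Subtype.ext
      rw [MulAut.conjNormal_apply]
      show σ * t z o k * σ⁻¹ = _
      rw [hconj k hk hk']
      exact ex_pos φ (tmem k hk hk')
  have hgen := gen z o hzo (E.map (alternatingGroup α).subtype) (Subgroup.map_subtype_le E) (by
    intro i j hi hj
    have : swap z i * swap z j = t z o i * (t z o j)⁻¹ := by
      simp only [t, mul_inv_rev, swap_inv]
      rw [mul_assoc, ← mul_assoc (swap z o), swap_mul_self, one_mul]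
    rw [this]
    exact mul_mem (htE i hi) (inv_mem (htE j hj)))
  apply MulEquiv.ext
  intro x
  have hx : (x : Perm α) ∈ E.map (alternatingGroup α).subtype := by rw [hgen]; exact x.2
  obtain ⟨y, hy, hyx⟩ := hx
  have : y = x := Subtype.ext hyx
  rw [← this]; exact hy

end main

theorem conj_inj (h4 : 4 ≤ Fintype.card α) :
    Function.Injective (MulAut.conjNormal : Perm α →* MulAut (alternatingGroup α)) := by
  rw [injective_iff_map_eq_one]
  intro σ hσ
  by_contra hne
  obtain ⟨x, hx⟩ : ∃ x, σ x ≠ x := by
    by_contra h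
    push Not at h
    exact hne (Perm.ext h)
  have hc : 1 < ({x, σ x} : Finset α)ᶜ.card := by
    rw [Finset.card_compl]
    have : ({x, σ x} : Finset α).card ≤ 2 := Finset.card_le_two
    omega
  obtain ⟨u, hu, v, hv, huv⟩ := Finset.one_lt_card.mp hc
  simp only [Finset.mem_compl, Finset.mem_insert, Finset.mem_singleton, not_or] at hu hv
  have hg3 : IsThreeCycle (swap x u * swap x v) :=
    isThreeCycle_swap_mul_swap_same (Ne.symm hu.1) (Ne.symm hv.1) huv
  have h := congrArg (fun ψ : MulAut (alternatingGroup α) =>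
    ((ψ ⟨_, hg3.mem_alternatingGroup⟩ : alternatingGroup α) : Perm α)) hσ
  simp only [MulAut.conjNormal_apply, MulAut.one_apply] at h
  have h' := congrArg (fun f : Perm α => f (σ x)) h
  simp only [Perm.coe_mul, Function.comp_apply, Equiv.Perm.coe_inv, Equiv.symm_apply_apply, swap_apply_left] at h'
  rw [swap_apply_of_ne_of_ne (a := x) (b := u) (x := v) hv.1 huv.symm,
    swap_apply_of_ne_of_ne (a := x) (b := v) (x := σ x) hx (Ne.symm hv.2),
    swap_apply_of_ne_of_ne (a := x) (b := u) (x := σ x) hx (Ne.symm hu.2)] at h'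
  exact hv.1 (σ.injective h')

/-- `Aut(A_n) = S_n` for `n ≥ 4`, `n ≠ 6` -/
theorem aut_alt (h4 : 4 ≤ Fintype.card α) (h6 : Fintype.card α ≠ 6) :
    Function.Bijective (MulAut.conjNormal : Perm α →* MulAut (alternatingGroup α)) := by
  refine ⟨conj_inj h4, fun φ => ?_⟩
  obtain ⟨s, hs, hcard⟩ := Finset.exists_subset_card_eq (s := (Finset.univ : Finset α)) (n := 4)
    (by rw [Finset.card_univ]; exact h4)
  obtain ⟨z, o, u, v, hzo, hzu, hzv, hou, hov, huv, -⟩ := Finset.card_eq_four.mp hcard
  exact conj_of_pres φ z o u v hzo hzu.symm hou.symm hzv.symm hov.symm huv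
    (fun g hg => pres h6 φ g hg)

end Cfsg.Agent.Helper14.AutAlt
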