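import Mathlib
import Cfsg.Prelude
import Cfsg.Agent.S0750

set_option autoImplicit false
open Cfsg

namespace Cfsg.Agent.Helper14.OConj

open Module
open scoped Matrix MatrixGroups

universe u v

section abstract

variable {F : Type u} {V : Type v} [Field F] [AddCommGroup V] [Module F V]

theorem polar_injective (Q : QuadraticForm F V)
    (hQ : (QuadraticMap.polarBilin Q).Nondegenerate) (T : V →ₗ[F] V)
    (hT : ∀ x y, QuadraticMap.polar Q (T x) (T y) = QuadraticMap.polar Q x y) :
    Function.Injective T := by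
  rw [← LinearMap.ker_eq_bot, LinearMap.ker_eq_bot']
  intro x hx
  apply hQ.1 x
  intro y
  rw [QuadraticMap.polarBilin_apply_apply, ← hT x y, hx]
  unfold QuadraticMap.polar
  rw [zero_add, map_zero, sub_zero, sub_self]

/-- In characteristic two, two isometries of a quadratic form with nondegenerate polar form
which are conjugate under an isometry of the polar form are conjugate under an isometry of the
quadratic form. -/
theorem conj_of_polar_conj [FiniteDimensional F V] [CharP F 2] (Q : QuadraticForm F V)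
    (hQ : (QuadraticMap.polarBilin Q).Nondegenerate)
    (t s g : V →ₗ[F] V) (ht : ∀ v, Q (t v) = Q v) (hs : ∀ v, Q (s v) = Q v)
    (hg : ∀ x y, QuadraticMap.polar Q (g x) (g y) = QuadraticMap.polar Q x y)
    (hconj : ∀ v, g (t v) = s (g v)) :
    ∃ h : V ≃ₗ[F] V, (∀ v, Q (h v) = Q v) ∧ ∀ v, h (t v) = s (h v) := by
  have h2 : (2 : F) = 0 := by
    have := CharP.cast_eq_zero F 2
    exact_mod_cast this
  obtain ⟨D, hD⟩ : ∃ D : V → F, D = fun v => Q (g v) - Q v := ⟨_, rfl⟩
  have hDapp : ∀ v, D v = Q (g v) - Q v := fun v => by rw [hD]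
  have hDadd : ∀ x y, D (x + y) = D x + D y := by
    intro x y
    rw [hDapp, hDapp, hDapp, map_add, QuadraticMap.map_add (⇑Q) (g x) (g y),
      QuadraticMap.map_add (⇑Q) x y, hg]
    ring
  have hDsmul : ∀ (c : F) x, D (c • x) = c * c * D x := by
    intro c x
    rw [hDapp, hDapp, map_smul, QuadraticMap.map_smul, QuadraticMap.map_smul]
    simp only [smul_eq_mul]
    ring
  have hDt : ∀ v, D (t v) = D v := by
    intro v
    rw [hDapp, hDapp, hconj, hs, ht]
  obtain ⟨H, hH⟩ : ∃ H : Submodule F V, ∀ v, v ∈ H ↔ D v = 0 := by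
    refine ⟨{ carrier := {v | D v = 0}, add_mem' := ?_, zero_mem' := ?_, smul_mem' := ?_ },
      fun v => Iff.rfl⟩
    · intro a b ha hb
      change D (a + b) = 0
      rw [hDadd, ha, hb, add_zero]
    · change D 0 = 0
      rw [hDapp, map_zero, map_zero, sub_zero]
    · intro c x hx
      change D (c • x) = 0
      rw [hDsmul, hx, mul_zero]
  have htH : ∀ v, t v - v ∈ H := by
    intro v
    rw [hH, sub_eq_add_neg, hDadd, hDt, ← neg_one_smul F v, hDsmul]
    linear_combination D v * h2
  have hginj : Function.Injective g := polar_injective Q hQ g hg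
  obtain ⟨h, hhQ, hhg⟩ := Cfsg.Agent.S0750.witt Q hQ H g
    (fun x hx => by
      have := (hH x).mp hx
      rw [hDapp] at this
      exact sub_eq_zero.mp this)
    (fun x _ h0 => hginj (by rw [h0, map_zero]))
  have hhpol : ∀ x y, QuadraticMap.polar Q (h x) (h y) = QuadraticMap.polar Q x y :=
    Cfsg.Agent.S0750.polar_isom Q h (map_add h) hhQ
  have hspol : ∀ x y, QuadraticMap.polar Q (s x) (s y) = QuadraticMap.polar Q x y :=
    Cfsg.Agent.S0750.polar_isom Q s (map_add s) hs
  obtain ⟨sE, hsE⟩ := Cfsg.Agent.S0750.isom_equiv Q hQ s hs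
  obtain ⟨gE, hgE⟩ : ∃ gE : V ≃ₗ[F] V, ∀ v, gE v = g v :=
    ⟨LinearEquiv.ofInjectiveEndo g hginj, fun v => by rw [LinearEquiv.coe_ofInjectiveEndo]⟩
  -- Δ v = h v - g v is orthogonal to g H
  have horth : ∀ v, ∀ y ∈ H, QuadraticMap.polar Q (h v - g v) (g y) = 0 := by
    intro v y hy
    rw [QuadraticMap.polar_sub_left, hg, ← hhg y hy, hhpol, sub_self]
  have hfix : ∀ v, s (h v - g v) = h v - g v := by
    intro v
    rw [← sub_eq_zero]
    apply hQ.1
    intro w
    rw [QuadraticMap.polarBilin_apply_apply]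
    obtain ⟨w', hw'⟩ : ∃ w', w = s w' := ⟨sE.symm w, by rw [← hsE, sE.apply_symm_apply]⟩
    obtain ⟨y', hy'⟩ : ∃ y', w' = g y' := ⟨gE.symm w', by rw [← hgE, gE.apply_symm_apply]⟩
    have e1 : s w' - w' = g (t y' - y') := by
      rw [map_sub, hconj, hy']
    have e2 := horth v (t y' - y') (htH y')
    rw [← e1, QuadraticMap.polar_sub_right] at e2
    rw [hw', QuadraticMap.polar_sub_left, hspol]
    linear_combination -e2
  have hΔt : ∀ v, h (t v) - g (t v) = h v - g v := by
    intro v
    have := hhg (t v - v) (htH v)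
    rw [map_sub, map_sub, sub_eq_sub_iff_add_eq_add] at this
    rw [sub_eq_sub_iff_add_eq_add, this, add_comm]
  refine ⟨h, hhQ, ?_⟩
  intro v
  have e1 := hΔt v
  have e2 := hfix v
  rw [map_sub] at e2
  rw [hconj] at e1
  exact sub_left_injective (e1.trans e2.symm)

end abstract

section concrete

variable {ι : Type} [Fintype ι] [DecidableEq ι] {F : Type u} [Field F]

/-- Concrete transfer: for a function `Qf` on `ι → F` given by a quadratic form with
nondegenerate polar form in characteristic two, conjugacy in the isometry group is the same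
as conjugacy under the matrices preserving the polar form. -/
theorem conj_iff_general [CharP F 2]
    (Qf : (ι → F) → F) (Q : QuadraticForm F (ι → F)) (hQf : ∀ v, Q v = Qf v)
    (hnd : ∀ x : ι → F, (∀ y, Qf (x + y) - Qf x - Qf y = 0) → x = 0)
    (t s : ↥(Cfsg.isometryGroup F Qf)) :
    IsConj t s ↔ ∃ g ∈ Cfsg.preserving (Units.coeHom (Matrix ι ι F))
      (fun u v => Qf (u + v) - Qf u - Qf v), g * (t : GL ι F) * g⁻¹ = (s : GL ι F) := by
  have hiso : ∀ (a : ↥(Cfsg.isometryGroup F Qf)) (v : ι → F),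
      Qf ((a.1 : Matrix ι ι F) *ᵥ v) = Qf v := fun a v => a.2 v 0
  constructor
  · intro h
    obtain ⟨c, hc⟩ := isConj_iff.mp h
    refine ⟨c.1, ?_, ?_⟩
    · intro u v
      change Qf ((c.1 : Matrix ι ι F) *ᵥ u + (c.1 : Matrix ι ι F) *ᵥ v)
        - Qf ((c.1 : Matrix ι ι F) *ᵥ u) - Qf ((c.1 : Matrix ι ι F) *ᵥ v) = Qf (u + v) - Qf u - Qf v
      rw [← Matrix.mulVec_add, hiso, hiso, hiso]
    · have := congrArg Subtype.val hc
      exact this
  · rintro ⟨g, hg, hgts⟩
    have hpol : ∀ x y, QuadraticMap.polar Q x y = Qf (x + y) - Qf x - Qf y := by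
      intro x y
      unfold QuadraticMap.polar
      rw [hQf, hQf, hQf]
    have hQ : (QuadraticMap.polarBilin Q).Nondegenerate := by
      constructor
      · intro x hx
        apply hnd x
        intro y
        rw [← hpol, ← QuadraticMap.polarBilin_apply_apply]
        exact hx y
      · intro y hy
        apply hnd y
        intro x
        rw [← hpol, QuadraticMap.polar_comm, ← QuadraticMap.polarBilin_apply_apply]
        exact hy x
    have hg' : ∀ u v : ι → F, Qf ((g : Matrix ι ι F) *ᵥ u + (g : Matrix ι ι F) *ᵥ v)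
        - Qf ((g : Matrix ι ι F) *ᵥ u) - Qf ((g : Matrix ι ι F) *ᵥ v)
        = Qf (u + v) - Qf u - Qf v := fun u v => hg u v
    have hmat : (g : Matrix ι ι F) * (t.1 : Matrix ι ι F) = (s.1 : Matrix ι ι F) * (g : Matrix ι ι F) := by
      have h1 : g * (t : GL ι F) = (s : GL ι F) * g := by
        rw [← hgts]; group
      have := congrArg (fun x : GL ι F => (x : Matrix ι ι F)) h1
      simpa using this
    obtain ⟨h, hhQ, hhts⟩ := conj_of_polar_conj Q hQ (Matrix.toLin' (t.1 : Matrix ι ι F))
      (Matrix.toLin' (s.1 : Matrix ι ι F)) (Matrix.toLin' (g : Matrix ι ι F))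
      (fun v => by rw [hQf, hQf, Matrix.toLin'_apply, hiso])
      (fun v => by rw [hQf, hQf, Matrix.toLin'_apply, hiso])
      (fun x y => by rw [hpol, hpol, Matrix.toLin'_apply, Matrix.toLin'_apply, hg'])
      (fun v => by
        rw [Matrix.toLin'_apply, Matrix.toLin'_apply, Matrix.toLin'_apply, Matrix.toLin'_apply,
          Matrix.mulVec_mulVec, Matrix.mulVec_mulVec, hmat])
    obtain ⟨P, hPdef⟩ : ∃ P, P = LinearMap.toMatrix' (h : (ι → F) →ₗ[F] (ι → F)) := ⟨_, rfl⟩
    obtain ⟨P', hP'def⟩ : ∃ P', P' = LinearMap.toMatrix' (h.symm : (ι → F) →ₗ[F] (ι → F)) :=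
      ⟨_, rfl⟩
    have hPv : ∀ x, Matrix.mulVec P x = h x := by
      intro x
      rw [hPdef, ← Matrix.toLin'_apply, Matrix.toLin'_toMatrix']
      rfl
    have hPP' : P * P' = 1 := by
      rw [hPdef, hP'def, ← LinearMap.toMatrix'_comp, ← LinearMap.toMatrix'_id]
      congr 1
      ext x : 1
      simp
    have hP'P : P' * P = 1 := by
      rw [hPdef, hP'def, ← LinearMap.toMatrix'_comp, ← LinearMap.toMatrix'_id]
      congr 1
      ext x : 1
      simp
    obtain ⟨Pu, hPu⟩ : ∃ Pu : GL ι F, (Pu : Matrix ι ι F) = P := ⟨⟨P, P', hPP', hP'P⟩, rfl⟩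
    have hPmem : Pu ∈ Cfsg.isometryGroup F Qf := by
      intro u v
      change Qf ((Pu : Matrix ι ι F) *ᵥ u) = Qf u
      rw [hPu, hPv, ← hQf, hhQ, hQf]
    have hPt : P * (t.1 : Matrix ι ι F) = (s.1 : Matrix ι ι F) * P := by
      apply Matrix.toLin'.injective
      apply LinearMap.ext
      intro x
      rw [Matrix.toLin'_apply, Matrix.toLin'_apply, ← Matrix.mulVec_mulVec, ← Matrix.mulVec_mulVec,
        hPv, hPv]
      have := hhts x
      rw [Matrix.toLin'_apply, Matrix.toLin'_apply] at this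
      exact this
    rw [isConj_iff]
    refine ⟨⟨Pu, hPmem⟩, ?_⟩
    rw [mul_inv_eq_iff_eq_mul]
    apply Subtype.ext
    apply Units.ext
    change (Pu : Matrix ι ι F) * (t.1 : Matrix ι ι F) = (s.1 : Matrix ι ι F) * (Pu : Matrix ι ι F)
    rw [hPu]
    exact hPt

end concrete

end Cfsg.Agent.Helper14.OConj
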