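import Mathlib
import Cfsg.Agent.S0493
import Cfsg.Agent.S4493

set_option autoImplicit false

/-!
# Groups of order 60

* `solvable_of_card_lt`: groups of order less than 60 are solvable;
* `solvable_of_card_60`: a non-simple group of order 60 is solvable;
* `exists_normal_sylow_of_solvable`: a solvable group of order 60 has a normal abelian Sylow
  subgroup for some prime.
-/

namespace Cfsg.Agent.Helper14.O60

universe u

theorem exists_normal_of_not_simple (G : Type u) [Group G] [Finite G] [Nontrivial G]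
    (hs : ¬ IsSimpleGroup G) :
    ∃ N : Subgroup G, N.Normal ∧ Nat.card N < Nat.card G ∧ Nat.card (G ⧸ N) < Nat.card G := by
  have h1 : ∃ N : Subgroup G, N.Normal ∧ N ≠ ⊥ ∧ N ≠ ⊤ := by
    by_contra hcon
    push Not at hcon
    exact hs { eq_bot_or_eq_top_of_normal := fun N hN => by
                by_cases h : N = ⊥
                · left; exact h
                · right; exact hcon N hN h }
  obtain ⟨N, hN, hbot, htop⟩ := h1
  haveI := hN
  refine ⟨N, hN, ?_, ?_⟩
  · have h2 := Subgroup.card_mul_index N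
    have h3 : N.index ≠ 1 := fun h => htop (Subgroup.index_eq_one.mp h)
    have h4 : N.index ≠ 0 := Subgroup.index_ne_zero_of_finite
    have h5 : 0 < Nat.card N := Nat.card_pos
    have h6 : 2 ≤ N.index := by omega
    nlinarith
  · have h2 := Subgroup.card_mul_index N
    have h3 : Nat.card N ≠ 1 := fun h => hbot (Subgroup.card_eq_one.mp h)
    have h4 : N.index ≠ 0 := Subgroup.index_ne_zero_of_finite
    have h5 : 0 < Nat.card N := Nat.card_pos
    have h6 : 2 ≤ Nat.card N := by omega
    rw [← Subgroup.index_eq_card]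
    have h7 : 2 * N.index ≤ Nat.card N * N.index := Nat.mul_le_mul_right _ h6
    rw [h2] at h7
    omega

/-- every group of order less than 60 is solvable -/
theorem solvable_of_card_lt : ∀ (n : ℕ) (G : Type u) [Group G] [Finite G],
    Nat.card G = n → n < 60 → Group.IsSolvable G := by
  intro n
  induction n using Nat.strong_induction_on with
  | _ n ih =>
    intro G _ _ hcard hlt
    by_cases htriv : Subsingleton G
    · infer_instance
    haveI : Nontrivial G := not_subsingleton_iff_nontrivial.mp htriv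
    by_cases hs : IsSimpleGroup G
    · have hcyc : IsCyclic G := by
        by_contra hc
        have := Cfsg.Agent.S0493.result (G := G) hc (by omega)
        omega
      letI := IsCyclic.commGroup (α := G)
      exact Group.isSolvable_of_comm (fun a b => mul_comm a b)
    · obtain ⟨N, hN, h1, h2⟩ := exists_normal_of_not_simple G hs
      haveI := hN
      haveI := ih _ (by omega) N rfl (by omega)
      haveI := ih _ (by omega) (G ⧸ N) rfl (by omega)
      exact (Group.isSolvable_iff_subgroup_quotient N).mpr ⟨inferInstance, inferInstance⟩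

/-- a non-simple group of order 60 is solvable -/
theorem solvable_of_card_60 (G : Type u) [Group G] [Finite G] (h : Nat.card G = 60)
    (hs : ¬ IsSimpleGroup G) : Group.IsSolvable G := by
  haveI : Nontrivial G := by
    rw [← Finite.one_lt_card_iff_nontrivial]
    omega
  obtain ⟨N, hN, h1, h2⟩ := exists_normal_of_not_simple G hs
  haveI := hN
  haveI := solvable_of_card_lt _ N rfl (by omega)
  haveI := solvable_of_card_lt _ (G ⧸ N) rfl (by omega)
  exact (Group.isSolvable_iff_subgroup_quotient N).mpr ⟨inferInstance, inferInstance⟩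

theorem prime_pow_dvd_60 (r k : ℕ) (hr : r.Prime) (h : r ^ k ∣ 60) (hk : r ^ k ≠ 1) :
    (r = 2 ∧ r ^ k = 2) ∨ (r = 2 ∧ r ^ k = 4) ∨ (r = 3 ∧ r ^ k = 3) ∨ (r = 5 ∧ r ^ k = 5) := by
  have hk0 : k ≠ 0 := by
    rintro rfl
    exact hk (pow_zero r)
  have hr60 : r ∣ 60 := dvd_trans (dvd_pow_self r hk0) h
  have h60 : (60 : ℕ) = 2 * (2 * (3 * 5)) := by norm_num
  rw [h60] at hr60
  have hcases : r = 2 ∨ r = 3 ∨ r = 5 := by
    rcases (Nat.Prime.dvd_mul hr).mp hr60 with h1 | h1
    · left
      exact (Nat.prime_dvd_prime_iff_eq hr Nat.prime_two).mp h1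
    · rcases (Nat.Prime.dvd_mul hr).mp h1 with h1 | h1
      · left
        exact (Nat.prime_dvd_prime_iff_eq hr Nat.prime_two).mp h1
      · rcases (Nat.Prime.dvd_mul hr).mp h1 with h1 | h1
        · right; left
          exact (Nat.prime_dvd_prime_iff_eq hr Nat.prime_three).mp h1
        · right; right
          exact (Nat.prime_dvd_prime_iff_eq hr Nat.prime_five).mp h1
  rcases hcases with rfl | rfl | rfl
  · have hk2 : k ≤ 2 := by
      by_contra hcon
      have h8 : 2 ^ 3 ∣ 60 := dvd_trans (Nat.pow_dvd_pow 2 (by omega : 3 ≤ k)) h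
      norm_num at h8
    interval_cases k
    · exact absurd rfl hk0
    · left; exact ⟨rfl, rfl⟩
    · right; left; exact ⟨rfl, rfl⟩
  · have hk2 : k ≤ 1 := by
      by_contra hcon
      have h8 : 3 ^ 2 ∣ 60 := dvd_trans (Nat.pow_dvd_pow 3 (by omega : 2 ≤ k)) h
      norm_num at h8
    interval_cases k
    · exact absurd rfl hk0
    · right; right; left; exact ⟨rfl, rfl⟩
  · have hk2 : k ≤ 1 := by
      by_contra hcon
      have h8 : 5 ^ 2 ∣ 60 := dvd_trans (Nat.pow_dvd_pow 5 (by omega : 2 ≤ k)) h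
      norm_num at h8
    interval_cases k
    · exact absurd rfl hk0
    · right; right; right; exact ⟨rfl, rfl⟩

theorem normal_sylow_of_normal_two_mul (G : Type u) [Group G] [Finite G] (h : Nat.card G = 60)
    (W : Subgroup G) [W.Normal] (r : ℕ) [hrp : Fact r.Prime] (hr : r = 3 ∨ r = 5)
    (hW : Nat.card W = 2 * r) :
    ∃ P : Subgroup G, P.Normal ∧ (∀ x ∈ P, ∀ y ∈ P, x * y = y * x) ∧ IsPGroup r P ∧
      ¬ r ∣ P.index := by
  have hr3 : 3 ≤ r := by rcases hr with rfl | rfl <;> norm_num
  obtain ⟨Q⟩ : Nonempty (Sylow r W) := inferInstance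
  have h1 : Nat.card (Sylow r W) ≡ 1 [MOD r] := card_sylow_modEq_one r W
  have h2 : Nat.card (Sylow r W) ∣ (Q : Subgroup W).index := Sylow.card_dvd_index Q
  have e1 := Subgroup.card_mul_index (Q : Subgroup W)
  rw [hW] at e1
  have e2 : ¬ r ∣ (Q : Subgroup W).index := Q.not_dvd_index
  obtain ⟨j, hj⟩ := IsPGroup.iff_card.mp Q.isPGroup'
  have hQcard : Nat.card (Q : Subgroup W) = r := by
    rw [hj] at e1 ⊢
    rcases Nat.lt_trichotomy j 1 with hlt | rfl | hgt
    · exfalso
      have hj0 : j = 0 := by omega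
      rw [hj0, pow_zero, one_mul] at e1
      exact e2 (e1 ▸ Dvd.intro_left 2 rfl)
    · exact pow_one r
    · exfalso
      have h3 : r ^ 2 ∣ r ^ j := Nat.pow_dvd_pow r hgt
      have h4 : r ^ 2 ∣ 2 * r := e1 ▸ Dvd.dvd.mul_right h3 _
      rw [sq, mul_comm 2 r] at h4
      have h5 : r ∣ 2 := (Nat.mul_dvd_mul_iff_left hrp.out.pos).mp h4
      have := Nat.le_of_dvd (by norm_num) h5
      omega
  have hidx : (Q : Subgroup W).index = 2 := by
    rw [hQcard, mul_comm] at e1
    exact Nat.eq_of_mul_eq_mul_right hrp.out.pos e1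
  have hone : Nat.card (Sylow r W) = 1 := by
    rw [hidx] at h2
    have h3 : Nat.card (Sylow r W) ≤ 2 := Nat.le_of_dvd (by norm_num) h2
    have h4 : 0 < Nat.card (Sylow r W) := Nat.card_pos
    by_contra hne
    have h5 : Nat.card (Sylow r W) = 2 := by omega
    rw [h5] at h1
    have h6 : r ∣ 2 - 1 := (Nat.modEq_iff_dvd' (by norm_num)).mp h1.symm
    have := Nat.le_of_dvd (by norm_num) h6
    omega
  haveI : Subsingleton (Sylow r W) := (Nat.card_eq_one_iff_unique.mp hone).1
  haveI : (Q : Subgroup W).Characteristic := Sylow.characteristic_of_subsingleton Q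
  have hPn : ((Q : Subgroup W).map W.subtype).Normal := ConjAct.normal_of_characteristic_of_normal
  have hPcard : Nat.card ((Q : Subgroup W).map W.subtype) = r := by
    exact (Nat.card_congr ((Q : Subgroup W).equivMapOfInjective W.subtype
      W.subtype_injective).symm.toEquiv).trans hQcard
  refine ⟨_, hPn, ?_, IsPGroup.of_card (n := 1) (by rw [hPcard, pow_one]), ?_⟩
  · intro x hx y hy
    have hcyc : IsCyclic ↥((Q : Subgroup W).map W.subtype) := isCyclic_of_prime_card hPcard
    letI := IsCyclic.commGroup (α := ↥((Q : Subgroup W).map W.subtype))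
    exact congrArg Subtype.val (mul_comm (⟨x, hx⟩ : ↥((Q : Subgroup W).map W.subtype)) ⟨y, hy⟩)
  · have e := Subgroup.card_mul_index ((Q : Subgroup W).map W.subtype)
    rw [hPcard, h] at e
    rcases hr with rfl | rfl <;> omega

/-- a solvable group of order 60 has a normal abelian Sylow subgroup -/
theorem exists_normal_sylow_of_solvable (G : Type u) [Group G] [Finite G] (h : Nat.card G = 60)
    (hsolv : Group.IsSolvable G) :
    ∃ (p : ℕ) (P : Subgroup G), p.Prime ∧ p ∣ 60 ∧ P.Normal ∧
      (∀ x ∈ P, ∀ y ∈ P, x * y = y * x) ∧ IsPGroup p P ∧ ¬ p ∣ P.index := by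
  haveI : Nontrivial G := by
    rw [← Finite.one_lt_card_iff_nontrivial]
    omega
  obtain ⟨r, V, hr, hVn, hVbot, hVp, hVab⟩ := Cfsg.Agent.Helper24.exists_normal_abelian_pgroup hsolv
  haveI := hVn
  haveI : Fact r.Prime := ⟨hr⟩
  obtain ⟨k, hk⟩ := IsPGroup.iff_card.mp hVp
  have hVdvd : Nat.card V ∣ 60 := h ▸ Subgroup.card_subgroup_dvd_card V
  have hV1 : Nat.card V ≠ 1 := fun h1 => hVbot (Subgroup.card_eq_one.mp h1)
  have hidx := Subgroup.card_mul_index V
  rw [h] at hidx
  rcases prime_pow_dvd_60 r k hr (hk ▸ hVdvd) (hk ▸ hV1) with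
    ⟨rfl, h2⟩ | ⟨rfl, h2⟩ | ⟨rfl, h2⟩ | ⟨rfl, h2⟩
  · -- `|V| = 2`
    rw [hk, h2] at hidx
    have hQcard : Nat.card (G ⧸ V) = 30 := by
      rw [← Subgroup.index_eq_card]
      omega
    haveI : Nontrivial (G ⧸ V) := by
      rw [← Finite.one_lt_card_iff_nontrivial]
      omega
    have hQs : Group.IsSolvable (G ⧸ V) := inferInstance
    obtain ⟨r', W', hr', hWn', hWbot', hWp', hWab'⟩ :=
      Cfsg.Agent.Helper24.exists_normal_abelian_pgroup hQs
    haveI := hWn'
    haveI : Fact r'.Prime := ⟨hr'⟩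
    obtain ⟨k', hk'⟩ := IsPGroup.iff_card.mp hWp'
    have hW'dvd : Nat.card W' ∣ 30 := hQcard ▸ Subgroup.card_subgroup_dvd_card W'
    have hW'1 : Nat.card W' ≠ 1 := fun h1 => hWbot' (Subgroup.card_eq_one.mp h1)
    obtain ⟨W, hW⟩ : ∃ W : Subgroup G, W = W'.comap (QuotientGroup.mk' V) := ⟨_, rfl⟩
    have hWn : W.Normal := by
      rw [hW]
      infer_instance
    haveI := hWn
    have hWidx : W.index = W'.index := by
      rw [hW]
      exact Subgroup.index_comap_of_surjective _ (QuotientGroup.mk'_surjective V)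
    have hWcard : Nat.card W = 2 * Nat.card W' := by
      have e1 := Subgroup.card_mul_index W
      have e2 := Subgroup.card_mul_index W'
      rw [hWidx, h] at e1
      rw [hQcard] at e2
      have hi : W'.index ≠ 0 := Subgroup.index_ne_zero_of_finite
      apply Nat.eq_of_mul_eq_mul_right (Nat.pos_of_ne_zero hi)
      rw [e1, mul_assoc, e2]
      norm_num
    have h30 : (30 : ℕ) ∣ 60 := by norm_num
    have hW'60 : r' ^ k' ∣ 60 := dvd_trans (by rw [← hk']; exact hW'dvd) h30
    rcases prime_pow_dvd_60 r' k' hr' hW'60 (hk' ▸ hW'1) with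
      ⟨rfl, h3⟩ | ⟨rfl, h3⟩ | ⟨rfl, h3⟩ | ⟨rfl, h3⟩
    · have hc : Nat.card W = 2 ^ 2 := by
        rw [hWcard, hk', h3]
        norm_num
      refine ⟨2, W, Nat.prime_two, by norm_num, hWn, ?_, IsPGroup.of_card (n := 2) hc, ?_⟩
      · intro x hx y hy
        haveI : Fact (Nat.Prime 2) := ⟨Nat.prime_two⟩
        have := (IsPGroup.isMulCommutative_of_card_eq_prime_sq hc).is_comm.comm
          (⟨x, hx⟩ : W) ⟨y, hy⟩
        exact congrArg Subtype.val this
      · have e := Subgroup.card_mul_index W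
        rw [hc, h] at e
        omega
    · exfalso
      rw [hk', h3] at hW'dvd
      omega
    · haveI : Fact (Nat.Prime 3) := ⟨Nat.prime_three⟩
      obtain ⟨P, hP1, hP2, hP3, hP4⟩ := normal_sylow_of_normal_two_mul G h W 3 (Or.inl rfl)
        (by rw [hWcard, hk', h3])
      exact ⟨3, P, Nat.prime_three, by norm_num, hP1, hP2, hP3, hP4⟩
    · haveI : Fact (Nat.Prime 5) := ⟨Nat.prime_five⟩
      obtain ⟨P, hP1, hP2, hP3, hP4⟩ := normal_sylow_of_normal_two_mul G h W 5 (Or.inr rfl)
        (by rw [hWcard, hk', h3])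
      exact ⟨5, P, Nat.prime_five, by norm_num, hP1, hP2, hP3, hP4⟩
  · refine ⟨2, V, Nat.prime_two, by norm_num, hVn, hVab, hVp, ?_⟩
    rw [hk, h2] at hidx
    omega
  · refine ⟨3, V, Nat.prime_three, by norm_num, hVn, hVab, hVp, ?_⟩
    rw [hk, h2] at hidx
    omega
  · refine ⟨5, V, Nat.prime_five, by norm_num, hVn, hVab, hVp, ?_⟩
    rw [hk, h2] at hidx
    omega

end Cfsg.Agent.Helper14.O60
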