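import Mathlib
import Cfsg.Prelude.Def_LinearParabolics
set_option autoImplicit false
open scoped MatrixGroups

namespace Cfsg.Agent.Helper14.ParabIdx

variable {F : Type*} [Field F] [Fintype F]
variable {ι : Type*} [Fintype ι] [DecidableEq ι]
variable {α : Type*} [Fintype α] [LinearOrder α]

/-- block-triangular invertible matrices. -/
abbrev BT (F : Type*) [Field F] (b : ι → α) : Type _ :=
  {M : Matrix ι ι F // M.BlockTriangular b ∧ M.det ≠ 0}

/-- the pairs strictly above the diagonal blocks. -/
abbrev Pr (b : ι → α) : Type _ := {p : ι × ι // b p.1 < b p.2}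

/-- invertible diagonal blocks. -/
abbrev Dg (F : Type*) [Field F] (b : ι → α) (k : α) : Type _ :=
  {A : Matrix {i // b i = k} {i // b i = k} F // A.det ≠ 0}

noncomputable def Phi (b : ι → α) (M : BT F b) : (∀ k, Dg F b k) × (Pr b → F) :=
  (fun k => ⟨M.1.toSquareBlock b k, by
      have h := M.2.1.det_fintype
      have h2 := M.2.2
      rw [h] at h2
      exact (Finset.prod_ne_zero_iff.mp h2) k (Finset.mem_univ k)⟩,
   fun p => M.1 p.1.1 p.1.2)

omit [Fintype F] in
theorem Phi_inj (b : ι → α) : Function.Injective (Phi (F := F) b) := by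
  intro M N h
  apply Subtype.ext
  ext i j
  rcases lt_trichotomy (b i) (b j) with hlt | heq | hgt
  · have := congrFun (congrArg Prod.snd h) ⟨(i, j), hlt⟩
    exact this
  · have h1 := congrFun (congrArg Prod.fst h) (b j)
    have h2 := congrArg Subtype.val h1
    have h3 := congrFun (congrFun h2 ⟨i, heq⟩) ⟨j, rfl⟩
    exact h3
  · rw [M.2.1 hgt, N.2.1 hgt]

omit [Fintype F] in
theorem Phi_surj (b : ι → α) : Function.Surjective (Phi (F := F) b) := by
  rintro ⟨A, u⟩
  let M : Matrix ι ι F := fun i j =>
    if h : b i = b j then (A (b j)).1 ⟨i, h⟩ ⟨j, rfl⟩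
    else if h : b i < b j then u ⟨(i, j), h⟩ else 0
  have hBT : M.BlockTriangular b := by
    intro i j hij
    have h1 : ¬ b i = b j := fun h => by rw [h] at hij; exact lt_irrefl _ hij
    have h2 : ¬ b i < b j := fun h => lt_asymm h hij
    simp only [M, dif_neg h1, dif_neg h2]
  have hblk : ∀ k, M.toSquareBlock b k = (A k).1 := by
    intro k
    ext i j
    obtain ⟨j, rfl⟩ := j
    obtain ⟨i, hi⟩ := i
    change M i j = _
    simp only [M]
    rw [dif_pos hi]
  have hdet : M.det ≠ 0 := by
    rw [hBT.det_fintype]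
    apply Finset.prod_ne_zero_iff.mpr
    intro k _
    rw [hblk k]
    exact (A k).2
  refine ⟨⟨M, hBT, hdet⟩, ?_⟩
  apply Prod.ext
  · funext k
    apply Subtype.ext
    exact hblk k
  · funext p
    obtain ⟨⟨i, j⟩, hp⟩ := p
    have h1 : ¬ b i = b j := fun h => by
      have : b i < b j := hp
      rw [h] at this; exact lt_irrefl _ this
    simp only [Phi, M, dif_neg h1]
    rw [dif_pos hp]


/-- invertible matrices as a subtype. -/
noncomputable def glEquiv (m : Type*) [Fintype m] [DecidableEq m] :
    GL m F ≃ {A : Matrix m m F // A.det ≠ 0} where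
  toFun g := ⟨g.1, by
    have := (Matrix.isUnit_iff_isUnit_det _).mp g.isUnit
    exact this.ne_zero⟩
  invFun A := Matrix.GeneralLinearGroup.mkOfDetNeZero A.1 A.2
  left_inv g := by
    apply Units.ext
    rfl
  right_inv A := by
    apply Subtype.ext
    rfl

theorem card_GL_general (m : Type*) [Fintype m] [DecidableEq m] :
    Nat.card (GL m F) = ∏ i : Fin (Fintype.card m),
      (Fintype.card F ^ Fintype.card m - Fintype.card F ^ (i : ℕ)) := by
  rw [← Matrix.card_GL_field]
  exact Nat.card_congr
    (Units.mapEquiv (Matrix.reindexAlgEquiv F F (Fintype.equivFin m)).toMulEquiv).toEquiv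

theorem geom_succ (r m : ℕ) : r * (∑ l ∈ Finset.range m, (r + 1) ^ l) + 1 = (r + 1) ^ m := by
  induction m with
  | zero => simp
  | succ m ih =>
    rw [Finset.sum_range_succ, mul_add, pow_succ]
    have : r * (r + 1) ^ m + (r * ∑ l ∈ Finset.range m, (r + 1) ^ l + 1) = (r + 1) ^ m * (r + 1) := by
      rw [ih]; ring
    omega

theorem choose_two_id (d : ℕ) : 2 * d.choose 2 + d = d * d := by
  induction d with
  | zero => simp
  | succ d ih =>
    have h : (d + 1).choose 2 = d + d.choose 2 := by
      rw [Nat.choose_succ_succ', Nat.choose_one_right]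
    rw [h]
    have : (d + 1) * (d + 1) = d * d + 2 * d + 1 := by ring
    omega

/-- the order formula in q-number form. -/
theorem prod_form (r d : ℕ) :
    ∏ i : Fin d, ((r + 1) ^ d - (r + 1) ^ (i : ℕ)) =
      (r + 1) ^ (d.choose 2) * r ^ d *
        ∏ j ∈ Finset.range d, ∑ l ∈ Finset.range (j + 1), (r + 1) ^ l := by
  rw [Fin.prod_univ_eq_prod_range (fun i => (r + 1) ^ d - (r + 1) ^ i) d]
  have h1 : ∀ i ∈ Finset.range d, (r + 1) ^ d - (r + 1) ^ i =
      (r + 1) ^ i * (r * ∑ l ∈ Finset.range (d - 1 - i + 1), (r + 1) ^ l) := by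
    intro i hi
    have hi' : i < d := Finset.mem_range.mp hi
    have h2 : d - 1 - i + 1 = d - i := by omega
    rw [h2]
    have h3 := geom_succ r (d - i)
    have h4 : (r + 1) ^ d = (r + 1) ^ i * (r + 1) ^ (d - i) := by
      rw [← pow_add]; congr 1; omega
    rw [h4, ← h3]
    have : (r + 1) ^ i * (r * ∑ l ∈ Finset.range (d - i), (r + 1) ^ l + 1) =
        (r + 1) ^ i * (r * ∑ l ∈ Finset.range (d - i), (r + 1) ^ l) + (r + 1) ^ i := by ring
    rw [this]
    omega
  rw [Finset.prod_congr rfl h1, Finset.prod_mul_distrib, Finset.prod_mul_distrib,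
    Finset.prod_pow_eq_pow_sum, Finset.prod_const, Finset.card_range,
    Finset.prod_range_reflect (fun j => ∑ l ∈ Finset.range (j + 1), (r + 1) ^ l) d,
    Finset.sum_range_id, ← Nat.choose_two_right]
  ring

/-- the order of the block-triangular group. -/
theorem card_BT (b : ι → α) :
    Nat.card (BT F b) = (∏ k : α, Nat.card (GL {i // b i = k} F)) *
      Fintype.card F ^ Nat.card (Pr b) := by
  rw [Nat.card_congr (Equiv.ofBijective (Phi (F := F) b) ⟨Phi_inj b, Phi_surj b⟩),
    Nat.card_prod, Nat.card_pi, Nat.card_fun, Nat.card_eq_fintype_card (α := F)]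
  congr 1
  apply Finset.prod_congr rfl
  intro k _
  exact (Nat.card_congr (glEquiv (F := F) {i // b i = k})).symm

omit [DecidableEq ι] in
/-- counting the pairs. -/
theorem pairs_count (b : ι → α) :
    (∑ k : α, Fintype.card {i // b i = k} * Fintype.card {i // b i = k}) + 2 * Nat.card (Pr b) =
      Fintype.card ι * Fintype.card ι := by
  classical
  have hA : (Finset.univ.filter fun p : ι × ι => b p.1 = b p.2).card =
      ∑ k : α, Fintype.card {i // b i = k} * Fintype.card {i // b i = k} := by
    rw [Finset.card_eq_sum_card_fiberwise (f := fun p : ι × ι => b p.1) (t := Finset.univ)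
      (fun _ _ => Finset.mem_univ _)]
    apply Finset.sum_congr rfl
    intro k _
    have : (Finset.univ.filter fun p : ι × ι => b p.1 = b p.2).filter (fun p => b p.1 = k) =
        (Finset.univ.filter fun i => b i = k) ×ˢ (Finset.univ.filter fun i => b i = k) := by
      ext ⟨i, j⟩
      simp only [Finset.mem_filter, Finset.mem_univ, true_and, Finset.mem_product]
      constructor
      · rintro ⟨h1, h2⟩
        exact ⟨h2, h1 ▸ h2⟩
      · rintro ⟨h1, h2⟩
        exact ⟨h1.trans h2.symm, h1⟩
    rw [this, Finset.card_product, Fintype.card_subtype]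
  have hB : (Finset.univ.filter fun p : ι × ι => b p.1 < b p.2).card = Nat.card (Pr b) := by
    rw [Nat.card_eq_fintype_card, Fintype.card_subtype]
  have hC : (Finset.univ.filter fun p : ι × ι => b p.2 < b p.1).card = Nat.card (Pr b) := by
    rw [← hB]
    apply Finset.card_bij (fun p _ => (p.2, p.1))
    · intro p hp
      simpa using hp
    · intro p _ p' _ h
      simp only [Prod.mk.injEq] at h
      exact Prod.ext h.2 h.1
    · intro p hp
      exact ⟨(p.2, p.1), by simpa using hp, rfl⟩
  have hT : (Finset.univ : Finset (ι × ι)).card = Fintype.card ι * Fintype.card ι := by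
    rw [Finset.card_univ, Fintype.card_prod]
  have hsplit : (Finset.univ : Finset (ι × ι)).card =
      (Finset.univ.filter fun p : ι × ι => b p.1 = b p.2).card +
      (Finset.univ.filter fun p : ι × ι => b p.1 < b p.2).card +
      (Finset.univ.filter fun p : ι × ι => b p.2 < b p.1).card := by
    have e1 := Finset.card_filter_add_card_filter_not (s := (Finset.univ : Finset (ι × ι)))
      (fun p : ι × ι => b p.1 = b p.2)
    have e2 := Finset.card_filter_add_card_filter_not
      (s := (Finset.univ.filter fun p : ι × ι => ¬ b p.1 = b p.2))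
      (fun p : ι × ι => b p.1 < b p.2)
    have e3 : (Finset.univ.filter fun p : ι × ι => ¬ b p.1 = b p.2).filter
        (fun p : ι × ι => b p.1 < b p.2) = Finset.univ.filter fun p : ι × ι => b p.1 < b p.2 := by
      ext p
      simp only [Finset.mem_filter, Finset.mem_univ, true_and]
      exact ⟨fun h => h.2, fun h => ⟨ne_of_lt h, h⟩⟩
    have e4 : (Finset.univ.filter fun p : ι × ι => ¬ b p.1 = b p.2).filter
        (fun p : ι × ι => ¬ b p.1 < b p.2) = Finset.univ.filter fun p : ι × ι => b p.2 < b p.1 := by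
      ext p
      simp only [Finset.mem_filter, Finset.mem_univ, true_and]
      constructor
      · rintro ⟨h1, h2⟩
        exact lt_of_le_of_ne (not_lt.mp h2) (fun h => h1 h.symm)
      · intro h
        exact ⟨fun h' => by rw [h'] at h; exact lt_irrefl _ h, not_lt.mpr h.le⟩
    rw [e3, e4] at e2
    omega
  omega


variable {n : ℕ}

/-- partial sums of the composition. -/
def S (μ : Fin n → ℕ) (m : ℕ) : ℕ := ∑ k ∈ Finset.univ.filter (fun k : Fin n => k.val < m), μ k

theorem S_zero (μ : Fin n → ℕ) : S μ 0 = 0 := by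
  unfold S
  apply Finset.sum_eq_zero
  intro k hk
  simp at hk

theorem S_mono (μ : Fin n → ℕ) {m m' : ℕ} (h : m ≤ m') : S μ m ≤ S μ m' := by
  unfold S
  apply Finset.sum_le_sum_of_subset
  intro k hk
  simp only [Finset.mem_filter, Finset.mem_univ, true_and] at hk ⊢
  omega

theorem S_succ (μ : Fin n → ℕ) (k : Fin n) : S μ (k.val + 1) = S μ k.val + μ k := by
  unfold S
  rw [Finset.sum_filter, Finset.sum_filter]
  have : ∀ j : Fin n, (if j.val < k.val + 1 then μ j else 0) =
      (if j.val < k.val then μ j else 0) + (if j = k then μ j else 0) := by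
    intro j
    by_cases h1 : j.val < k.val
    · have h2 : j ≠ k := fun h => by rw [h] at h1; exact lt_irrefl _ h1
      have h3 : j.val < k.val + 1 := by omega
      rw [if_pos h1, if_pos h3, if_neg h2, add_zero]
    · by_cases h2 : j = k
      · subst h2
        rw [if_neg h1, if_pos (Nat.lt_succ_self _), if_pos rfl, zero_add]
      · have h3 : ¬ j.val < k.val + 1 := by
          intro h
          apply h2
          apply Fin.ext
          omega
        rw [if_neg h1, if_neg h3, if_neg h2]
  rw [Finset.sum_congr rfl (fun j _ => this j), Finset.sum_add_distrib, Finset.sum_ite_eq']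
  simp

theorem S_top (μ : Fin n → ℕ) : S μ n = ∑ i, μ i := by
  unfold S
  congr 1
  ext k
  simp

theorem compLabel_eq (μ : Fin n → ℕ) (i : Fin n) :
    Cfsg.compLabel μ i = (Finset.univ.filter fun j : Fin n => S μ (j.val + 1) ≤ i.val).card := by
  unfold Cfsg.compLabel S
  congr 1
  apply Finset.filter_congr
  intro j _
  have : (Finset.univ.filter fun k : Fin n => k ≤ j) =
      (Finset.univ.filter fun k : Fin n => k.val < j.val + 1) := by
    apply Finset.filter_congr
    intro k _
    rw [Fin.le_def]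
    omega
  rw [this]

theorem card_Ico_fin (a c : ℕ) (hc : c ≤ n) :
    (Finset.univ.filter fun i : Fin n => a ≤ i.val ∧ i.val < c).card = c - a := by
  rw [← Nat.card_Ico, ← Finset.card_map Fin.valEmbedding]
  congr 1
  ext m
  simp only [Finset.mem_map, Finset.mem_filter, Finset.mem_univ, true_and, Fin.valEmbedding_apply,
    Finset.mem_Ico]
  constructor
  · rintro ⟨i, hi, rfl⟩
    exact hi
  · intro hm
    exact ⟨⟨m, lt_of_lt_of_le hm.2 hc⟩, hm, rfl⟩

theorem label_of_mem (μ : Fin n → ℕ) (i k : Fin n) (h1 : S μ k.val ≤ i.val)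
    (h2 : i.val < S μ (k.val + 1)) : Cfsg.compLabel μ i = k.val := by
  rw [compLabel_eq]
  have : (Finset.univ.filter fun j : Fin n => S μ (j.val + 1) ≤ i.val) =
      (Finset.univ.filter fun j : Fin n => 0 ≤ j.val ∧ j.val < k.val) := by
    apply Finset.filter_congr
    intro j _
    constructor
    · intro h
      refine ⟨Nat.zero_le _, ?_⟩
      by_contra hjk
      have := S_mono μ (show k.val + 1 ≤ j.val + 1 by omega)
      omega
    · rintro ⟨-, h⟩
      have := S_mono μ (show j.val + 1 ≤ k.val by omega)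
      omega
  rw [this, card_Ico_fin 0 k.val k.2.le]
  simp

theorem exists_label (μ : Fin n → ℕ) (hμ : ∑ i, μ i = n) (i : Fin n) :
    ∃ k : Fin n, S μ k.val ≤ i.val ∧ i.val < S μ (k.val + 1) := by
  classical
  have hn : 0 < n := lt_of_le_of_lt (Nat.zero_le _) i.2
  have hex : ∃ m, i.val < S μ (m + 1) := by
    refine ⟨n - 1, ?_⟩
    have : n - 1 + 1 = n := by omega
    rw [this, S_top, hμ]
    exact i.2
  have hc := Nat.find_spec hex
  have hcn : Nat.find hex ≤ n - 1 := Nat.find_min' hex (by
    have : n - 1 + 1 = n := by omega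
    rw [this, S_top, hμ]
    exact i.2)
  refine ⟨⟨Nat.find hex, by omega⟩, ?_, hc⟩
  change S μ (Nat.find hex) ≤ i.val
  rcases Nat.eq_zero_or_pos (Nat.find hex) with h0 | hpos
  · rw [h0, S_zero]
    exact Nat.zero_le _
  · have := Nat.find_min hex (show Nat.find hex - 1 < Nat.find hex by omega)
    have e : Nat.find hex - 1 + 1 = Nat.find hex := by omega
    rw [e] at this
    exact not_lt.mp this

theorem label_lt (μ : Fin n → ℕ) (hμ : ∑ i, μ i = n) (i : Fin n) : Cfsg.compLabel μ i < n := by
  obtain ⟨k, h1, h2⟩ := exists_label μ hμ i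
  rw [label_of_mem μ i k h1 h2]
  exact k.2

/-- the labelling with values in `Fin n`. -/
def lab (μ : Fin n → ℕ) (hμ : ∑ i, μ i = n) (i : Fin n) : Fin n :=
  ⟨Cfsg.compLabel μ i, label_lt μ hμ i⟩

theorem card_block (μ : Fin n → ℕ) (hμ : ∑ i, μ i = n) (k : Fin n) :
    Fintype.card {i // lab μ hμ i = k} = μ k := by
  rw [Fintype.card_subtype]
  have : (Finset.univ.filter fun i : Fin n => lab μ hμ i = k) =
      (Finset.univ.filter fun i : Fin n => S μ k.val ≤ i.val ∧ i.val < S μ (k.val + 1)) := by
    apply Finset.filter_congr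
    intro i _
    constructor
    · intro h
      obtain ⟨k', h1, h2⟩ := exists_label μ hμ i
      have h3 := label_of_mem μ i k' h1 h2
      have h4 : Cfsg.compLabel μ i = k.val := congrArg Fin.val h
      have h5 : k' = k := Fin.ext (h3.symm.trans h4)
      rw [← h5]
      exact ⟨h1, h2⟩
    · rintro ⟨h1, h2⟩
      exact Fin.ext (label_of_mem μ i k h1 h2)
  rw [this, card_Ico_fin _ _ (by
    have := S_mono μ (show k.val + 1 ≤ n from k.2)
    rw [S_top, hμ] at this
    exact this), S_succ]
  omega


/-- the parabolic subgroup as block-triangular invertible matrices. -/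
noncomputable def parabEquiv (F : Type*) [Field F] (μ : Fin n → ℕ) (hμ : ∑ i, μ i = n) :
    Cfsg.parabolicGL n F μ ≃ BT F (lab μ hμ) where
  toFun g := ⟨(g.1 : Matrix (Fin n) (Fin n) F), by
      intro i j hij
      exact g.2 (show Cfsg.compLabel μ j < Cfsg.compLabel μ i from hij), by
      have := (Matrix.isUnit_iff_isUnit_det _).mp g.1.isUnit
      exact this.ne_zero⟩
  invFun M := ⟨Matrix.GeneralLinearGroup.mkOfDetNeZero M.1 M.2.2, by
      intro i j hij
      exact M.2.1 (show lab μ hμ j < lab μ hμ i from hij)⟩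
  left_inv g := by
    apply Subtype.ext
    apply Units.ext
    rfl
  right_inv M := by
    apply Subtype.ext
    rfl

/-- the order of the parabolic subgroup. -/
theorem card_parab {F : Type*} [Field F] [Fintype F] (μ : Fin n → ℕ) (hμ : ∑ i, μ i = n)
    (r : ℕ) (hq : Fintype.card F = r + 1) :
    Nat.card (Cfsg.parabolicGL n F μ) = (r + 1) ^ (n.choose 2) * r ^ n *
      ∏ i : Fin n, ∏ j ∈ Finset.range (μ i), ∑ l ∈ Finset.range (j + 1), (r + 1) ^ l := by
  rw [Nat.card_congr (parabEquiv F μ hμ), card_BT]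
  have h1 : ∀ k : Fin n, Nat.card (GL {i // lab μ hμ i = k} F) =
      (r + 1) ^ ((μ k).choose 2) * r ^ (μ k) *
        ∏ j ∈ Finset.range (μ k), ∑ l ∈ Finset.range (j + 1), (r + 1) ^ l := by
    intro k
    rw [card_GL_general, card_block μ hμ k, hq, prod_form]
  rw [Finset.prod_congr rfl (fun k _ => h1 k), Finset.prod_mul_distrib, Finset.prod_mul_distrib,
    Finset.prod_pow_eq_pow_sum, Finset.prod_pow_eq_pow_sum, hμ, hq]
  have h2 := pairs_count (lab μ hμ)
  simp only [card_block μ hμ, Fintype.card_fin] at h2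
  have h3 : ∑ k : Fin n, μ k * μ k = ∑ k : Fin n, (2 * (μ k).choose 2 + μ k) :=
    Finset.sum_congr rfl (fun k _ => (choose_two_id (μ k)).symm)
  rw [h3, Finset.sum_add_distrib, ← Finset.mul_sum, hμ] at h2
  have h4 := choose_two_id n
  have h5 : (∑ k : Fin n, (μ k).choose 2) + Nat.card (Pr (lab μ hμ)) = n.choose 2 := by omega
  rw [← h5, pow_add]
  ring

/-- the index formula. -/
theorem index_formula {F : Type*} [Field F] [Fintype F] {q : ℕ} (hq : Fintype.card F = q)
    (μ : Fin n → ℕ) (hμ : ∑ i, μ i = n) :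
    Nat.card (GL (Fin n) F ⧸ Cfsg.parabolicGL n F μ) *
        ∏ i : Fin n, ∏ j ∈ Finset.range (μ i), ∑ l ∈ Finset.range (j + 1), q ^ l =
      ∏ j ∈ Finset.range n, ∑ l ∈ Finset.range (j + 1), q ^ l := by
  have hq2 : 2 ≤ q := by
    rw [← hq]
    exact Fintype.one_lt_card
  obtain ⟨r, rfl⟩ : ∃ r, q = r + 1 := ⟨q - 1, by omega⟩
  have hr : 0 < r := by omega
  have hidx := Subgroup.card_eq_card_quotient_mul_card_subgroup (Cfsg.parabolicGL n F μ)
  rw [card_parab μ hμ r hq, Matrix.card_GL_field, hq, prod_form] at hidx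
  have hpos : 0 < (r + 1) ^ (n.choose 2) * r ^ n := by positivity
  apply Nat.eq_of_mul_eq_mul_left hpos
  rw [hidx]
  ring

end Cfsg.Agent.Helper14.ParabIdx
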