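import Mathlib
import Cfsg.Prelude.Def_Characters
import Cfsg.Agent.Helper2.CharExtra
import Cfsg.Agent.Helper25.CharMore

set_option autoImplicit false
set_option linter.unusedSectionVars false

/-!
# Permutation characters cut up by a commuting free abelian action

`G` and an abelian group `A` act on a finite set `X`, the actions commute, `A` acts freely at `e`.
`P = lineStab A e` is the stabiliser of the `A`-orbit of `e`; each `lam : A →* ℂˣ` gives a linear
character of `P`, and `pi e hfree lam` is the character of `G` induced from it.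
If `G` is transitive on `X` (`H1`) then `pi lam g = |A|⁻¹ Σ_a lam a · #{x | g x = a x}`; under the
double transitivity hypothesis `H2` the inner products are `⟨pi lam, pi mu⟩ = [lam = mu] +
[lam = 1][mu = 1]`, and the permutation character of `G` on `X` is `1 +` a sum of `|A|` distinct
irreducible characters (`main`).
-/

namespace Cfsg.Agent.Helper14.PermInd

open Cfsg
open scoped ComplexConjugate

variable {G : Type*} [Group G] [Fintype G] {A : Type*} [CommGroup A] [Fintype A]
  {X : Type*} [Fintype X] [DecidableEq X] [MulAction G X] [MulAction A X] [SMulCommClass G A X]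

/-- the stabiliser in `G` of the `A`-orbit of `e`. -/
def lineStab (A : Type*) [CommGroup A] [MulAction A X] [SMulCommClass G A X] (e : X) :
    Subgroup G where
  carrier := {g | ∃ a : A, g • e = a • e}
  mul_mem' := by
    rintro g h ⟨a, ha⟩ ⟨b, hb⟩
    refine ⟨a * b, ?_⟩
    rw [mul_smul g h e, hb, smul_comm g b e, ha, ← mul_smul, mul_comm]
  one_mem' := ⟨1, by simp⟩
  inv_mem' := by
    rintro g ⟨a, ha⟩
    refine ⟨a⁻¹, ?_⟩
    rw [inv_smul_eq_iff, smul_comm, ha, inv_smul_smul]

theorem mem_lineStab (e : X) (g : G) : g ∈ lineStab A e ↔ ∃ a : A, g • e = a • e := Iff.rfl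

/-- the scalar by which an element of `lineStab A e` moves `e`. -/
noncomputable def scal (e : X) (h : lineStab (G := G) A e) : A := Classical.choose h.2

theorem scal_spec (e : X) (h : lineStab (G := G) A e) : (h : G) • e = scal e h • e :=
  Classical.choose_spec h.2

theorem scal_unique {e : X} (hfree : ∀ a : A, a • e = e → a = 1) (h : lineStab (G := G) A e)
    (a : A) (ha : (h : G) • e = a • e) : scal e h = a := by
  have h1 := scal_spec e h
  rw [ha] at h1
  have h2 : (a⁻¹ * scal e h) • e = e := by rw [mul_smul, ← h1, inv_smul_smul]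
  have h3 := hfree _ h2
  exact (inv_mul_eq_one.mp h3).symm

/-- `scal` as a homomorphism. -/
noncomputable def scalHom (e : X) (hfree : ∀ a : A, a • e = e → a = 1) :
    lineStab (G := G) A e →* A where
  toFun := scal e
  map_one' := scal_unique hfree 1 1 (by simp)
  map_mul' h k := scal_unique hfree (h * k) (scal e h * scal e k) (by
    rw [Subgroup.coe_mul, mul_smul, scal_spec e k, smul_comm, scal_spec e h, ← mul_smul, mul_comm])

/-- the linear character of `lineStab A e` attached to `lam`. -/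
noncomputable def theta (e : X) (hfree : ∀ a : A, a • e = e → a = 1) (lam : A →* ℂˣ) :
    lineStab (G := G) A e → ℂ := fun h => ((lam (scalHom e hfree h) : ℂˣ) : ℂ)

/-- the induced character. -/
noncomputable def pi (e : X) (hfree : ∀ a : A, a • e = e → a = 1) (lam : A →* ℂˣ) : G → ℂ :=
  indFun (lineStab A e) (theta e hfree lam)

theorem pi_isCharacter (e : X) (hfree : ∀ a : A, a • e = e → a = 1) (lam : A →* ℂˣ) :
    IsCharacter G (pi (G := G) e hfree lam) :=
  Helper2.isCharacter_indFun (lineStab A e) (Helper2.isCharacter_of_isIrrCharacter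
    (Helper25.isIrrCharacter_of_monoidHom (lam.comp (scalHom e hfree))))

theorem pi_isClassFunction (e : X) (hfree : ∀ a : A, a • e = e → a = 1) (lam : A →* ℂˣ) :
    IsClassFunction G (pi (G := G) e hfree lam) :=
  Helper2.indFun_isClassFunction _ _

theorem ext_formula (e : X) (hfree : ∀ a : A, a • e = e → a = 1) (lam : A →* ℂˣ) (y : G) :
    extendByZero (lineStab A e) (theta e hfree lam) y =
      ∑ a : A, ((lam a : ℂˣ) : ℂ) * (if y • e = a • e then 1 else 0) := by
  classical
  by_cases hy : y ∈ lineStab A e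
  · rw [Helper2.extendByZero_of_mem _ _ hy]
    have h0 : y • e = scal e ⟨y, hy⟩ • e := scal_spec e ⟨y, hy⟩
    rw [Finset.sum_eq_single (scal e ⟨y, hy⟩)]
    · rw [if_pos h0, mul_one]
      rfl
    · intro b _ hb
      rw [if_neg, mul_zero]
      intro h
      exact hb (scal_unique hfree ⟨y, hy⟩ b h).symm
    · intro h
      exact absurd (Finset.mem_univ _) h
  · rw [Helper2.extendByZero_of_not_mem _ _ hy]
    symm
    apply Finset.sum_eq_zero
    intro a _
    rw [if_neg, mul_zero]
    intro h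
    exact hy ⟨a, h⟩

/-- the order of the stabiliser of `e`. -/
def stabCard (G : Type*) [Group G] [Fintype G] [MulAction G X] (e : X) : ℕ :=
  (Finset.univ.filter (fun x : G => x • e = e)).card

theorem stabCard_pos (e : X) : 0 < stabCard G e := by
  unfold stabCard
  apply Finset.card_pos.mpr
  exact ⟨1, by simp⟩

theorem fiber_card (e : X) (H1 : ∀ x : X, ∃ g : G, g • e = x) (y : X) :
    (Finset.univ.filter (fun x : G => x • e = y)).card = stabCard G e := by
  obtain ⟨g, hg⟩ := H1 y
  unfold stabCard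
  apply Finset.card_equiv (Equiv.mulLeft g⁻¹)
  intro x
  simp only [Finset.mem_filter, Finset.mem_univ, true_and, Equiv.coe_mulLeft]
  rw [mul_smul, inv_smul_eq_iff, hg]

theorem sum_orbit (e : X) (H1 : ∀ x : X, ∃ g : G, g • e = x) (f : X → ℂ) :
    ∑ x : G, f (x • e) = (stabCard G e : ℂ) * ∑ y : X, f y := by
  have h1 : ∀ x : G, f (x • e) = ∑ y : X, if x • e = y then f y else 0 := by
    intro x
    rw [Finset.sum_ite_eq]
    simp
  rw [Finset.sum_congr rfl (fun x _ => h1 x), Finset.sum_comm, Finset.mul_sum]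
  apply Finset.sum_congr rfl
  intro y _
  rw [← Finset.sum_filter, Finset.sum_const, fiber_card e H1 y, nsmul_eq_mul]

theorem card_lineStab (e : X) (hfree : ∀ a : A, a • e = e → a = 1)
    (H1 : ∀ x : X, ∃ g : G, g • e = x) :
    (Nat.card (lineStab (G := G) A e) : ℂ) = (Fintype.card A : ℂ) * (stabCard G e : ℂ) := by
  classical
  have h1 : Nat.card (lineStab (G := G) A e) =
      (Finset.univ.filter (fun x : G => ∃ a : A, x • e = a • e)).card := by
    rw [Nat.card_eq_fintype_card, Fintype.card_subtype]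
    apply congrArg Finset.card
    ext x
    simp only [Finset.mem_filter, Finset.mem_univ, true_and, mem_lineStab]
  have h2 : ((Finset.univ.filter (fun x : G => ∃ a : A, x • e = a • e)).card : ℂ) =
      ∑ x : G, (fun y : X => if ∃ a : A, y = a • e then (1 : ℂ) else 0) (x • e) := by
    rw [Finset.card_filter]
    push_cast
    rfl
  rw [h1, h2, sum_orbit e H1 (fun y : X => if ∃ a : A, y = a • e then (1 : ℂ) else 0)]
  have h3 : (Finset.univ.filter (fun y : X => ∃ a : A, y = a • e)).card = Fintype.card A := by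
    have : (Finset.univ.filter (fun y : X => ∃ a : A, y = a • e)) =
        Finset.univ.image (fun a : A => a • e) := by
      ext y
      simp only [Finset.mem_filter, Finset.mem_univ, true_and, Finset.mem_image]
      constructor
      · rintro ⟨a, rfl⟩
        exact ⟨a, rfl⟩
      · rintro ⟨a, rfl⟩
        exact ⟨a, rfl⟩
    rw [this, Finset.card_image_of_injective, Finset.card_univ]
    intro a b hab
    have hab' : a • e = b • e := hab
    have h4 : (b⁻¹ * a) • e = e := by rw [mul_smul, hab', inv_smul_smul]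
    exact (inv_mul_eq_one.mp (hfree _ h4)).symm
  have h4 : ∑ y : X, (if ∃ a : A, y = a • e then (1 : ℂ) else 0) = (Fintype.card A : ℂ) := by
    rw [← h3, Finset.card_filter]
    push_cast
    rfl
  rw [h4, mul_comm]

/-- the number of `x` with `g • x = a • x`. -/
def fix (X : Type*) [Fintype X] [DecidableEq X] [MulAction G X] [MulAction A X] (g : G) (a : A) :
    ℕ :=
  (Finset.univ.filter (fun x : X => g • x = a • x)).card

theorem fix_eq_sum (g : G) (a : A) :
    (fix X g a : ℂ) = ∑ x : X, if g • x = a • x then (1 : ℂ) else 0 := by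
  unfold fix
  rw [Finset.card_filter]
  push_cast
  rfl

theorem pi_apply (e : X) (hfree : ∀ a : A, a • e = e → a = 1)
    (H1 : ∀ x : X, ∃ g : G, g • e = x) (lam : A →* ℂˣ) (g : G) :
    pi e hfree lam g =
      (Fintype.card A : ℂ)⁻¹ * ∑ a : A, ((lam a : ℂˣ) : ℂ) * (fix X g a : ℂ) := by
  unfold pi
  rw [Helper2.indFun_apply, card_lineStab e hfree H1]
  have h1 : ∀ x : G, extendByZero (lineStab A e) (theta e hfree lam) (x⁻¹ * g * x) =
      ∑ a : A, ((lam a : ℂˣ) : ℂ) *
        (fun y : X => if g • y = a • y then (1 : ℂ) else 0) (x • e) := by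
    intro x
    rw [ext_formula]
    apply Finset.sum_congr rfl
    intro a _
    have : (x⁻¹ * g * x) • e = a • e ↔ g • x • e = a • x • e := by
      rw [mul_smul, mul_smul, inv_smul_eq_iff, smul_comm x a e]
    simp only [this]
  rw [Finset.sum_congr rfl (fun x _ => h1 x), Finset.sum_comm]
  have h2 : ∀ a : A, ∑ x : G, ((lam a : ℂˣ) : ℂ) *
        (fun y : X => if g • y = a • y then (1 : ℂ) else 0) (x • e) =
      (stabCard G e : ℂ) * (((lam a : ℂˣ) : ℂ) * (fix X g a : ℂ)) := by
    intro a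
    rw [← Finset.mul_sum, sum_orbit e H1 (fun y : X => if g • y = a • y then (1 : ℂ) else 0),
      fix_eq_sum]
    ring
  rw [Finset.sum_congr rfl (fun a _ => h2 a), ← Finset.mul_sum]
  have hs : (stabCard G e : ℂ) ≠ 0 := by
    exact_mod_cast (stabCard_pos e).ne'
  have hA : (Fintype.card A : ℂ) ≠ 0 := by
    exact_mod_cast Fintype.card_ne_zero
  field_simp

theorem card_orbit (e : X) (hfree : ∀ a : A, a • e = e → a = 1) :
    (Finset.univ.filter (fun y : X => ∃ a : A, y = a • e)).card = Fintype.card A := by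
  have : (Finset.univ.filter (fun y : X => ∃ a : A, y = a • e)) =
      Finset.univ.image (fun a : A => a • e) := by
    ext y
    simp only [Finset.mem_filter, Finset.mem_univ, true_and, Finset.mem_image]
    constructor
    · rintro ⟨a, rfl⟩
      exact ⟨a, rfl⟩
    · rintro ⟨a, rfl⟩
      exact ⟨a, rfl⟩
  rw [this, Finset.card_image_of_injective, Finset.card_univ]
  intro a b hab
  have hab' : a • e = b • e := hab
  have h4 : (b⁻¹ * a) • e = e := by rw [mul_smul, hab', inv_smul_smul]
  exact (inv_mul_eq_one.mp (hfree _ h4)).symm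

/-- the number of `g` with `g • e = a • e` and `g • w = w'`. -/
def cnt (G : Type*) [Group G] [Fintype G] [MulAction G X] (e : X) (a : A) (w w' : X) : ℕ :=
  (Finset.univ.filter (fun g : G => g • e = a • e ∧ g • w = w')).card

theorem cnt_const (e : X)
    (H2 : ∀ w w' : X, (∀ c : A, w ≠ c • e) → (∀ c : A, w' ≠ c • e) → ∀ a : A,
      ∃ h : G, h • e = a • e ∧ h • w = w')
    {w w' w₀ : X} (hw : ∀ c : A, w ≠ c • e) (hw' : ∀ c : A, w' ≠ c • e)
    (hw₀ : ∀ c : A, w₀ ≠ c • e) (a : A) :
    cnt G e a w w' = cnt G e (1 : A) w₀ w₀ := by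
  obtain ⟨m, hm1, hm2⟩ := H2 w w' hw hw' a
  obtain ⟨k, hk1, hk2⟩ := H2 w₀ w hw₀ hw 1
  have hk1' : k • e = e := by rw [hk1, one_smul]
  unfold cnt
  apply Finset.card_equiv ((Equiv.mulLeft (k⁻¹ * m⁻¹)).trans (Equiv.mulRight k))
  intro h
  simp only [Finset.mem_filter, Finset.mem_univ, true_and, Equiv.trans_apply, Equiv.coe_mulLeft,
    Equiv.coe_mulRight]
  have e1 : (k⁻¹ * m⁻¹ * h * k) • e = k⁻¹ • m⁻¹ • h • e := by
    rw [mul_smul, mul_smul, mul_smul, hk1']
  have e2 : (k⁻¹ * m⁻¹ * h * k) • w₀ = k⁻¹ • m⁻¹ • h • w := by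
    rw [mul_smul, mul_smul, mul_smul, hk2]
  have i1 : k⁻¹ • m⁻¹ • h • e = e ↔ h • e = a • e := by
    rw [inv_smul_eq_iff, inv_smul_eq_iff, hk1', hm1]
  have i2 : k⁻¹ • m⁻¹ • h • w = w₀ ↔ h • w = w' := by
    rw [inv_smul_eq_iff, inv_smul_eq_iff, hk2, hm2]
  rw [e1, e2, one_smul, i1, i2]

variable [DecidableEq A]

theorem cnt_orbit (e : X) (hfree : ∀ a : A, a • e = e → a = 1)
    (H1 : ∀ x : X, ∃ g : G, g • e = x) (a b c : A) :
    cnt G e a (c • e) (b • c • e) = if a = b then stabCard G e else 0 := by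
  unfold cnt
  split_ifs with hab
  · subst hab
    rw [← fiber_card e H1 (a • e)]
    apply congrArg Finset.card
    ext g
    simp only [Finset.mem_filter, Finset.mem_univ, true_and, and_iff_left_iff_imp]
    intro hg
    rw [smul_comm g c e, hg, smul_comm]
  · apply Finset.card_eq_zero.mpr
    apply Finset.filter_eq_empty_iff.mpr
    intro g _ hg
    apply hab
    have h1 : g • c • e = c • a • e := by rw [smul_comm g c e, hg.1]
    have h2 : (c * a) • e = (b * c) • e := by rw [mul_smul, ← h1, hg.2, mul_smul]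
    have h3 : ((b * c)⁻¹ * (c * a)) • e = e := by rw [mul_smul, h2, inv_smul_smul]
    have h4 := inv_mul_eq_one.mp (hfree _ h3)
    rw [mul_comm c a] at h4
    exact (mul_right_cancel h4).symm

theorem cnt_zero (e : X) {w₀ : X} (hw₀ : ∀ c : A, w₀ ≠ c • e) (c : A) :
    cnt G e (1 : A) w₀ (c • e) = 0 := by
  unfold cnt
  apply Finset.card_eq_zero.mpr
  apply Finset.filter_eq_empty_iff.mpr
  intro g _ hg
  apply hw₀ c
  have h1 : g • e = e := by rw [hg.1, one_smul]
  have h2 : g⁻¹ • e = e := by rw [inv_smul_eq_iff, h1]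
  have h3 : w₀ = g⁻¹ • c • e := by rw [eq_inv_smul_iff, hg.2]
  rw [h3, smul_comm, h2]

theorem stabCard_eq_sum (e : X) (w₀ : X) :
    stabCard G e = ∑ w : X, cnt G e (1 : A) w₀ w := by
  unfold stabCard cnt
  rw [Finset.card_eq_sum_card_fiberwise (f := fun g : G => g • w₀) (t := Finset.univ)
    (fun _ _ => Finset.mem_univ _)]
  apply Finset.sum_congr rfl
  intro w _
  rw [Finset.filter_filter]
  simp only [one_smul]

theorem sum_cnt (e : X) (hfree : ∀ a : A, a • e = e → a = 1)
    (H1 : ∀ x : X, ∃ g : G, g • e = x)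
    (H2 : ∀ w w' : X, (∀ c : A, w ≠ c • e) → (∀ c : A, w' ≠ c • e) → ∀ a : A,
      ∃ h : G, h • e = a • e ∧ h • w = w')
    {w₀ : X} (hw₀ : ∀ c : A, w₀ ≠ c • e) (a b : A) :
    ∑ w : X, cnt G e a w (b • w) =
      Fintype.card A * (if a = b then stabCard G e else 0) + stabCard G e := by
  have key : ∀ w : X, cnt G e a w (b • w) =
      (if ∃ c : A, w = c • e then (if a = b then stabCard G e else 0) else 0) +
        cnt G e (1 : A) w₀ w := by
    intro w
    by_cases hw : ∃ c : A, w = c • e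
    · obtain ⟨c, rfl⟩ := hw
      rw [if_pos ⟨c, rfl⟩, cnt_orbit e hfree H1, cnt_zero e hw₀ c, add_zero]
    · rw [if_neg hw, zero_add]
      push Not at hw
      have hbw : ∀ c : A, b • w ≠ c • e := by
        intro c hc
        apply hw (b⁻¹ * c)
        rw [mul_smul, ← hc, inv_smul_smul]
      rw [cnt_const e H2 hw hbw hw₀ a, cnt_const e H2 hw₀ hw hw₀ 1]
  rw [Finset.sum_congr rfl (fun w _ => key w), Finset.sum_add_distrib, ← stabCard_eq_sum,
    ← Finset.sum_filter, Finset.sum_const, card_orbit e hfree, smul_eq_mul]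

theorem sum_fix (e : X) (hfree : ∀ a : A, a • e = e → a = 1)
    (H1 : ∀ x : X, ∃ g : G, g • e = x)
    (H2 : ∀ w w' : X, (∀ c : A, w ≠ c • e) → (∀ c : A, w' ≠ c • e) → ∀ a : A,
      ∃ h : G, h • e = a • e ∧ h • w = w')
    {w₀ : X} (hw₀ : ∀ c : A, w₀ ≠ c • e) (a b : A) :
    ∑ g : G, (if g • e = a • e then (fix X g b : ℂ) else 0) =
      (stabCard G e : ℂ) * ((Fintype.card A : ℂ) * (if a = b then 1 else 0) + 1) := by
  have h1 : ∀ g : G, (if g • e = a • e then (fix X g b : ℂ) else 0) =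
      ∑ w : X, if g • e = a • e ∧ g • w = b • w then (1 : ℂ) else 0 := by
    intro g
    rw [fix_eq_sum]
    by_cases hg : g • e = a • e
    · simp [hg]
    · simp [hg]
  rw [Finset.sum_congr rfl (fun g _ => h1 g), Finset.sum_comm]
  have h2 : ∀ w : X, ∑ g : G, (if g • e = a • e ∧ g • w = b • w then (1 : ℂ) else 0) =
      (cnt G e a w (b • w) : ℂ) := by
    intro w
    unfold cnt
    rw [Finset.card_filter]
    push_cast
    rfl
  rw [Finset.sum_congr rfl (fun w _ => h2 w), ← Nat.cast_sum, sum_cnt e hfree H1 H2 hw₀]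
  by_cases hab : a = b
  · simp [hab]
    ring
  · simp [hab]

/-! ### characters of `A` -/

theorem sum_hom (lam : A →* ℂˣ) (h : lam ≠ 1) : ∑ a : A, ((lam a : ℂˣ) : ℂ) = 0 := by
  have h1 : ((Units.coeHom ℂ).comp lam) ≠ 1 := by
    intro h'
    apply h
    ext a
    have := DFunLike.congr_fun h' a
    simpa using this
  have := sum_hom_units_eq_zero ((Units.coeHom ℂ).comp lam) h1
  simpa using this

theorem sum_hom_one : ∑ a : A, (((1 : A →* ℂˣ) a : ℂˣ) : ℂ) = (Fintype.card A : ℂ) := by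
  simp

theorem conj_hom (mu : A →* ℂˣ) (a : A) :
    conj ((mu a : ℂˣ) : ℂ) = (((mu a)⁻¹ : ℂˣ) : ℂ) := by
  have h1 : ((mu a : ℂˣ) : ℂ) ^ Fintype.card A = 1 := by
    rw [← Units.val_pow_eq_pow_val, ← map_pow, pow_card_eq_one, map_one, Units.val_one]
  have h2 : ‖((mu a : ℂˣ) : ℂ)‖ = 1 := Complex.norm_eq_one_of_pow_eq_one h1 Fintype.card_ne_zero
  rw [Units.val_inv_eq_inv_val, Complex.inv_eq_conj h2]

theorem sum_hom_conj (lam mu : A →* ℂˣ) (h : lam ≠ mu) :
    ∑ a : A, ((lam a : ℂˣ) : ℂ) * conj ((mu a : ℂˣ) : ℂ) = 0 := by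
  have h1 : lam * mu⁻¹ ≠ 1 := by
    intro h'
    exact h (mul_inv_eq_one.mp h')
  have h2 := sum_hom (lam * mu⁻¹) h1
  rw [← h2]
  apply Finset.sum_congr rfl
  intro a _
  rw [conj_hom, MonoidHom.mul_apply, MonoidHom.inv_apply, Units.val_mul]

theorem sum_hom_conj_self (lam : A →* ℂˣ) :
    ∑ a : A, ((lam a : ℂˣ) : ℂ) * conj ((lam a : ℂˣ) : ℂ) = (Fintype.card A : ℂ) := by
  have h1 : ∀ a : A, ((lam a : ℂˣ) : ℂ) * conj ((lam a : ℂˣ) : ℂ) = 1 := by
    intro a
    rw [conj_hom, ← Units.val_mul, mul_inv_cancel, Units.val_one]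
  rw [Finset.sum_congr rfl (fun a _ => h1 a)]
  simp

theorem sum_conj_hom (mu : A →* ℂˣ) (h : mu ≠ 1) : ∑ a : A, conj ((mu a : ℂˣ) : ℂ) = 0 := by
  rw [← map_sum, sum_hom mu h, map_zero]

/-! ### inner products -/

theorem pi_inner (e : X) (hfree : ∀ a : A, a • e = e → a = 1)
    (H1 : ∀ x : X, ∃ g : G, g • e = x)
    (H2 : ∀ w w' : X, (∀ c : A, w ≠ c • e) → (∀ c : A, w' ≠ c • e) → ∀ a : A,
      ∃ h : G, h • e = a • e ∧ h • w = w')
    {w₀ : X} (hw₀ : ∀ c : A, w₀ ≠ c • e) (lam mu : A →* ℂˣ) :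
    classInner (pi (G := G) e hfree lam) (pi e hfree mu) =
      (Fintype.card A : ℂ)⁻¹ ^ 2 *
        ((Fintype.card A : ℂ) * ∑ a : A, ((lam a : ℂˣ) : ℂ) * conj ((mu a : ℂˣ) : ℂ) +
          (∑ a : A, ((lam a : ℂˣ) : ℂ)) * ∑ b : A, conj ((mu b : ℂˣ) : ℂ)) := by
  classical
  haveI : Fintype (lineStab (G := G) A e) := Fintype.ofFinite _
  have hs : (stabCard G e : ℂ) ≠ 0 := by
    exact_mod_cast (stabCard_pos e).ne'
  have hA : (Fintype.card A : ℂ) ≠ 0 := by
    exact_mod_cast Fintype.card_ne_zero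
  unfold pi
  rw [Helper2.frobenius_reciprocity (lineStab A e) (theta e hfree lam) _
    (Helper2.indFun_isClassFunction _ _)]
  unfold classInner
  rw [← Helper2.sum_extendByZero_mul (lineStab A e) (theta e hfree lam)
    (fun g => conj (indFun (lineStab A e) (theta e hfree mu) g))]
  have h1 : ∀ g : G, extendByZero (lineStab A e) (theta e hfree lam) g *
      conj (indFun (lineStab A e) (theta e hfree mu) g) =
      (Fintype.card A : ℂ)⁻¹ * ∑ a : A, ∑ b : A, ((lam a : ℂˣ) : ℂ) * conj ((mu b : ℂˣ) : ℂ) *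
        (if g • e = a • e then (fix X g b : ℂ) else 0) := by
    intro g
    have h0 := pi_apply e hfree H1 mu g
    unfold pi at h0
    rw [ext_formula, h0, map_mul, map_inv₀, Complex.conj_natCast, map_sum, mul_left_comm,
      Finset.sum_mul_sum]
    congr 1
    apply Finset.sum_congr rfl
    intro a _
    apply Finset.sum_congr rfl
    intro b _
    rw [map_mul, Complex.conj_natCast]
    split_ifs <;> ring
  rw [Finset.sum_congr rfl (fun g _ => h1 g), ← Finset.mul_sum, Finset.sum_comm]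
  have h2 : ∀ a : A, ∑ g : G, ∑ b : A, ((lam a : ℂˣ) : ℂ) * conj ((mu b : ℂˣ) : ℂ) *
        (if g • e = a • e then (fix X g b : ℂ) else 0) =
      (stabCard G e : ℂ) * ((Fintype.card A : ℂ) * (((lam a : ℂˣ) : ℂ) * conj ((mu a : ℂˣ) : ℂ)) +
        ((lam a : ℂˣ) : ℂ) * ∑ b : A, conj ((mu b : ℂˣ) : ℂ)) := by
    intro a
    rw [Finset.sum_comm]
    have h3 : ∀ b : A, ∑ g : G, ((lam a : ℂˣ) : ℂ) * conj ((mu b : ℂˣ) : ℂ) *
        (if g • e = a • e then (fix X g b : ℂ) else 0) =
        ((lam a : ℂˣ) : ℂ) * conj ((mu b : ℂˣ) : ℂ) * ((stabCard G e : ℂ) *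
          ((Fintype.card A : ℂ) * (if a = b then 1 else 0) + 1)) := by
      intro b
      rw [← Finset.mul_sum, sum_fix e hfree H1 H2 hw₀]
    rw [Finset.sum_congr rfl (fun b _ => h3 b)]
    have h4 : ∀ b : A, ((lam a : ℂˣ) : ℂ) * conj ((mu b : ℂˣ) : ℂ) * ((stabCard G e : ℂ) *
          ((Fintype.card A : ℂ) * (if a = b then 1 else 0) + 1)) =
        (stabCard G e : ℂ) * (Fintype.card A : ℂ) *
          (if a = b then ((lam a : ℂˣ) : ℂ) * conj ((mu b : ℂˣ) : ℂ) else 0) +
        (stabCard G e : ℂ) * ((lam a : ℂˣ) : ℂ) * conj ((mu b : ℂˣ) : ℂ) := by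
      intro b
      split_ifs <;> ring
    rw [Finset.sum_congr rfl (fun b _ => h4 b), Finset.sum_add_distrib, ← Finset.mul_sum,
      ← Finset.mul_sum, Finset.sum_ite_eq, if_pos (Finset.mem_univ _)]
    ring
  rw [Finset.sum_congr rfl (fun a _ => h2 a), ← Finset.mul_sum, Finset.sum_add_distrib,
    ← Finset.mul_sum, ← Finset.sum_mul, card_lineStab e hfree H1]
  field_simp

theorem pi_inner_triv (e : X) (hfree : ∀ a : A, a • e = e → a = 1)
    (H1 : ∀ x : X, ∃ g : G, g • e = x) (lam : A →* ℂˣ) :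
    classInner (pi (G := G) e hfree lam) (fun _ => (1 : ℂ)) =
      (Fintype.card A : ℂ)⁻¹ * ∑ a : A, ((lam a : ℂˣ) : ℂ) := by
  classical
  letI : Fintype (lineStab (G := G) A e) := Fintype.ofFinite _
  have hs : (stabCard G e : ℂ) ≠ 0 := by
    exact_mod_cast (stabCard_pos e).ne'
  have hA : (Fintype.card A : ℂ) ≠ 0 := by
    exact_mod_cast Fintype.card_ne_zero
  unfold pi
  rw [Helper2.frobenius_reciprocity (lineStab A e) (theta e hfree lam) _ (fun _ _ => rfl)]
  unfold classInner
  rw [← Helper2.sum_extendByZero_mul (lineStab A e) (theta e hfree lam) (fun _ => conj (1 : ℂ))]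
  have h1 : ∀ g : G, extendByZero (lineStab A e) (theta e hfree lam) g * conj (1 : ℂ) =
      ∑ a : A, ((lam a : ℂˣ) : ℂ) * (if g • e = a • e then 1 else 0) := by
    intro g
    rw [ext_formula, map_one, mul_one]
  rw [Finset.sum_congr rfl (fun g _ => h1 g), Finset.sum_comm]
  have h2 : ∀ a : A, ∑ g : G, ((lam a : ℂˣ) : ℂ) * (if g • e = a • e then (1 : ℂ) else 0) =
      (stabCard G e : ℂ) * ((lam a : ℂˣ) : ℂ) := by
    intro a
    rw [← Finset.mul_sum, ← fiber_card e H1 (a • e), Finset.card_filter]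
    push_cast
    ring
  rw [Finset.sum_congr rfl (fun a _ => h2 a), ← Finset.mul_sum, card_lineStab e hfree H1]
  field_simp

section Specialised

variable (e : X) (hfree : ∀ a : A, a • e = e → a = 1) (H1 : ∀ x : X, ∃ g : G, g • e = x)
  (H2 : ∀ w w' : X, (∀ c : A, w ≠ c • e) → (∀ c : A, w' ≠ c • e) → ∀ a : A,
      ∃ h : G, h • e = a • e ∧ h • w = w')
  {w₀ : X} (hw₀ : ∀ c : A, w₀ ≠ c • e)

include H1 H2 hw₀

theorem pi_norm (lam : A →* ℂˣ) (hlam : lam ≠ 1) :
    classInner (pi (G := G) e hfree lam) (pi e hfree lam) = 1 := by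
  have hA : (Fintype.card A : ℂ) ≠ 0 := by
    exact_mod_cast Fintype.card_ne_zero
  rw [pi_inner e hfree H1 H2 hw₀, sum_hom_conj_self, sum_hom lam hlam]
  field_simp
  ring

theorem pi_orth (lam mu : A →* ℂˣ) (h : lam ≠ mu) (h1 : lam ≠ 1 ∨ mu ≠ 1) :
    classInner (pi (G := G) e hfree lam) (pi e hfree mu) = 0 := by
  rw [pi_inner e hfree H1 H2 hw₀, sum_hom_conj lam mu h]
  rcases h1 with h1 | h1
  · rw [sum_hom lam h1]
    simp
  · rw [sum_conj_hom mu h1]
    simp

theorem pi_norm_one :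
    classInner (pi (G := G) e hfree (1 : A →* ℂˣ)) (pi e hfree 1) = 2 := by
  have hA : (Fintype.card A : ℂ) ≠ 0 := by
    exact_mod_cast Fintype.card_ne_zero
  have h1 : ∑ b : A, conj (((1 : A →* ℂˣ) b : ℂˣ) : ℂ) = (Fintype.card A : ℂ) := by simp
  rw [pi_inner e hfree H1 H2 hw₀, sum_hom_conj_self, sum_hom_one, h1]
  field_simp
  ring

omit H2 hw₀ in
theorem pi_triv_one :
    classInner (pi (G := G) e hfree (1 : A →* ℂˣ)) (fun _ => (1 : ℂ)) = 1 := by
  have hA : (Fintype.card A : ℂ) ≠ 0 := by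
    exact_mod_cast Fintype.card_ne_zero
  rw [pi_inner_triv e hfree H1, sum_hom_one]
  field_simp

omit H2 hw₀ in
theorem pi_triv_ne (lam : A →* ℂˣ) (hlam : lam ≠ 1) :
    classInner (pi (G := G) e hfree lam) (fun _ => (1 : ℂ)) = 0 := by
  rw [pi_inner_triv e hfree H1, sum_hom lam hlam, mul_zero]

end Specialised

/-- a character of norm 2 containing the irreducible `ψ` once: the rest is irreducible. -/
theorem irr_sub_of_norm_two {G : Type*} [Group G] [Fintype G] {θ ψ : G → ℂ}
    (hθ : IsCharacter G θ) (hψ : IsIrrCharacter G ψ)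
    (h2 : classInner θ θ = 2) (h1 : classInner θ ψ = 1) : IsIrrCharacter G (θ - ψ) := by
  classical
  have hψψ : classInner ψ ψ = 1 := by
    have := Helper2.classInner_irr_irr (⟨ψ, hψ⟩ : IrrCharacter G) ⟨ψ, hψ⟩
    rw [if_pos rfl] at this
    exact this
  have hcl : IsClassFunction G (θ - ψ) := by
    intro g h
    show θ _ - ψ _ = θ _ - ψ _
    rw [Helper2.isClassFunction_of_isCharacter hθ g h,
      Helper2.isClassFunction_of_isCharacter (Helper2.isCharacter_of_isIrrCharacter hψ) g h]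
  have hchar : IsCharacter G (θ - ψ) := by
    apply Helper2.isCharacter_of_nat hcl
    intro χ
    rw [Helper2.classInner_sub_left]
    obtain ⟨n, hn⟩ := Helper2.classInner_char_nat hθ (Helper2.isCharacter_of_isIrrCharacter χ.2)
    by_cases hχ : (⟨ψ, hψ⟩ : IrrCharacter G) = χ
    · subst hχ
      refine ⟨0, ?_⟩
      show classInner θ ψ - classInner ψ ψ = _
      rw [h1, hψψ]
      simp
    · have := Helper2.classInner_irr_irr (⟨ψ, hψ⟩ : IrrCharacter G) χ
      rw [if_neg hχ] at this
      refine ⟨n, ?_⟩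
      show classInner θ (χ : G → ℂ) - classInner ψ (χ : G → ℂ) = _
      rw [hn, this, sub_zero]
  apply Helper2.isIrrCharacter_of_classInner_self hchar
  rw [Helper2.classInner_sub_left, Helper2.classInner_sub_right, Helper2.classInner_sub_right,
    h2, h1, hψψ, Helper2.classInner_conj_symm θ ψ, h1, map_one]
  ring

theorem sum_dual [Fintype (A →* ℂˣ)] (a : A) :
    ∑ lam : A →* ℂˣ, ((lam a : ℂˣ) : ℂ) = if a = 1 then (Fintype.card A : ℂ) else 0 := by
  split_ifs with ha
  · subst ha
    have h1 := CommGroup.card_monoidHom_of_hasEnoughRootsOfUnity A ℂ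
    rw [Nat.card_eq_fintype_card, Nat.card_eq_fintype_card] at h1
    simp [h1]
  · obtain ⟨φ, hφ⟩ := CommGroup.exists_apply_ne_one_of_hasEnoughRootsOfUnity A ℂ ha
    have h1 : ∑ lam : A →* ℂˣ, ((lam a : ℂˣ) : ℂ) =
        ((φ a : ℂˣ) : ℂ) * ∑ lam : A →* ℂˣ, ((lam a : ℂˣ) : ℂ) := by
      rw [Finset.mul_sum]
      apply Fintype.sum_equiv (Equiv.mulLeft φ⁻¹)
      intro lam
      simp
    have h2 : ((φ a : ℂˣ) : ℂ) ≠ 1 := by
      intro h
      apply hφ
      exact Units.ext h
    have h3 : (1 - ((φ a : ℂˣ) : ℂ)) * ∑ lam : A →* ℂˣ, ((lam a : ℂˣ) : ℂ) = 0 := by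
      linear_combination h1
    rcases mul_eq_zero.mp h3 with h | h
    · exact absurd (sub_eq_zero.mp h).symm h2
    · exact h

/-- **Main theorem**: the permutation character is `1 +` a sum of `|A|` distinct irreducible
characters. -/
theorem main {G : Type*} [Group G] [Fintype G] [MulAction G X] [SMulCommClass G A X]
    (e : X) (hfree : ∀ a : A, a • e = e → a = 1) (H1 : ∀ x : X, ∃ g : G, g • e = x)
    (H2 : ∀ w w' : X, (∀ c : A, w ≠ c • e) → (∀ c : A, w' ≠ c • e) → ∀ a : A,
      ∃ h : G, h • e = a • e ∧ h • w = w')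
    {w₀ : X} (hw₀ : ∀ c : A, w₀ ≠ c • e) :
    ∃ χ : Fin (Fintype.card A) → (G → ℂ), (∀ i, IsIrrCharacter G (χ i)) ∧
      Function.Injective χ ∧
      ∀ g : G, ((Finset.univ.filter (fun x : X => g • x = x)).card : ℂ) = 1 + ∑ i, χ i g := by
  classical
  have hcard0 := CommGroup.card_monoidHom_of_hasEnoughRootsOfUnity A ℂ
  haveI : Finite (A →* ℂˣ) := by
    apply Nat.finite_of_card_ne_zero
    rw [hcard0]
    exact Nat.card_pos.ne'
  letI : Fintype (A →* ℂˣ) := Fintype.ofFinite _
  have hcard : Fintype.card (A →* ℂˣ) = Fintype.card A := by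
    rw [Nat.card_eq_fintype_card, Nat.card_eq_fintype_card] at hcard0
    exact hcard0
  have hA : (Fintype.card A : ℂ) ≠ 0 := by
    exact_mod_cast Fintype.card_ne_zero
  let ε : Fin (Fintype.card A) ≃ (A →* ℂˣ) := (Fintype.equivFinOfCardEq hcard).symm
  let ch : (A →* ℂˣ) → (G → ℂ) := fun lam =>
    if lam = 1 then pi e hfree 1 - (fun _ => (1 : ℂ)) else pi e hfree lam
  have htriv : IsIrrCharacter G (fun _ => (1 : ℂ)) := (Helper25.trivChar G).2
  have hirr : ∀ lam, IsIrrCharacter G (ch lam) := by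
    intro lam
    by_cases h : lam = 1
    · simp only [ch, if_pos h]
      exact irr_sub_of_norm_two (pi_isCharacter e hfree 1) htriv
        (pi_norm_one e hfree H1 H2 hw₀) (pi_triv_one e hfree H1)
    · simp only [ch, if_neg h]
      exact Helper2.isIrrCharacter_of_classInner_self (pi_isCharacter e hfree lam)
        (pi_norm e hfree H1 H2 hw₀ lam h)
  have hnorm : ∀ lam, classInner (ch lam) (ch lam) = 1 := by
    intro lam
    have := Helper2.classInner_irr_irr (⟨ch lam, hirr lam⟩ : IrrCharacter G) ⟨ch lam, hirr lam⟩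
    rw [if_pos rfl] at this
    exact this
  have horth : ∀ lam mu, lam ≠ mu → classInner (ch lam) (ch mu) = 0 := by
    intro lam mu hne
    by_cases h1 : lam = 1
    · have h2 : mu ≠ 1 := fun h => hne (h1.trans h.symm)
      simp only [ch, if_pos h1, if_neg h2]
      rw [Helper2.classInner_sub_left, pi_orth e hfree H1 H2 hw₀ 1 mu (h1 ▸ hne) (Or.inr h2),
        Helper2.classInner_conj_symm (pi e hfree mu) (fun _ => (1 : ℂ)),
        pi_triv_ne e hfree H1 mu h2]
      simp
    · by_cases h2 : mu = 1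
      · simp only [ch, if_neg h1, if_pos h2]
        rw [Helper2.classInner_sub_right, pi_orth e hfree H1 H2 hw₀ lam 1 (h2 ▸ hne) (Or.inl h1),
          pi_triv_ne e hfree H1 lam h1]
        simp
      · simp only [ch, if_neg h1, if_neg h2]
        exact pi_orth e hfree H1 H2 hw₀ lam mu hne (Or.inl h1)
  have hinj : Function.Injective ch := by
    intro lam mu h
    by_contra hne
    have h1 := horth lam mu hne
    rw [h, hnorm mu] at h1
    exact one_ne_zero h1
  refine ⟨fun i => ch (ε i), fun i => hirr (ε i), hinj.comp ε.injective, ?_⟩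
  intro g
  rw [Equiv.sum_comp ε (fun lam => ch lam g)]
  have hch : ∀ lam, ch lam g = pi e hfree lam g - (if lam = 1 then 1 else 0) := by
    intro lam
    by_cases h : lam = 1
    · simp [ch, h]
    · simp [ch, h]
  rw [Finset.sum_congr rfl (fun lam _ => hch lam), Finset.sum_sub_distrib, Finset.sum_ite_eq',
    if_pos (Finset.mem_univ _)]
  have hpi : ∑ lam : A →* ℂˣ, pi e hfree lam g = (fix X g (1 : A) : ℂ) := by
    rw [Finset.sum_congr rfl (fun lam _ => pi_apply e hfree H1 lam g), ← Finset.mul_sum,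
      Finset.sum_comm]
    have h3 : ∀ a : A, ∑ lam : A →* ℂˣ, ((lam a : ℂˣ) : ℂ) * (fix X g a : ℂ) =
        (if a = 1 then (Fintype.card A : ℂ) * (fix X g a : ℂ) else 0) := by
      intro a
      rw [← Finset.sum_mul, sum_dual]
      split_ifs <;> simp
    rw [Finset.sum_congr rfl (fun a _ => h3 a), Finset.sum_ite_eq', if_pos (Finset.mem_univ _)]
    field_simp
  rw [hpi]
  have hfix : fix X g (1 : A) = (Finset.univ.filter (fun x : X => g • x = x)).card := by
    unfold fix
    simp only [one_smul]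
  rw [hfix]
  ring

end Cfsg.Agent.Helper14.PermInd
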