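import Mathlib

set_option autoImplicit false

namespace Cfsg.Agent.S4138P

theorem h14_nat_split (k : ℕ) : ∀ o : ℕ, 0 < o →
    ∃ o₁ o₂ : ℕ, o = o₁ * o₂ ∧ Nat.Coprime o₂ k ∧ ∀ q : ℕ, q.Prime → q ∣ o₁ → q ∣ k := by
  intro o
  induction o using Nat.strong_induction_on with
  | _ o ih =>
    intro ho
    by_cases hc : Nat.Coprime o k
    · exact ⟨1, o, by simp, hc, fun q hq h => absurd (Nat.dvd_one.mp h) hq.one_lt.ne'⟩
    · obtain ⟨q, hq, hqo, hqk⟩ := Nat.Prime.not_coprime_iff_dvd.mp hc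
      obtain ⟨o', rfl⟩ := hqo
      have ho' : 0 < o' := Nat.pos_of_ne_zero (by rintro rfl; simp at ho)
      have hlt : o' < q * o' := by
        have := hq.one_lt
        nlinarith
      obtain ⟨o₁, o₂, h1, h2, h3⟩ := ih o' hlt ho'
      refine ⟨q * o₁, o₂, by rw [h1]; ring, h2, fun r hr hdvd => ?_⟩
      rcases (Nat.Prime.dvd_mul hr).mp hdvd with h | h
      · rw [(Nat.prime_dvd_prime_iff_eq hr hq).mp h]; exact hqk
      · exact h3 r hr h

theorem h14_split_central {G : Type*} [Group G] [Finite G] (a : G) (k : ℕ)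
    (hk : a ^ k ∈ Subgroup.center G) :
    ∃ a0 z : G, a = a0 * z ∧ z ∈ Subgroup.center G ∧ a0 ∈ Subgroup.zpowers a ∧
      z ∈ Subgroup.zpowers a ∧ ∀ q : ℕ, q.Prime → q ∣ orderOf a0 → q ∣ k := by
  obtain ⟨o₁, o₂, ho, hcop, hpr⟩ := h14_nat_split k (orderOf a) (orderOf_pos a)
  have hcop12 : Nat.Coprime o₁ o₂ := by
    apply Nat.coprime_of_dvd
    intro q hq h1 h2
    have := Nat.dvd_gcd h2 (hpr q hq h1)
    rw [hcop] at this
    exact hq.one_lt.ne' (Nat.dvd_one.mp this)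
  have hbez : (1 : ℤ) = (o₁ : ℤ) * Nat.gcdA o₁ o₂ + (o₂ : ℤ) * Nat.gcdB o₁ o₂ := by
    have := Nat.gcd_eq_gcd_ab o₁ o₂
    rw [hcop12] at this
    exact_mod_cast this
  set A := Nat.gcdA o₁ o₂
  set B := Nat.gcdB o₁ o₂
  have hao : a ^ ((o₁ : ℤ) * (o₂ : ℤ)) = 1 := by
    have : ((o₁ : ℤ) * (o₂ : ℤ)) = ((orderOf a : ℕ) : ℤ) := by rw [ho]; push_cast; ring
    rw [this, zpow_natCast, pow_orderOf_eq_one]
  refine ⟨a ^ ((o₂ : ℤ) * B), a ^ ((o₁ : ℤ) * A), ?_, ?_, ?_, ?_, ?_⟩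
  · rw [← zpow_add, add_comm, ← hbez, zpow_one]
  · -- z central
    set z := a ^ ((o₁ : ℤ) * A) with hz
    have hzo : z ^ o₂ = 1 := by
      rw [hz, ← zpow_natCast, ← zpow_mul]
      have : (o₁ : ℤ) * A * (o₂ : ℤ) = ((o₁ : ℤ) * (o₂ : ℤ)) * A := by ring
      rw [this, zpow_mul, hao, one_zpow]
    have hzk : z ^ k ∈ Subgroup.center G := by
      rw [hz, ← zpow_natCast, ← zpow_mul]
      have : (o₁ : ℤ) * A * (k : ℤ) = (k : ℤ) * ((o₁ : ℤ) * A) := by ring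
      rw [this, zpow_mul, zpow_natCast]
      exact Subgroup.zpow_mem _ hk _
    have hbez2 : (1 : ℤ) = (o₂ : ℤ) * Nat.gcdA o₂ k + (k : ℤ) * Nat.gcdB o₂ k := by
      have := Nat.gcd_eq_gcd_ab o₂ k
      rw [hcop] at this
      exact_mod_cast this
    have hzz : z = (z ^ k) ^ (Nat.gcdB o₂ k) := by
      conv_lhs => rw [← zpow_one z, hbez2, zpow_add, zpow_mul, zpow_natCast, hzo, one_zpow, one_mul,
        zpow_mul, zpow_natCast]
    rw [hzz]
    exact Subgroup.zpow_mem _ hzk _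
  · exact Subgroup.zpow_mem_zpowers a _
  · exact Subgroup.zpow_mem_zpowers a _
  · intro q hq hdvd
    apply hpr q hq
    refine dvd_trans hdvd (orderOf_dvd_of_pow_eq_one ?_)
    rw [← zpow_natCast, ← zpow_mul]
    have : (o₂ : ℤ) * B * (o₁ : ℤ) = ((o₁ : ℤ) * (o₂ : ℤ)) * B := by ring
    rw [this, zpow_mul, hao, one_zpow]

end Cfsg.Agent.S4138P
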