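import Mathlib

set_option autoImplicit false

/-!
# `SL_n(F)` is transitive on linearly independent pairs of vectors (`n ≥ 3`)
-/

namespace Cfsg.Agent.Helper14.SLVec

variable {F : Type*} [Field F]

/-- a linear automorphism taking one independent pair to another. -/
theorem exists_linearEquiv {V : Type*} [AddCommGroup V] [Module F V] [FiniteDimensional F V]
    {v w v' w' : V} (h : LinearIndependent F ![v, w]) (h' : LinearIndependent F ![v', w']) :
    ∃ f : V ≃ₗ[F] V, f v = v' ∧ f w = w' := by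
  have q0 : ∀ {x y : V} (hh : LinearIndependent F ![x, y]),
      (hh.linearCombinationEquiv (Finsupp.single 0 1) : V) = x := by
    intro x y hh
    simp
  have q1 : ∀ {x y : V} (hh : LinearIndependent F ![x, y]),
      (hh.linearCombinationEquiv (Finsupp.single 1 1) : V) = y := by
    intro x y hh
    simp
  let f := h.linearCombinationEquiv.symm ≪≫ₗ h'.linearCombinationEquiv
  have : FiniteDimensional F (Submodule.span F (Set.range ![v, w])) :=
    FiniteDimensional.span_of_finite F (Set.finite_range _)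
  obtain ⟨g, hg⟩ := Submodule.exists_linearEquiv_restrict_eq f
  refine ⟨g, ?_, ?_⟩
  · have h1 := hg (h.linearCombinationEquiv (Finsupp.single 0 1))
    rw [q0 h] at h1
    rw [← h1]
    simp [f, q0 h']
  · have h1 := hg (h.linearCombinationEquiv (Finsupp.single 1 1))
    rw [q1 h] at h1
    rw [← h1]
    simp [f, q1 h']

theorem std_indep (m : ℕ) :
    LinearIndependent F ![(Pi.single 0 1 : Fin (m + 3) → F), Pi.single 1 1] := by
  rw [LinearIndependent.pair_iff]
  intro s t hst
  have h0 := congrFun hst 0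
  have h1 := congrFun hst 1
  simp at h0 h1
  exact ⟨h0, h1⟩


/-- an element of `SL_n` with prescribed first two columns. -/
theorem exists_sl_std (m : ℕ) {v w : Fin (m + 3) → F} (h : LinearIndependent F ![v, w]) :
    ∃ g : Matrix.SpecialLinearGroup (Fin (m + 3)) F,
      (g : Matrix (Fin (m + 3)) (Fin (m + 3)) F).mulVec (Pi.single 0 1) = v ∧
      (g : Matrix (Fin (m + 3)) (Fin (m + 3)) F).mulVec (Pi.single 1 1) = w := by
  obtain ⟨f, hf0, hf1⟩ := exists_linearEquiv (std_indep (F := F) m) h
  set M : Matrix (Fin (m + 3)) (Fin (m + 3)) F := LinearMap.toMatrix' (f : (Fin (m + 3) → F) →ₗ[F] _)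
    with hM
  have hMv : ∀ x, M.mulVec x = f x := by
    intro x
    rw [hM, ← Matrix.toLin'_apply, Matrix.toLin'_toMatrix']
    rfl
  have hdet : M.det ≠ 0 := by
    rw [hM, LinearMap.det_toMatrix']
    exact (LinearEquiv.isUnit_det' f).ne_zero
  set D : Matrix (Fin (m + 3)) (Fin (m + 3)) F :=
    Matrix.diagonal (Function.update (fun _ => (1 : F)) 2 (M.det)⁻¹) with hD
  have hDdet : D.det = (M.det)⁻¹ := by
    rw [hD, Matrix.det_diagonal, Finset.prod_update_of_mem (Finset.mem_univ _)]
    simp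
  have h02 : (0 : Fin (m + 3)) ≠ 2 := by
    intro h
    have := congrArg Fin.val h
    rw [Fin.val_zero, Fin.val_two] at this
    omega
  have h12 : (1 : Fin (m + 3)) ≠ 2 := by
    intro h
    have := congrArg Fin.val h
    rw [Fin.val_one, Fin.val_two] at this
    omega
  have hD0 : D.mulVec (Pi.single 0 1) = Pi.single 0 1 := by
    rw [hD, Matrix.diagonal_mulVec_single, Function.update_of_ne h02, mul_one]
  have hD1 : D.mulVec (Pi.single 1 1) = Pi.single 1 1 := by
    rw [hD, Matrix.diagonal_mulVec_single, Function.update_of_ne h12, mul_one]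
  refine ⟨⟨M * D, by rw [Matrix.det_mul, hDdet, mul_inv_cancel₀ hdet]⟩, ?_, ?_⟩
  · show (M * D).mulVec _ = _
    rw [← Matrix.mulVec_mulVec, hD0, hMv, hf0]
  · show (M * D).mulVec _ = _
    rw [← Matrix.mulVec_mulVec, hD1, hMv, hf1]

/-- `SL_n(F)`, `n ≥ 3`, is transitive on linearly independent pairs. -/
theorem exists_sl (m : ℕ) {v w v' w' : Fin (m + 3) → F} (h : LinearIndependent F ![v, w])
    (h' : LinearIndependent F ![v', w']) :
    ∃ g : Matrix.SpecialLinearGroup (Fin (m + 3)) F,
      (g : Matrix (Fin (m + 3)) (Fin (m + 3)) F).mulVec v = v' ∧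
      (g : Matrix (Fin (m + 3)) (Fin (m + 3)) F).mulVec w = w' := by
  obtain ⟨g1, h10, h11⟩ := exists_sl_std m h
  obtain ⟨g2, h20, h21⟩ := exists_sl_std m h'
  have hinv : ∀ x, (↑(g1⁻¹) : Matrix (Fin (m + 3)) (Fin (m + 3)) F).mulVec
      ((g1 : Matrix (Fin (m + 3)) (Fin (m + 3)) F).mulVec x) = x := by
    intro x
    rw [Matrix.mulVec_mulVec, ← Matrix.SpecialLinearGroup.coe_mul, inv_mul_cancel,
      Matrix.SpecialLinearGroup.coe_one, Matrix.one_mulVec]
  refine ⟨g2 * g1⁻¹, ?_, ?_⟩
  · rw [Matrix.SpecialLinearGroup.coe_mul, ← Matrix.mulVec_mulVec, ← h10, hinv, h20]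
  · rw [Matrix.SpecialLinearGroup.coe_mul, ← Matrix.mulVec_mulVec, ← h11, hinv, h21]

end Cfsg.Agent.Helper14.SLVec
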